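import Cfsg.Agent.Lib.P2205.Grid

/-!
# Counting lemmas: orbits of subgroups, two-point stabilizers
-/

set_option autoImplicit false

namespace Cfsg.Agent.Lib.P2205

open MulAction Pointwise

variable {G Ω : Type*} [Group G] [MulAction G Ω] {p : ℕ}

/-- The two-point stabilizer. -/
abbrev G2 (G : Type*) {Ω : Type*} [Group G] [MulAction G Ω] (a b : Ω) : Subgroup G :=
  stabilizer G a ⊓ stabilizer G b

/-- Orbit of a point under a subgroup, as a set. -/
def orb (X : Subgroup G) (b : Ω) : Set Ω := {c | ∃ x ∈ X, x • b = c}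

lemma mem_orb {X : Subgroup G} {b c : Ω} : c ∈ orb X b ↔ ∃ x ∈ X, x • b = c := Iff.rfl

lemma self_mem_orb (X : Subgroup G) (b : Ω) : b ∈ orb X b := ⟨1, X.one_mem, one_smul _ _⟩

section Finite

variable [Finite G]

lemma card_eq_orb [Finite Ω] (X : Subgroup G) (b : Ω) :
    Nat.card X = (orb X b).ncard * Nat.card ↥(X ⊓ stabilizer G b) := by
  classical
  have h1 : Nat.card X = Nat.card (X ⧸ stabilizer X b) * Nat.card (stabilizer X b) :=
    Subgroup.card_eq_card_quotient_mul_card_subgroup _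
  have h2 : Nat.card (X ⧸ stabilizer X b) = (orb X b).ncard := by
    rw [← Nat.card_congr (MulAction.orbitEquivQuotientStabilizer X b)]
    have hset : MulAction.orbit X b = orb X b := by
      ext c
      constructor
      · rintro ⟨⟨x, hx⟩, rfl⟩
        exact ⟨x, hx, rfl⟩
      · rintro ⟨x, hx, rfl⟩
        exact ⟨⟨x, hx⟩, rfl⟩
    rw [← hset, Nat.card_coe_set_eq]
  have h3 : Nat.card (stabilizer X b) = Nat.card ↥(X ⊓ stabilizer G b) := by
    refine Nat.card_congr ⟨fun x => ⟨x.1.1, x.1.2, x.2⟩, fun x => ⟨⟨x.1, x.2.1⟩, x.2.2⟩, ?_, ?_⟩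
    · intro x; rfl
    · intro x; rfl
  rw [h1, h2, h3]

/-- Conjugation map on two-point stabilizers. -/
lemma card_G2_smul (g : G) (a b : Ω) : Nat.card (G2 G (g • a) (g • b)) = Nat.card (G2 G a b) := by
  refine Nat.card_congr ⟨fun x => ⟨g⁻¹ * x.1 * g, ?_, ?_⟩, fun x => ⟨g * x.1 * g⁻¹, ?_, ?_⟩, ?_, ?_⟩
  · have := x.2.1
    show (g⁻¹ * x.1 * g) • a = a
    simp only [mul_smul]
    rw [show (x.1 : G) • g • a = g • a from this, inv_smul_smul]
  · have := x.2.2
    show (g⁻¹ * x.1 * g) • b = b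
    simp only [mul_smul]
    rw [show (x.1 : G) • g • b = g • b from this, inv_smul_smul]
  · have := x.2.1
    show (g * x.1 * g⁻¹) • g • a = g • a
    simp only [mul_smul, inv_smul_smul]
    rw [show (x.1 : G) • a = a from this]
  · have := x.2.2
    show (g * x.1 * g⁻¹) • g • b = g • b
    simp only [mul_smul, inv_smul_smul]
    rw [show (x.1 : G) • b = b from this]
  · intro x; ext; simp [mul_assoc]
  · intro x; ext; simp [mul_assoc]

lemma card_G2_eq (h2 : IsMultiplyPretransitive G Ω 2) {a b c d : Ω} (hab : a ≠ b) (hcd : c ≠ d) :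
    Nat.card (G2 G a b) = Nat.card (G2 G c d) := by
  rw [is_two_pretransitive_iff] at h2
  obtain ⟨g, rfl, rfl⟩ := h2 hab hcd
  exact (card_G2_smul g a b).symm

/-- The stabilizer of `a` is transitive on the complement. -/
lemma orb_stab_eq (h2 : IsMultiplyPretransitive G Ω 2) {a b : Ω} (hab : a ≠ b) :
    orb (stabilizer G a) b = {a}ᶜ := by
  rw [is_two_pretransitive_iff] at h2
  ext c
  constructor
  · rintro ⟨x, hx, rfl⟩ hc
    have hx' : x • a = a := hx
    have hc' : x • b = a := hc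
    exact hab (by
      have : x • b = x • a := by rw [hc', hx']
      exact (smul_left_cancel x this).symm)
  · intro hc
    have hc' : a ≠ c := fun e => hc (by rw [Set.mem_singleton_iff, e])
    obtain ⟨g, hg, hg'⟩ := h2 hab hc'
    exact ⟨g, hg, hg'⟩

lemma card_stab_eq [Fintype Ω] (h2 : IsMultiplyPretransitive G Ω 2) (hn : Fintype.card Ω = p ^ 2 + 1)
    {a b : Ω} (hab : a ≠ b) : Nat.card (stabilizer G a) = p ^ 2 * Nat.card (G2 G a b) := by
  rw [card_eq_orb (stabilizer G a) b, orb_stab_eq h2 hab, Set.ncard_compl, Nat.card_eq_fintype_card, hn,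
    Set.ncard_singleton]
  simp

/-- A subgroup of index `p` in a `p`-group is normal (element form). -/
lemma conj_mem_of_card {X Y : Subgroup G} (hp : p.Prime) (hYX : Y ≤ X) (hX : IsPGroup p X)
    (hc : Nat.card X = p * Nat.card Y) {x y : G} (hx : x ∈ X) (hy : y ∈ Y) : x * y * x⁻¹ ∈ Y := by
  haveI : Fact p.Prime := ⟨hp⟩
  have hcY : Nat.card (Y.subgroupOf X) = Nat.card Y :=
    Nat.card_congr (Subgroup.subgroupOfEquivOfLe hYX).toEquiv
  have hindex : (Y.subgroupOf X).index = p := by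
    have h1 := Subgroup.card_mul_index (Y.subgroupOf X)
    rw [hcY, hc] at h1
    have hpos : 0 < Nat.card Y := Nat.card_pos
    have : Nat.card Y * (Y.subgroupOf X).index = Nat.card Y * p := by rw [h1]; ring
    exact Nat.eq_of_mul_eq_mul_left hpos this
  obtain ⟨k, hk⟩ := IsPGroup.iff_card.mp hX
  have hmin : (Nat.card X).minFac = p := by
    have hk0 : k ≠ 0 := by
      rintro rfl
      have : p ∣ Nat.card X := ⟨_, hc⟩
      rw [hk, pow_zero] at this
      exact hp.one_lt.ne' (Nat.dvd_one.mp this)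
    rw [hk]
    exact Nat.Prime.pow_minFac hp hk0
  have hnorm : (Y.subgroupOf X).Normal :=
    Subgroup.normal_of_index_eq_minFac_card (by rw [hindex, hmin])
  have := hnorm.conj_mem ⟨y, hYX hy⟩ (by simpa [Subgroup.mem_subgroupOf] using hy) ⟨x, hx⟩
  simpa [Subgroup.mem_subgroupOf] using this

/-- Fixed point set of a subgroup. -/
def fixS (R : Subgroup G) : Set Ω := {c | ∀ r ∈ R, r • c = c}

lemma fixS_map_conj (R : Subgroup G) (g : G) :
    (fixS (R.map (MulAut.conj g).toMonoidHom) : Set Ω) = g • (fixS R : Set Ω) := by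
  ext c
  rw [Set.mem_smul_set_iff_inv_smul_mem]
  constructor
  · intro h r hr
    have := h _ (Subgroup.mem_map_of_mem _ hr)
    simp only [MulEquiv.coe_toMonoidHom, MulAut.conj_apply, mul_smul] at this
    exact (smul_left_cancel g (by rw [this, smul_inv_smul]))
  · rintro h _ ⟨r, hr, rfl⟩
    simp only [MulEquiv.coe_toMonoidHom, MulAut.conj_apply, mul_smul]
    rw [h r hr, smul_inv_smul]

/-- Two subgroups of the right order inside `A` are conjugate in `A`. -/
lemma sylow_conj_in (hp : p.Prime) (A R₁ R₂ : Subgroup G) (h1 : R₁ ≤ A) (h2 : R₂ ≤ A)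
    (c1 : Nat.card R₁ = p ^ (Nat.card A).factorization p) (c2 : Nat.card R₂ = p ^ (Nat.card A).factorization p) :
    ∃ k ∈ A, R₂ = R₁.map (MulAut.conj k).toMonoidHom := by
  haveI : Fact p.Prime := ⟨hp⟩
  have e1 : Nat.card (R₁.subgroupOf A) = Nat.card R₁ :=
    Nat.card_congr (Subgroup.subgroupOfEquivOfLe h1).toEquiv
  have e2 : Nat.card (R₂.subgroupOf A) = Nat.card R₂ :=
    Nat.card_congr (Subgroup.subgroupOfEquivOfLe h2).toEquiv
  let S₁ : Sylow p A := Sylow.ofCard (R₁.subgroupOf A) (by rw [e1, c1])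
  let S₂ : Sylow p A := Sylow.ofCard (R₂.subgroupOf A) (by rw [e2, c2])
  obtain ⟨k, hk⟩ := MulAction.exists_smul_eq A S₁ S₂
  refine ⟨k, k.2, ?_⟩
  have hk' : (MulAut.conj k) • (R₁.subgroupOf A) = R₂.subgroupOf A := by
    have := congrArg (fun S : Sylow p A => (S : Subgroup A)) hk
    simpa [S₁, S₂, Sylow.coe_ofCard, Sylow.coe_subgroup_smul] using this
  ext x
  constructor
  · intro hx
    have hxA : x ∈ A := h2 hx
    have : (⟨x, hxA⟩ : A) ∈ R₂.subgroupOf A := by simpa [Subgroup.mem_subgroupOf] using hx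
    rw [← hk', Subgroup.mem_smul_pointwise_iff_exists] at this
    obtain ⟨y, hy, hyx⟩ := this
    refine ⟨y.1, by simpa [Subgroup.mem_subgroupOf] using hy, ?_⟩
    have := congrArg Subtype.val hyx
    simpa using this
  · rintro ⟨y, hy, rfl⟩
    have hyA : y ∈ A := h1 hy
    have : (MulAut.conj k) • (⟨y, hyA⟩ : A) ∈ R₂.subgroupOf A := by
      rw [← hk']
      exact Subgroup.smul_mem_pointwise_smul _ _ _ (by simpa [Subgroup.mem_subgroupOf] using hy)
    simpa [Subgroup.mem_subgroupOf] using this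

end Finite

end Cfsg.Agent.Lib.P2205
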