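import Mathlib

/-! Piece B of S2205: a 2-transitive faithful action on 5 points whose point stabilizer is
imprimitive on the remaining 4 points has `|G| = 20`. -/

namespace Cfsg.Agent.Lib.P2205

open MulAction SubMulAction
open scoped Pointwise

theorem case_two {G Ω : Type*} [Group G] [Finite G] [Fintype Ω] [MulAction G Ω] [FaithfulSMul G Ω]
    (hΩ : Fintype.card Ω = 5) (h2 : MulAction.IsMultiplyPretransitive G Ω 2) (a : Ω)
    (hnp : ¬ MulAction.IsPreprimitive ↥(MulAction.stabilizer G a)
      ↥(SubMulAction.ofStabilizer G a)) : Nat.card G = 20 := by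
  classical
  haveI hpre : IsPretransitive G Ω := isPretransitive_of_is_two_pretransitive (h2 := h2)
  have hcardΩ : Nat.card Ω = 5 := by rw [Nat.card_eq_fintype_card, hΩ]
  haveI hHΔ : IsPretransitive (stabilizer G a) (ofStabilizer G a) := by
    have h1 : IsMultiplyPretransitive (stabilizer G a) (ofStabilizer G a) 1 :=
      (ofStabilizer.isMultiplyPretransitive (G := G) (α := Ω) (n := 1) (a := a)).mp h2
    exact is_one_pretransitive_iff.mp h1
  have hΔ : Nat.card (ofStabilizer G a) = 4 := by
    rw [nat_card_ofStabilizer_eq, hcardΩ]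
  -- extract a proper nontrivial block
  have hblock : ∃ B : Set (ofStabilizer G a), IsBlock (stabilizer G a) B ∧
      ¬ B.Subsingleton ∧ B ≠ Set.univ := by
    by_contra hcon
    apply hnp
    refine ⟨fun {B} hB => ?_⟩
    by_contra hnt
    exact hcon ⟨B, hB, fun h => hnt (Or.inl h), fun h => hnt (Or.inr h)⟩
  obtain ⟨B, hB, hs, hu⟩ := hblock
  have hBne : B.Nonempty := by
    by_contra h
    rw [Set.not_nonempty_iff_eq_empty] at h
    exact hs (by rw [h]; exact Set.subsingleton_empty)
  have hBdvd : B.ncard ∣ 4 := by
    rw [← hΔ]; exact hB.ncard_dvd_card hBne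
  have hB1 : 1 < B.ncard := by
    rw [Set.one_lt_ncard]
    exact Set.not_subsingleton_iff.mp hs
  have hB4 : B.ncard ≠ 4 := by
    intro h
    apply hu
    rw [Set.eq_univ_iff_ncard, h, hΔ]
  have hB2 : B.ncard = 2 := by
    have hle := Nat.le_of_dvd (by norm_num) hBdvd
    interval_cases hc : B.ncard
    · rfl
    · norm_num at hBdvd
    · omega
  obtain ⟨u, v, huv, hBuv⟩ := Set.ncard_eq_two.mp hB2
  -- the two-point stabilizer fixes `v`
  have hfixv : ∀ w : stabilizer G a, w • u = u → w • v = v := by
    intro w hw
    have hwB : w • B = B := by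
      rw [isBlock_iff_smul_eq_of_mem] at hB
      apply hB (a := u) (by rw [hBuv]; simp) (by rw [hw, hBuv]; simp)
    have hmem : w • v ∈ B := by
      rw [← hwB]
      exact Set.smul_mem_smul_set (by rw [hBuv]; simp)
    rw [hBuv] at hmem
    rcases hmem with h | h
    · exfalso
      apply huv
      apply smul_left_cancel w
      rw [hw, h]
    · exact h
  -- two more points
  set U : Ω := (u : Ω) with hU
  set V : Ω := (v : Ω) with hV
  have hUa : U ≠ a := neq_of_mem_ofStabilizer G a
  have hVa : V ≠ a := neq_of_mem_ofStabilizer G a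
  have hUV : U ≠ V := fun h => huv (Subtype.ext h)
  obtain ⟨c, hc⟩ : ∃ c : Ω, c ∉ ({a, U, V} : Finset Ω) := by
    by_contra hcon
    push Not at hcon
    have h1 : (Finset.univ : Finset Ω) ⊆ {a, U, V} := fun x _ => hcon x
    have h3 := Finset.card_le_card h1
    rw [Finset.card_univ, hΩ] at h3
    have h4 : ({a, U, V} : Finset Ω).card ≤ 3 := Finset.card_le_three
    omega
  obtain ⟨d, hd⟩ : ∃ d : Ω, d ∉ ({a, U, V, c} : Finset Ω) := by
    by_contra hcon
    push Not at hcon
    have h1 : (Finset.univ : Finset Ω) ⊆ {a, U, V, c} := fun x _ => hcon x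
    have h3 := Finset.card_le_card h1
    rw [Finset.card_univ, hΩ] at h3
    have h4 : ({a, U, V, c} : Finset Ω).card ≤ 4 := Finset.card_le_four
    omega
  simp only [Finset.mem_insert, Finset.mem_singleton, not_or] at hc hd
  obtain ⟨hca, hcU, hcV⟩ := hc
  obtain ⟨hda, hdU, hdV, hdc⟩ := hd
  have hF : ∀ x : Ω, x = a ∨ x = U ∨ x = V ∨ x = c ∨ x = d := by
    have hFc : ({a, U, V, c, d} : Finset Ω).card = 5 := by
      rw [Finset.card_insert_of_notMem, Finset.card_insert_of_notMem, Finset.card_insert_of_notMem,
        Finset.card_insert_of_notMem, Finset.card_singleton]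
      · simp only [Finset.mem_singleton]; exact fun h => hdc h.symm
      · simp only [Finset.mem_insert, Finset.mem_singleton, not_or]
        exact ⟨fun h => hcV h.symm, fun h => hdV h.symm⟩
      · simp only [Finset.mem_insert, Finset.mem_singleton, not_or]
        exact ⟨hUV, fun h => hcU h.symm, fun h => hdU h.symm⟩
      · simp only [Finset.mem_insert, Finset.mem_singleton, not_or]
        exact ⟨hUa.symm, hVa.symm, fun h => hca h.symm, fun h => hda h.symm⟩
    have hFu : ({a, U, V, c, d} : Finset Ω) = Finset.univ :=
      Finset.eq_univ_of_card _ (by rw [hFc, hΩ])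
    intro x
    have hx : x ∈ ({a, U, V, c, d} : Finset Ω) := by rw [hFu]; exact Finset.mem_univ x
    simpa using hx
  -- an element fixing a, U, V, c is trivial
  have htriv : ∀ g : G, g • a = a → g • U = U → g • V = V → g • c = c → g = 1 := by
    intro g h1 h2' h3 h4
    apply FaithfulSMul.eq_of_smul_eq_smul (α := Ω)
    intro x
    rw [one_smul]
    rcases hF x with hx | hx | hx | hx | hx
    · rw [hx]; exact h1
    · rw [hx]; exact h2'
    · rw [hx]; exact h3
    · rw [hx]; exact h4
    · -- x = d
      rw [hx]
      rcases hF (g • d) with h | h | h | h | h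
      · exact absurd (smul_left_cancel g (h.trans h1.symm)) hda
      · exact absurd (smul_left_cancel g (h.trans h2'.symm)) hdU
      · exact absurd (smul_left_cancel g (h.trans h3.symm)) hdV
      · exact absurd (smul_left_cancel g (h.trans h4.symm)) hdc
      · exact h
  -- W = two-point stabilizer
  set H : Subgroup G := stabilizer G a with hHdef
  set W : Subgroup H := stabilizer H u with hWdef
  have hWfix : ∀ w : W, ((w : H) : G) • U = U ∧ ((w : H) : G) • V = V := by
    intro w
    have h1 : (w : H) • u = u := w.2
    have h2' : (w : H) • v = v := hfixv w h1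
    constructor
    · exact congrArg Subtype.val h1
    · exact congrArg Subtype.val h2'
  have hWcard : Nat.card W ≤ 2 := by
    have himg : ∀ w : W, ((w : H) : G) • c = c ∨ ((w : H) : G) • c = d := by
      intro w
      obtain ⟨h1, h2'⟩ := hWfix w
      have h0 : ((w : H) : G) • a = a := (w : H).2
      rcases hF (((w : H) : G) • c) with h | h | h | h | h
      · exact absurd (smul_left_cancel _ (h.trans h0.symm)) hca
      · exact absurd (smul_left_cancel _ (h.trans h1.symm)) hcU
      · exact absurd (smul_left_cancel _ (h.trans h2'.symm)) hcV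
      · exact Or.inl h
      · exact Or.inr h
    let f : W → ({c, d} : Finset Ω) := fun w =>
      ⟨((w : H) : G) • c, by
        rcases himg w with h | h <;> simp [h]⟩
    have hf : Function.Injective f := by
      intro w w' hww
      have hww' : ((w : H) : G) • c = ((w' : H) : G) • c := congrArg Subtype.val hww
      have h1 : ((w : H) : G)⁻¹ * ((w' : H) : G) = 1 := by
        apply htriv
        · have h0 : ((w : H) : G) • a = a := (w : H).2
          have h0' : ((w' : H) : G) • a = a := (w' : H).2
          rw [mul_smul, h0', inv_smul_eq_iff, h0]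
        · rw [mul_smul, (hWfix w').1, inv_smul_eq_iff, (hWfix w).1]
        · rw [mul_smul, (hWfix w').2, inv_smul_eq_iff, (hWfix w).2]
        · rw [mul_smul, ← hww', inv_smul_smul]
      have h2' : ((w : H) : G) = ((w' : H) : G) := inv_mul_eq_one.mp h1
      exact Subtype.ext (Subtype.ext h2')
    have := Nat.card_le_card_of_injective f hf
    rw [Nat.card_eq_fintype_card (α := ({c, d} : Finset Ω)), Fintype.card_coe,
      Finset.card_pair (fun h => hdc h.symm)] at this
    exact this
  -- orders
  have hGH : Nat.card G = 5 * Nat.card H := by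
    have h1 := Subgroup.index_mul_card H
    rw [hHdef, index_stabilizer, ← hHdef, orbit_eq_univ, Set.ncard_univ, hcardΩ] at h1
    exact h1.symm
  have hHW : Nat.card H = 4 * Nat.card W := by
    have h1 := Subgroup.index_mul_card W
    rw [hWdef, index_stabilizer, ← hWdef, orbit_eq_univ, Set.ncard_univ, hΔ] at h1
    exact h1.symm
  have hWpos : 0 < Nat.card W := Nat.card_pos
  by_cases hW1 : Nat.card W = 1
  · rw [hGH, hHW, hW1]
  exfalso
  have hW2 : Nat.card W = 2 := by omega
  have hG40 : Nat.card G = 40 := by rw [hGH, hHW, hW2]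
  have hH8 : Nat.card H = 8 := by rw [hHW, hW2]
  -- Sylow 5
  haveI : Fact (Nat.Prime 5) := ⟨by norm_num⟩
  obtain ⟨P⟩ : Nonempty (Sylow 5 G) := inferInstance
  obtain ⟨k, hk⟩ := IsPGroup.iff_card.mp P.isPGroup'
  have hPidx := Subgroup.card_mul_index (P : Subgroup G)
  have hnd : ¬ 5 ∣ (P : Subgroup G).index := P.not_dvd_index
  rw [hG40, hk] at hPidx
  have hk1 : k = 1 := by
    rcases k with _ | _ | k
    · simp at hPidx; rw [hPidx] at hnd; norm_num at hnd
    · rfl
    · exfalso
      have : 25 ∣ 40 := by
        rw [← hPidx]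
        exact Dvd.dvd.mul_right ⟨5 ^ k, by ring⟩ _
      norm_num at this
  subst hk1
  have hPcard : Nat.card (P : Subgroup G) = 5 := by rw [hk, pow_one]
  have hidx : (P : Subgroup G).index = 8 := by omega
  have hn1 : Nat.card (Sylow 5 G) = 1 := by
    have h1 := P.card_dvd_index
    have h2' := card_sylow_modEq_one 5 G
    rw [hidx] at h1
    have h3 := Nat.le_of_dvd (by norm_num) h1
    interval_cases hc : Nat.card (Sylow 5 G)
    · norm_num at h1
    · rfl
    · revert h2'; decide
    · revert h1; decide
    · revert h2'; decide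
    · revert h1; decide
    · revert h1; decide
    · revert h1; decide
    · revert h2'; decide
  haveI : Subsingleton (Sylow 5 G) := (Nat.card_eq_one_iff_unique.mp hn1).1
  haveI hPn : (P : Subgroup G).Normal := P.normal_of_subsingleton
  -- P is transitive
  haveI hprim : IsPreprimitive G Ω := isPreprimitive_of_is_two_pretransitive h2
  have hPne : (P : Subgroup G) ≠ ⊥ := by
    intro h
    rw [h] at hPcard
    simp at hPcard
  have hnotfix : fixedPoints (P : Subgroup G) Ω ≠ Set.univ := by
    intro h
    apply hPne
    rw [eq_bot_iff]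
    intro g hg
    rw [Subgroup.mem_bot]
    apply FaithfulSMul.eq_of_smul_eq_smul (α := Ω)
    intro x
    have hx : x ∈ fixedPoints (P : Subgroup G) Ω := by rw [h]; trivial
    rw [one_smul]
    exact hx ⟨g, hg⟩
  haveI hPtr : IsPretransitive (P : Subgroup G) Ω :=
    IsQuasiPreprimitive.isPretransitive_of_normal (G := G) (N := (P : Subgroup G)) hnotfix
  haveI hcyc : IsCyclic (P : Subgroup G) := isCyclic_of_prime_card hPcard
  -- H embeds in Aut P
  let φ : H →* MulAut (P : Subgroup G) :=
    (MulAut.conjNormal (H := (P : Subgroup G))).comp H.subtype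
  have hφ : Function.Injective φ := by
    rw [injective_iff_map_eq_one]
    intro w hw
    apply Subtype.ext
    apply FaithfulSMul.eq_of_smul_eq_smul (α := Ω)
    intro y
    obtain ⟨p, hp⟩ := exists_smul_eq (P : Subgroup G) a y
    have hp' : (p : G) • a = y := hp
    have hcomm : (w : G) * p = p * w := by
      have h1 := congrArg (fun f : MulAut (P : Subgroup G) => ((f p : (P : Subgroup G)) : G)) hw
      simp only [φ, MonoidHom.comp_apply, Subgroup.coe_subtype, MulAut.conjNormal_apply,
        MulAut.one_apply] at h1
      rw [mul_inv_eq_iff_eq_mul] at h1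
      exact h1
    have hwa : (w : G) • a = a := w.2
    rw [Subgroup.coe_one, one_smul, ← hp', ← mul_smul, hcomm, mul_smul, hwa]
  have hle := Nat.card_le_card_of_injective φ hφ
  rw [hH8, IsCyclic.card_mulAut, hPcard, Nat.totient_prime (by norm_num)] at hle
  omega

end Cfsg.Agent.Lib.P2205
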