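import Mathlib

namespace Cfsg.Agent.Lib.P2205

/-- Coprime subgroup of a group normalizing a regular cyclic subgroup of prime order has a fixed point
(barycenter argument). -/
theorem coprime_fixed_point {K X : Type*} [Group K] [Finite K] [Finite X] [Nonempty X] [MulAction K X] {p : ℕ} (hp : p.Prime) (z : K) (hz : orderOf z = p) (hnorm : (Subgroup.zpowers z).Normal) (hX : Nat.card X = p) (htr : ∀ x y : X, ∃ i : ℕ, z ^ i • x = y) (W : Subgroup K) (hW : Nat.Coprime (Nat.card W) p) : ∃ c : X, ∀ w ∈ W, w • c = c := by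
  classical
  haveI := Fintype.ofFinite W
  obtain ⟨x₀⟩ := ‹Nonempty X›
  set Z := Subgroup.zpowers z with hZ
  haveI hnormZ : Z.Normal := hnorm
  letI instC : CommGroup Z := IsCyclic.commGroup
  have hcardZ : Nat.card Z = p := by rw [hZ, Nat.card_zpowers, hz]
  have hsurj : Function.Surjective (fun a : Z => (a : K) • x₀) := by
    intro x
    obtain ⟨i, hi⟩ := htr x₀ x
    exact ⟨⟨z ^ i, Subgroup.npow_mem_zpowers z i⟩, hi⟩
  have hinj : Function.Injective (fun a : Z => (a : K) • x₀) := by
    haveI := Fintype.ofFinite Z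
    haveI := Fintype.ofFinite X
    have : Fintype.card Z = Fintype.card X := by
      rw [← Nat.card_eq_fintype_card, ← Nat.card_eq_fintype_card, hcardZ, hX]
    exact ((Fintype.bijective_iff_surjective_and_card _).2 ⟨hsurj, this⟩).1
  choose c hc using fun w : W => hsurj ((w : K) • x₀)
  simp only at hc
  -- cocycle identity
  have hcoc : ∀ w' w : W, c (w' * w) = MulAut.conjNormal (w' : K) (c w) * c w' := by
    intro w' w
    apply hinj
    show ((c (w' * w) : Z) : K) • x₀ = ((MulAut.conjNormal (w' : K) (c w) * c w' : Z) : K) • x₀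
    rw [hc, Subgroup.coe_mul, Subgroup.coe_mul, MulAut.conjNormal_apply, mul_smul, mul_smul, hc w',
      ← hc w]
    simp only [mul_smul, inv_smul_smul]
  -- the barycenter
  set P : Z := ∏ w : W, c w with hP
  have hcop : Nat.Coprime (Nat.card Z) (Nat.card W) := by rw [hcardZ]; exact hW.symm
  obtain ⟨r, hr⟩ := (powCoprime hcop).surjective P
  have hr' : r ^ Nat.card W = P := hr
  have hmem : ∀ w' : W, MulAut.conjNormal (w' : K) r * c w' = r := by
    intro w'
    apply (powCoprime hcop).injective
    show (MulAut.conjNormal (w' : K) r * c w') ^ Nat.card W = r ^ Nat.card W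
    rw [mul_pow, ← map_pow, hr']
    have h1 : (∏ w : W, c (w' * w)) = P := by
      rw [hP]
      exact Fintype.prod_equiv (Equiv.mulLeft w') _ _ (fun _ => rfl)
    have h2 : (∏ w : W, c (w' * w)) = MulAut.conjNormal (w' : K) P * c w' ^ Nat.card W := by
      simp only [hcoc, Finset.prod_mul_distrib, Finset.prod_const, Finset.card_univ, hP, map_prod,
        Nat.card_eq_fintype_card]
    rw [← h2, h1]
  refine ⟨(r : K) • x₀, fun w hw => ?_⟩
  have h3 := hmem ⟨w, hw⟩
  have h4 : ((MulAut.conjNormal w r * c ⟨w, hw⟩ : Z) : K) • x₀ = (r : K) • x₀ := by rw [h3]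
  rw [Subgroup.coe_mul, MulAut.conjNormal_apply, mul_smul, hc ⟨w, hw⟩] at h4
  simpa [mul_smul] using h4

end Cfsg.Agent.Lib.P2205
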