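import Cfsg.Agent.Lib.P2205.DiffSet

/-!
# Piece J of S2205, algebra part: permutation matrices and coefficients
-/

set_option autoImplicit false
set_option linter.unusedSectionVars false
set_option linter.style.haveILetI false

namespace Cfsg.Agent.Lib.P2205

open MonoidAlgebra

section
variable (G Ω : Type*) [Group G] [MulAction G Ω] [Fintype Ω] [DecidableEq Ω]

/-- Permutation matrices. -/
noncomputable def dmRho : G →* Matrix Ω Ω ℤ where
  toFun g := Matrix.of fun e e' => if g • e' = e then 1 else 0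
  map_one' := by
    ext e e'
    simp [Matrix.one_apply, eq_comm]
  map_mul' g h := by
    ext e e'
    simp only [Matrix.of_apply, Matrix.mul_apply, mul_smul]
    simp

end

variable {G Ω : Type*} [Group G] [MulAction G Ω] [Fintype Ω] [DecidableEq Ω]

lemma dmRho_apply (g : G) (e e' : Ω) : dmRho G Ω g e e' = if g • e' = e then 1 else 0 := rfl

lemma dmRho_inv (g : G) : dmRho G Ω g⁻¹ = (dmRho G Ω g).transpose := by
  ext e e'
  simp only [dmRho_apply, Matrix.transpose_apply]
  by_cases h : g • e = e'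
  · subst h; simp
  · rw [if_neg h, if_neg]
    rintro rfl
    exact h (by simp)

/-- Invariance of the entries of a matrix commuting with a permutation matrix. -/
lemma dm_entry_of_commute {M : Matrix Ω Ω ℤ} {k : G} (h : Commute M (dmRho G Ω k)) (e e' : Ω) :
    M (k • e) (k • e') = M e e' := by
  have h1 := congrFun (congrFun h.eq (k • e)) e'
  simp only [Matrix.mul_apply, dmRho_apply] at h1
  rw [Finset.sum_eq_single (k • e'), Finset.sum_eq_single e] at h1
  · simpa using h1
  · intro x _ hx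
    rw [if_neg (fun h' => hx (smul_left_cancel k h')), zero_mul]
  · intro h'; exact absurd (Finset.mem_univ _) h'
  · intro x _ hx
    rw [if_neg (fun h' => hx h'.symm), mul_zero]
  · intro h'; exact absurd (Finset.mem_univ _) h'

variable {A : Type*} [CommGroup A] [Fintype A] [DecidableEq A] (ι : A →* G)

/-- The matrix of an element of the group ring of `A`. -/
noncomputable def dmPhi : MonoidAlgebra ℤ A →ₐ[ℤ] Matrix Ω Ω ℤ :=
  MonoidAlgebra.lift ℤ (Matrix Ω Ω ℤ) A ((dmRho G Ω).comp ι)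

lemma dmPhi_of (a : A) : dmPhi (Ω := Ω) ι (of ℤ A a) = dmRho G Ω (ι a) := by
  simp [dmPhi, MonoidAlgebra.lift_of]

lemma dmPhi_entry {b : Ω} (hfree : ∀ u v : A, ι u • b = ι v • b → u = v) (X : MonoidAlgebra ℤ A)
    (t : A) : dmPhi (Ω := Ω) ι X (ι t • b) b = X.coeff t := by
  induction X using MonoidAlgebra.induction_linear with
  | zero => simp
  | add x y hx hy =>
    rw [map_add, Matrix.add_apply, hx, hy, coeff_add, Finsupp.add_apply]
  | single m r =>
    rw [dmPhi, MonoidAlgebra.lift_single, Matrix.smul_apply, coeff_single, Finsupp.single_apply,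
      MonoidHom.comp_apply, dmRho_apply]
    by_cases h : m = t
    · subst h; simp
    · rw [if_neg h, if_neg (fun h' => h (hfree _ _ h'))]; simp

/-- **Coefficient lemma.** If the matrix of `X` commutes with all `k ∈ K`, and `K` acts
2-transitively on the free orbit `A • b`, `X` has constant coefficients off `1`. -/
lemma dm_coeff_const {b : Ω} (hfree : ∀ u v : A, ι u • b = ι v • b → u = v) (K : Subgroup G)
    (h2 : ∀ s t : A, s ≠ 1 → t ≠ 1 → ∃ k ∈ K, k • b = b ∧ k • (ι s • b) = ι t • b)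
    (X : MonoidAlgebra ℤ A) (hX : ∀ k ∈ K, Commute (dmPhi (Ω := Ω) ι X) (dmRho G Ω k))
    (s t : A) (hs : s ≠ 1) (ht : t ≠ 1) : X.coeff s = X.coeff t := by
  obtain ⟨k, hk, hkb, hks⟩ := h2 s t hs ht
  have h := dm_entry_of_commute (hX k hk) (ι s • b) b
  rw [hks, hkb, dmPhi_entry ι hfree, dmPhi_entry ι hfree] at h
  exact h.symm

/-- The operator `T = ∑_D ρ(d y)`. -/
noncomputable def dmT (D : Finset A) (y : G) : Matrix Ω Ω ℤ := ∑ d ∈ D, dmRho G Ω (ι d * y)

/-- **Algebraic core.** -/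
theorem dm_core {p : ℕ} (hp : p.Prime) (hodd : p ≠ 2) (hA : Fintype.card A = p) {b : Ω}
    (hfree : ∀ u v : A, ι u • b = ι v • b → u = v) (K : Subgroup G)
    (h2 : ∀ s t : A, s ≠ 1 → t ≠ 1 → ∃ k ∈ K, k • b = b ∧ k • (ι s • b) = ι t • b)
    (D : Finset A) (hD0 : D.Nonempty) (hD1 : D.card < p) (y : G) (hy : ∀ a : A, ι a * y = y * ι a)
    (y' : A) (hy' : ι y' = y ^ p)
    (hT : ∀ k ∈ K, Commute (dmT (Ω := Ω) ι D y) (dmRho G Ω k)) :
    D.card = 1 ∨ D.card = p - 1 := by
  classical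
  haveI : Fact p.Prime := ⟨hp⟩
  haveI : Nontrivial A := Fintype.one_lt_card_iff_nontrivial.1 (by rw [hA]; exact hp.one_lt)
  obtain ⟨t₁, ht₁⟩ : ∃ t : A, t ≠ 1 := exists_ne 1
  set S : MonoidAlgebra ℤ A := ∑ d ∈ D, of ℤ A d with hS
  set S' : MonoidAlgebra ℤ A := ∑ d ∈ D, of ℤ A d⁻¹ with hS'
  have hρy : ∀ a : A, Commute (dmPhi (Ω := Ω) ι (of ℤ A a)) (dmRho G Ω y) := by
    intro a
    rw [dmPhi_of]
    show dmRho G Ω (ι a) * dmRho G Ω y = dmRho G Ω y * dmRho G Ω (ι a)
    rw [← map_mul, ← map_mul, hy]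
  have hTeq : dmT (Ω := Ω) ι D y = dmPhi (Ω := Ω) ι S * dmRho G Ω y := by
    rw [dmT, hS, map_sum, Finset.sum_mul]
    refine Finset.sum_congr rfl fun d _ => ?_
    rw [dmPhi_of, map_mul]
  have hSy : Commute (dmPhi (Ω := Ω) ι S) (dmRho G Ω y) := by
    rw [hS, map_sum]
    exact Commute.sum_left _ _ _ fun d _ => hρy d
  -- `h2` of the difference set lemma
  have hpow : dmT (Ω := Ω) ι D y ^ p = dmPhi (Ω := Ω) ι (S ^ p * of ℤ A y') := by
    rw [hTeq, hSy.mul_pow, map_mul, map_pow, dmPhi_of, hy', map_pow]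
  have hE := dm_coeff_const ι hfree K h2 (S ^ p * of ℤ A y') (fun k hk => by
    rw [← hpow]
    exact (hT k hk).pow_left p)
  have hcoeff : ∀ t : A, (S ^ p * of ℤ A y').coeff (t * y') = (S ^ p).coeff t := by
    intro t
    rw [of_apply, coeff_mul_single_mul]
    simp
  -- `h1`
  have hT' : ∀ k ∈ K, Commute (dmPhi (Ω := Ω) ι (S * S')) (dmRho G Ω k) := by
    intro k hk
    have hTT' : dmPhi (Ω := Ω) ι (S * S') = dmT (Ω := Ω) ι D y * (dmT (Ω := Ω) ι D y).transpose := by
      have htr : (dmT (Ω := Ω) ι D y).transpose = dmRho G Ω y⁻¹ * dmPhi (Ω := Ω) ι S' := by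
        rw [dmT, Matrix.transpose_sum, hS', map_sum, Finset.mul_sum]
        refine Finset.sum_congr rfl fun d _ => ?_
        rw [← dmRho_inv, dmPhi_of, ← map_mul, mul_inv_rev, map_inv]
      have hyy : dmRho G Ω y * dmRho G Ω y⁻¹ = 1 := by rw [← map_mul]; simp
      rw [htr, hTeq, map_mul, mul_assoc, ← mul_assoc (dmRho G Ω y), hyy, one_mul]
    rw [hTT']
    have hc : Commute (dmT (Ω := Ω) ι D y).transpose (dmRho G Ω k) := by
      have h1 := (hT k⁻¹ (K.inv_mem hk)).eq
      have h2 := congrArg Matrix.transpose h1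
      rw [Matrix.transpose_mul, Matrix.transpose_mul, dmRho_inv, Matrix.transpose_transpose] at h2
      exact h2.symm
    exact (hT k hk).mul_left hc
  have hX := dm_coeff_const ι hfree K h2 (S * S') hT'
  refine diffset_card hp hodd hA D hD0 hD1 ((S * S').coeff t₁) (fun s hs => hX s t₁ hs ht₁)
    y'⁻¹ ((S ^ p * of ℤ A y').coeff t₁) (fun t ht => ?_)
  rw [← hcoeff]
  exact hE _ t₁ (fun h => ht (eq_inv_of_mul_eq_one_left h)) ht₁

end Cfsg.Agent.Lib.P2205
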