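import Mathlib

/-! Piece E of S2205: in a solvable transitive faithful group of prime degree `p`,
every element of order `p` generates a normal subgroup. -/

namespace Cfsg.Agent.Lib.P2205

open scoped commutatorElement

theorem normal_zpowers_of_solvable_prime_degree {K X : Type*} [Group K] [Finite K]
    [Group.IsSolvable K] [Finite X] [MulAction K X] [FaithfulSMul K X]
    [MulAction.IsPretransitive K X] {p : ℕ} (hp : p.Prime) (hX : Nat.card X = p)
    (z : K) (hz : orderOf z = p) : (Subgroup.zpowers z).Normal := by
  classical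
  haveI : Fact p.Prime := ⟨hp⟩
  -- the last nontrivial derived subgroup
  obtain ⟨n, hn⟩ := (Group.isSolvable_def K).mp ‹Group.IsSolvable K›
  have hex : ∃ m, derivedSeries K m = ⊥ := ⟨n, hn⟩
  have hne : derivedSeries K 0 ≠ ⊥ := by
    intro h
    have : z = 1 := by
      have hmem : z ∈ derivedSeries K 0 := by simp
      rw [h] at hmem
      simpa using hmem
    rw [this, orderOf_one] at hz
    exact hp.one_lt.ne hz
  have hfind : Nat.find hex ≠ 0 := by
    intro h0
    have := Nat.find_spec hex
    rw [h0] at this
    exact hne this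
  obtain ⟨m, hm⟩ := Nat.exists_eq_succ_of_ne_zero hfind
  have hmsucc : derivedSeries K (m + 1) = ⊥ := by
    have := Nat.find_spec hex
    rwa [hm] at this
  have hmne : derivedSeries K m ≠ ⊥ := by
    apply Nat.find_min hex
    rw [hm]
    exact Nat.lt_succ_self m
  set A : Subgroup K := derivedSeries K m with hA
  haveI hAn : A.Normal := derivedSeries_normal K m
  have hAcomm : ∀ a ∈ A, ∀ b ∈ A, a * b = b * a := by
    intro a ha b hb
    have h1 : ⁅a, b⁆ ∈ derivedSeries K (m + 1) := by
      rw [derivedSeries_succ]
      exact Subgroup.commutator_mem_commutator ha hb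
    rw [hmsucc, Subgroup.mem_bot, commutatorElement_eq_one_iff_mul_comm] at h1
    exact h1
  -- A is transitive on X
  haveI hprim : MulAction.IsPreprimitive K X :=
    MulAction.IsPreprimitive.of_prime_card (by rw [hX]; exact hp)
  have hAnotfix : MulAction.fixedPoints A X ≠ Set.univ := by
    intro h
    apply hmne
    rw [eq_bot_iff]
    intro a ha
    rw [Subgroup.mem_bot]
    apply FaithfulSMul.eq_of_smul_eq_smul (α := X)
    intro x
    have hx : x ∈ MulAction.fixedPoints A X := by rw [h]; trivial
    rw [one_smul]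
    exact hx ⟨a, ha⟩
  haveI hAtr : MulAction.IsPretransitive A X :=
    MulAction.IsQuasiPreprimitive.isPretransitive_of_normal (G := K) (N := A) hAnotfix
  haveI : Nonempty X := by
    have : Nat.card X ≠ 0 := by rw [hX]; exact hp.ne_zero
    exact (Nat.card_pos_iff.mp (Nat.pos_of_ne_zero this)).1
  obtain ⟨x⟩ := ‹Nonempty X›
  -- A is regular
  have hAfree : ∀ a ∈ A, a • x = x → a = 1 := by
    intro a ha hax
    apply FaithfulSMul.eq_of_smul_eq_smul (α := X)
    intro y
    obtain ⟨b, hb⟩ := MulAction.exists_smul_eq A x y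
    rw [one_smul, ← hb]
    show a • ((b : K) • x) = (b : K) • x
    rw [← mul_smul, hAcomm a ha b b.2, mul_smul, hax]
  have hbij : Function.Bijective (fun a : A => (a : K) • x) := by
    constructor
    · intro a b hab
      have hab' : ((a : K)⁻¹ * b) • x = x := by
        rw [mul_smul]
        have hab'' : (a : K) • x = (b : K) • x := hab
        rw [← hab'', inv_smul_smul]
      have := hAfree _ (A.mul_mem (A.inv_mem a.2) b.2) hab'
      ext
      exact (inv_mul_eq_one.mp this)
    · intro y
      obtain ⟨b, hb⟩ := MulAction.exists_smul_eq A x y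
      exact ⟨b, hb⟩
  have hAcard : Nat.card A = p := by
    rw [← hX]
    exact Nat.card_congr (Equiv.ofBijective _ hbij)
  -- z centralizes A
  haveI : IsCyclic A := isCyclic_of_prime_card hAcard
  have hφ : (MulAut.conjNormal z : MulAut A) = 1 := by
    have h1 : orderOf (MulAut.conjNormal z : MulAut A) ∣ p := by
      rw [← hz]
      exact orderOf_map_dvd _ _
    have h2 : orderOf (MulAut.conjNormal z : MulAut A) ∣ Nat.card (MulAut A) :=
      orderOf_dvd_natCard _
    rw [IsCyclic.card_mulAut, hAcard, Nat.totient_prime hp] at h2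
    have h3 : orderOf (MulAut.conjNormal z : MulAut A) ∣ 1 := by
      have hcop : Nat.Coprime p (p - 1) := by
        exact (Nat.Prime.coprime_iff_not_dvd hp).2
          (Nat.not_dvd_of_pos_of_lt (by have := hp.two_le; omega) (by have := hp.two_le; omega))
      exact Nat.Coprime.eq_one_of_dvd (Nat.Coprime.coprime_dvd_left h1 hcop) h2 ▸ dvd_rfl
    rw [Nat.dvd_one, orderOf_eq_one_iff] at h3
    exact h3
  have hzcomm : ∀ b ∈ A, z * b = b * z := by
    intro b hb
    have h1 := congrArg (fun f : MulAut A => ((f ⟨b, hb⟩ : A) : K)) hφ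
    simp only [MulAut.conjNormal_apply, MulAut.one_apply] at h1
    rw [mul_inv_eq_iff_eq_mul] at h1
    exact h1
  obtain ⟨a, ha⟩ := MulAction.exists_smul_eq A x (z • x)
  have ha' : (a : K) • x = z • x := ha
  have hza : z = a := by
    have h1 : (a : K)⁻¹ * z = 1 := by
      apply FaithfulSMul.eq_of_smul_eq_smul (α := X)
      intro y
      obtain ⟨b, hb⟩ := MulAction.exists_smul_eq A x y
      have hb' : (b : K) • x = y := hb
      rw [one_smul, ← hb', ← mul_smul, mul_assoc, hzcomm b b.2, ← mul_assoc,
        hAcomm _ (A.inv_mem a.2) _ b.2, mul_assoc, mul_smul, mul_smul, ← ha', inv_smul_smul]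
    exact (inv_mul_eq_one.mp h1).symm
  have hzA : z ∈ A := by rw [hza]; exact a.2
  have hle : Subgroup.zpowers z ≤ A := by
    rw [Subgroup.zpowers_le]; exact hzA
  have heq : Subgroup.zpowers z = A := by
    apply Subgroup.eq_of_le_of_card_ge hle
    rw [hAcard, Nat.card_zpowers, hz]
  rw [heq]
  exact hAn

end Cfsg.Agent.Lib.P2205
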