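import Cfsg.Agent.Lib.P2205.Reg
import Cfsg.Agent.Lib.P2205.DiamondAlg
import Cfsg.Agent.Lib.P2205.SolvPrime
import Cfsg.Agent.Lib.P2205.CoprimeFix
import Cfsg.Agent.S0675

/-!
# Piece J of S2205: the diamond lemma
-/

set_option autoImplicit false
set_option linter.unusedSectionVars false
set_option linter.style.haveILetI false

namespace Cfsg.Agent.Lib.P2205

open MulAction Pointwise

variable {G Ω : Type*} [Group G] [MulAction G Ω] {p : ℕ}

lemma Fam.K_smul_mem (F : Fam G Ω p) {a e d : Ω} {k : G} (hk : k ∈ F.K a) (hae : a ≠ e)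
    (hd : d ∈ F.L a e) : k • d ∈ F.L a e := by
  have h1 := F.smul_mem_L hae hk.1 hd
  rwa [hk.2 e hae.symm] at h1

variable [Finite G] [Fintype Ω] [FaithfulSMul G Ω]

/-- The core of the 2-transitive case, for an abstract commutative group `A` mapping onto the
central block-transitive subgroup. -/
theorem diamond_core {A : Type*} [CommGroup A] [Fintype A] [DecidableEq A] (ι : A →* G)
    (hι : Function.Injective ι) (F : Fam G Ω p) (hp : p.Prime) (hodd : p ≠ 2)
    (hn : Fintype.card Ω = p ^ 2 + 1) (h2 : IsMultiplyPretransitive G Ω 2)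
    (hcop : ∀ a b : Ω, a ≠ b → ¬ p ∣ Nat.card (G2 G a b)) {a b c : Ω} (hab : a ≠ b) (hac : a ≠ c)
    {P : Subgroup G} (hP : IsReg p a P) (hιP : ∀ u, ι u ∈ P)
    (hιK : ∀ u, ι u ∈ F.K a) (hA : Fintype.card A = p)
    (horb : ∀ e, a ≠ e → ∀ d ∈ F.L a e, ∃ u : A, ι u • e = d)
    (hpow : ∀ y ∈ P, ∃ y' : A, ι y' = y ^ p)
    (h2tr : ∀ d₁ ∈ F.L a b, ∀ d₂ ∈ F.L a b, ∀ d₃ ∈ F.L a b, ∀ d₄ ∈ F.L a b, d₁ ≠ d₂ → d₃ ≠ d₄ →
      ∃ k ∈ F.K a, k • d₁ = d₃ ∧ k • d₂ = d₄) :
    ∃ c' ∈ F.L a c, ∀ k ∈ F.K a, k • b = b → k • c' = c' := by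
  classical
  have hPcomm : ∀ x ∈ P, ∀ x' ∈ P, x * x' = x' * x := fun x hx x' hx' => hP.comm hp hx hx'
  -- freeness
  have hfree : ∀ e, a ≠ e → ∀ u v : A, ι u • e = ι v • e → u = v := by
    intro e he u v huv
    have h1 : (ι v)⁻¹ * ι u ∈ P := P.mul_mem (P.inv_mem (hιP v)) (hιP u)
    have h3 : ((ι v)⁻¹ * ι u) • e = e := by
      rw [mul_smul, huv, inv_smul_smul]
    have h4 := IsReg.free hp hn h2 hcop hP h1 he h3
    apply hι
    rw [inv_mul_eq_one] at h4
    exact h4.symm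
  obtain ⟨y, hyP, hyb⟩ := IsReg.trans hp hn h2 hcop hP hab hac
  set K := F.K a with hK
  set W : Subgroup G := K ⊓ stabilizer G b with hW
  have hWK : ∀ w ∈ W, w ∈ K := fun w hw => hw.1
  have hKa : ∀ k ∈ K, k • a = a := fun k hk => hk.1
  have hPa : ∀ x ∈ P, x • a = a := fun x hx => hP.1 hx
  -- the difference set
  set D : Finset A := Finset.univ.filter (fun d : A => ι d • c ∈ orb W c) with hD
  have hDmem : ∀ d : A, d ∈ D ↔ ι d • c ∈ orb W c := by
    intro d; simp [hD]
  have horbL : ∀ e ∈ orb W c, e ∈ F.L a c := by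
    rintro _ ⟨w, hw, rfl⟩
    exact F.K_smul_mem (hWK w hw) hac (F.self_mem a c hac)
  have horbW : ∀ w ∈ W, ∀ e ∈ orb W c, w • e ∈ orb W c := by
    rintro w hw _ ⟨w', hw', rfl⟩
    exact ⟨w * w', W.mul_mem hw hw', mul_smul _ _ _⟩
  have hD0 : D.Nonempty := ⟨1, by rw [hDmem]; simpa using self_mem_orb W c⟩
  have hD1 : D.card < p := by
    by_contra hge
    have hDu : D = Finset.univ := by
      apply Finset.eq_univ_of_card
      have := Finset.card_le_univ D
      rw [hA] at this ⊢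
      omega
    have heq : orb W c = F.L a c := by
      apply Set.Subset.antisymm horbL
      intro d hd
      obtain ⟨u, rfl⟩ := horb c hac d hd
      rw [← hDmem, hDu]
      exact Finset.mem_univ _
    have h1 := card_eq_orb W c
    rw [heq, F.ncard a c hac] at h1
    have h3 : Nat.card W ∣ Nat.card (G2 G a b) := by
      apply Subgroup.card_dvd_of_le
      intro w hw
      exact ⟨hKa w hw.1, hw.2⟩
    exact hcop a b hab (Dvd.dvd.trans ⟨_, h1⟩ h3)
  -- the key property for `e = b`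
  have hcomm' : ∀ (u : A) (x : G), x ∈ P → ι u * x = x * ι u := fun u x hx => hPcomm _ (hιP u) _ hx
  have hsubb : ∀ k ∈ K, ∀ d ∈ D, ∃ d' ∈ D, k • (ι d * y) • b = (ι d' * y) • k • b := by
    intro k hk d hd
    obtain ⟨q, hq⟩ := horb b hab (k • b) (F.K_smul_mem hk hab (F.self_mem a b hab))
    have hw : (ι q)⁻¹ * k ∈ W := by
      refine ⟨K.mul_mem (K.inv_mem (hιK q)) hk, ?_⟩
      show ((ι q)⁻¹ * k) • b = b
      rw [mul_smul, ← hq, inv_smul_smul]
    have hdc : (ι d * y) • b = ι d • c := by rw [mul_smul, hyb]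
    have h1 : ((ι q)⁻¹ * k) • ι d • c ∈ orb W c := horbW _ hw _ ((hDmem d).1 hd)
    obtain ⟨d₁, hd₁⟩ := horb c hac _ (horbL _ h1)
    refine ⟨d₁, (hDmem d₁).2 (by rw [hd₁]; exact h1), ?_⟩
    have h3 : k • ι d • c = ι q • ι d₁ • c := by
      rw [hd₁, mul_smul, smul_inv_smul]
    rw [hdc, h3, ← hq, mul_smul, ← hyb]
    have h4 : ι q • ι d₁ • y • b = ι d₁ • y • ι q • b := by
      rw [← mul_smul, ← mul_smul, ← mul_smul, ← mul_smul]
      congr 1
      rw [hcomm' q _ (hιP d₁), mul_assoc, hcomm' q y hyP, mul_assoc]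
    exact h4
  -- the general case
  have hsub : ∀ k ∈ K, ∀ e, a ≠ e → ∀ d ∈ D, ∃ d' ∈ D, k • (ι d * y) • e = (ι d' * y) • k • e := by
    intro k hk e he d hd
    obtain ⟨x, hxP, rfl⟩ := IsReg.trans hp hn h2 hcop hP hab he
    have hk' : x⁻¹ * k * x ∈ K := by
      have h1 := F.conj_mem_K hk x⁻¹
      have h3 : x⁻¹ • a = a := inv_smul_eq_iff.mpr (hPa x hxP).symm
      rwa [h3, inv_inv] at h1
    obtain ⟨d', hd', h'⟩ := hsubb _ hk' d hd
    refine ⟨d', hd', ?_⟩
    have hyd : ∀ u : A, (ι u * y) * x = x * (ι u * y) := fun u =>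
      hPcomm _ (P.mul_mem (hιP u) hyP) _ hxP
    have e1 : k • (ι d * y) • x • b = x • (x⁻¹ * k * x) • (ι d * y) • b := by
      simp only [← mul_smul]
      congr 1
      rw [show k * ((ι d * y) * x) = k * (x * (ι d * y)) by rw [hyd]]
      group
    have e2 : (ι d' * y) • k • x • b = x • (ι d' * y) • (x⁻¹ * k * x) • b := by
      simp only [← mul_smul]
      congr 1
      rw [← mul_assoc x, ← hyd]
      group
    rw [e1, h', e2]
  -- injectivity of the maps `d ↦ d y e`
  have hinj : ∀ e, a ≠ e → Function.Injective (fun d : A => (ι d * y) • e) := by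
    intro e he u v huv
    simp only [mul_smul] at huv
    have hye : a ≠ y • e := by
      intro h
      apply he
      have := congrArg (fun x => y⁻¹ • x) h
      simpa [inv_smul_eq_iff.mpr (hPa y hyP).symm] using this
    exact hfree _ hye u v huv
  -- commuting
  have hT : ∀ k ∈ K, Commute (dmT (Ω := Ω) ι D y) (dmRho G Ω k) := by
    intro k hk
    show dmT (Ω := Ω) ι D y * dmRho G Ω k = dmRho G Ω k * dmT (Ω := Ω) ι D y
    ext e e'
    simp only [dmT, Finset.sum_mul, Finset.mul_sum, ← map_mul, Matrix.sum_apply, dmRho_apply]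
    by_cases he' : a = e'
    · subst he'
      refine Finset.sum_congr rfl fun d _ => ?_
      have h1 : (ι d * y * k) • a = a := by
        rw [mul_smul, hKa k hk, mul_smul, hPa y hyP, hPa _ (hιP d)]
      have h3 : (k * (ι d * y)) • a = a := by
        rw [mul_smul, mul_smul, hPa y hyP, hPa _ (hιP d), hKa k hk]
      rw [h1, h3]
    · have hke' : a ≠ k • e' := fun h => he' (by
        have := congrArg (fun x => k⁻¹ • x) h
        simpa [inv_smul_eq_iff.mpr (hKa k hk).symm] using this)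
      have hinj1 := hinj _ hke'
      have hinj2 : Function.Injective (fun d : A => k • (ι d * y) • e') := fun u v huv =>
        hinj _ he' (smul_left_cancel k huv)
      have himg : D.image (fun d : A => k • (ι d * y) • e') =
          D.image (fun d : A => (ι d * y) • k • e') := by
        apply Finset.eq_of_subset_of_card_le
        · intro x hx
          obtain ⟨d, hd, rfl⟩ := Finset.mem_image.mp hx
          obtain ⟨d', hd', h'⟩ := hsub k hk e' he' d hd
          exact Finset.mem_image.mpr ⟨d', hd', h'.symm⟩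
        · rw [Finset.card_image_of_injective _ hinj1, Finset.card_image_of_injective _ hinj2]
      have e1 : ∑ d ∈ D, (if (ι d * y * k) • e' = e then (1 : ℤ) else 0) =
          ∑ x ∈ D.image (fun d : A => (ι d * y) • k • e'), (if x = e then (1 : ℤ) else 0) := by
        rw [Finset.sum_image (fun u _ v _ h => hinj1 h)]
        refine Finset.sum_congr rfl fun d _ => ?_
        rw [mul_smul (ι d * y) k]
      have e2 : ∑ d ∈ D, (if (k * (ι d * y)) • e' = e then (1 : ℤ) else 0) =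
          ∑ x ∈ D.image (fun d : A => k • (ι d * y) • e'), (if x = e then (1 : ℤ) else 0) := by
        rw [Finset.sum_image (fun u _ v _ h => hinj2 h)]
        refine Finset.sum_congr rfl fun d _ => ?_
        rw [mul_smul k]
      rw [e1, e2, himg]
  -- 2-transitivity
  have hb : b ∈ F.L a b := F.self_mem a b hab
  have hinL : ∀ u : A, ι u • b ∈ F.L a b := fun u => F.K_smul_mem (hιK u) hab hb
  have h2' : ∀ s t : A, s ≠ 1 → t ≠ 1 → ∃ k ∈ K, k • b = b ∧ k • (ι s • b) = ι t • b := by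
    intro s t hs ht
    have hne : ∀ u : A, u ≠ 1 → b ≠ ι u • b := by
      intro u hu h
      apply hu
      apply hfree b hab
      rw [map_one, one_smul]
      exact h.symm
    exact h2tr b hb _ (hinL s) b hb _ (hinL t) (hne s hs) (hne t ht)
  obtain ⟨y', hy'⟩ := hpow y hyP
  have hcard := dm_core ι hp hodd hA (hfree b hab) K h2' D hD0 hD1 y
    (fun u => hcomm' u y hyP) y' hy' hT
  -- the end
  rcases hcard with h1 | h1
  · refine ⟨c, F.self_mem a c hac, fun k hk hkb => ?_⟩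
    have hkW : k ∈ W := ⟨hk, hkb⟩
    have h3 : k • c ∈ orb W c := ⟨k, hkW, rfl⟩
    obtain ⟨u, hu⟩ := horb c hac _ (horbL _ h3)
    have huD : u ∈ D := (hDmem u).2 (by rw [hu]; exact h3)
    have h1D : (1 : A) ∈ D := (hDmem 1).2 (by simpa using self_mem_orb W c)
    obtain ⟨d₀, hd₀⟩ := Finset.card_eq_one.mp h1
    have e1 : u = d₀ := by rw [hd₀] at huD; simpa using huD
    have e2 : (1 : A) = d₀ := by rw [hd₀] at h1D; simpa using h1D
    rw [← hu, e1, ← e2]
    simp
  · have hc : (Finset.univ \ D).card = 1 := by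
      rw [Finset.card_sdiff_of_subset (Finset.subset_univ _), Finset.card_univ, hA, h1]
      have := hp.two_le
      omega
    obtain ⟨u₀, hu₀⟩ := Finset.card_eq_one.mp hc
    have hu₀D : u₀ ∉ D := by
      have : u₀ ∈ Finset.univ \ D := by rw [hu₀]; simp
      exact (Finset.mem_sdiff.mp this).2
    refine ⟨ι u₀ • c, F.K_smul_mem (hιK u₀) hac (F.self_mem a c hac), fun k hk hkb => ?_⟩
    have hkW : k ∈ W := ⟨hk, hkb⟩
    obtain ⟨u, hu⟩ := horb c hac _ (F.K_smul_mem hk hac (F.K_smul_mem (hιK u₀) hac (F.self_mem a c hac)))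
    have huD : u ∉ D := by
      intro huD
      apply hu₀D
      rw [hDmem]
      have h3 := horbW k⁻¹ (W.inv_mem hkW) _ ((hDmem u).1 huD)
      rwa [hu, inv_smul_smul] at h3
    have : u ∈ Finset.univ \ D := Finset.mem_sdiff.mpr ⟨Finset.mem_univ _, huD⟩
    rw [hu₀] at this
    have e1 : u = u₀ := by simpa using this
    rw [← hu, e1]

lemma pow_mem_zpowers_of_reg (hp : p.Prime) {a : Ω} {P : Subgroup G} (hP : IsReg p a P) {z : G}
    (hzP : z ∈ P) (hzo : orderOf z = p) {y : G} (hy : y ∈ P) : y ^ p ∈ Subgroup.zpowers z := by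
  haveI : Fact p.Prime := ⟨hp⟩
  haveI hc : IsMulCommutative P := IsPGroup.isMulCommutative_of_card_eq_prime_sq hP.2
  have hle : Subgroup.zpowers z ≤ P := Subgroup.zpowers_le.2 hzP
  have hZ : Nat.card ((Subgroup.zpowers z).subgroupOf P) = p := by
    rw [Nat.card_congr (Subgroup.subgroupOfEquivOfLe hle).toEquiv, Nat.card_zpowers, hzo]
  have hI : ((Subgroup.zpowers z).subgroupOf P).index = p := by
    have h1 := ((Subgroup.zpowers z).subgroupOf P).card_mul_index
    rw [hZ, hP.2, pow_two] at h1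
    exact Nat.eq_of_mul_eq_mul_left hp.pos h1
  have h := Subgroup.pow_index_mem ((Subgroup.zpowers z).subgroupOf P) ⟨y, hy⟩
  rw [hI] at h
  exact Subgroup.mem_subgroupOf.1 h

/-- The action of the kernel at `a` on the block `L a e`. -/
@[reducible] def Fam.blockAct (F : Fam G Ω p) {a e : Ω} (hae : a ≠ e) :
    MulAction (F.K a) (F.L a e) where
  smul k d := ⟨(k : G) • (d : Ω), F.K_smul_mem k.2 hae d.2⟩
  one_smul d := Subtype.ext (one_smul G (d : Ω))
  mul_smul k l d := Subtype.ext (mul_smul (k : G) (l : G) (d : Ω))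

/-- **Diamond lemma.** -/
theorem diamond (F : Fam G Ω p) (hp : p.Prime) (hodd : p ≠ 2) (hn : Fintype.card Ω = p ^ 2 + 1)
    (h2 : IsMultiplyPretransitive G Ω 2) (hcop : ∀ a b : Ω, a ≠ b → ¬ p ∣ Nat.card (G2 G a b))
    {a b c : Ω} (hab : a ≠ b) (hac : a ≠ c) :
    ∃ c' ∈ F.L a c, ∀ k ∈ F.K a, k • b = b → k • c' = c' := by
  classical
  obtain ⟨P, hP, -⟩ := exists_isReg_ge hp hn h2 hcop a ⊥ bot_le IsPGroup.of_bot
  obtain ⟨z, hzP, hzK, hzo, hz⟩ := exists_z hp hn h2 hcop F hP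
  letI actB : MulAction (F.K a) (F.L a b) := F.blockAct hab
  letI actC : MulAction (F.K a) (F.L a c) := F.blockAct hac
  let z' : F.K a := ⟨z, hzK⟩
  have hz'o : orderOf z' = p := by
    rw [← Subgroup.orderOf_coe]
    exact hzo
  have hzpow : ∀ i : ℕ, ((z' ^ i : F.K a) : G) = z ^ i := fun i => rfl
  have hXb : Nat.card (F.L a b) = p := by rw [Nat.card_coe_set_eq, F.ncard a b hab]
  have hXc : Nat.card (F.L a c) = p := by rw [Nat.card_coe_set_eq, F.ncard a c hac]
  have htrB : ∀ x y : F.L a b, ∃ i : ℕ, z' ^ i • x = y := by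
    intro x y
    have hax : a ≠ x.1 := (F.ne_of_mem a b x.1 hab x.2).symm
    have hy : y.1 ∈ F.L a x.1 := by rw [F.eq_of_mem a b x.1 hab x.2]; exact y.2
    obtain ⟨i, hi⟩ := hz x.1 hax y.1 hy
    exact ⟨i, Subtype.ext hi⟩
  have htrC : ∀ x y : F.L a c, ∃ i : ℕ, z' ^ i • x = y := by
    intro x y
    have hax : a ≠ x.1 := (F.ne_of_mem a c x.1 hac x.2).symm
    have hy : y.1 ∈ F.L a x.1 := by rw [F.eq_of_mem a c x.1 hac x.2]; exact y.2
    obtain ⟨i, hi⟩ := hz x.1 hax y.1 hy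
    exact ⟨i, Subtype.ext hi⟩
  haveI hfaith : FaithfulSMul (F.K a) (F.L a b) := ⟨by
    intro k l hkl
    have h1 : ((l⁻¹ * k : F.K a) : G) = 1 := by
      refine kernel_faithful hp hn h2 hcop F hab (l⁻¹ * k).2 fun d hd => ?_
      have h3 := congrArg Subtype.val (hkl ⟨d, hd⟩)
      have h4 : (k : G) • d = (l : G) • d := h3
      show ((l : G)⁻¹ * (k : G)) • d = d
      rw [mul_smul, h4, inv_smul_smul]
    have h5 : l⁻¹ * k = 1 := Subtype.ext h1
    rw [inv_mul_eq_one] at h5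
    exact h5.symm⟩
  haveI hpre : IsPretransitive (F.K a) (F.L a b) := ⟨fun x y => by
    obtain ⟨i, hi⟩ := htrB x y
    exact ⟨_, hi⟩⟩
  letI : Fintype (F.L a b) := Fintype.ofFinite _
  have hα : (Fintype.card (F.L a b)).Prime := by
    rw [← Nat.card_eq_fintype_card, hXb]
    exact hp
  let φ := MulAction.toPermHom (F.K a) (F.L a b)
  haveI hpreH : IsPretransitive φ.range (F.L a b) := ⟨fun x y => by
    obtain ⟨i, hi⟩ := htrB x y
    exact ⟨⟨φ (z' ^ i), ⟨_, rfl⟩⟩, hi⟩⟩
  rcases Cfsg.Agent.S0675.result hα φ.range with hsol | h2H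
  · -- solvable case
    have hinj : Function.Injective φ.rangeRestrict := by
      intro k l hkl
      have h1 : φ k = φ l := congrArg Subtype.val hkl
      apply hfaith.eq_of_smul_eq_smul
      intro x
      exact congrArg (fun f : Equiv.Perm (F.L a b) => f x) h1
    haveI : Group.IsSolvable (F.K a) := Group.isSolvable_of_isSolvable_injective hinj
    have hnorm := normal_zpowers_of_solvable_prime_degree (K := F.K a) (X := F.L a b) hp hXb z' hz'o
    set W' : Subgroup (F.K a) := (stabilizer G b).subgroupOf (F.K a) with hW'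
    have hcop' : Nat.Coprime (Nat.card W') p := by
      refine ((Nat.Prime.coprime_iff_not_dvd hp).2 fun hd => ?_).symm
      refine hcop a b hab (hd.trans ?_)
      have hle : W'.map (F.K a).subtype ≤ G2 G a b := by
        rintro _ ⟨w, hw, rfl⟩
        exact ⟨w.2.1, Subgroup.mem_subgroupOf.1 hw⟩
      have h1 := Subgroup.card_dvd_of_le hle
      rwa [Subgroup.card_map_of_injective (F.K a).subtype_injective] at h1
    haveI : Nonempty (F.L a c) := ⟨⟨c, F.self_mem a c hac⟩⟩
    obtain ⟨c', hc'⟩ := coprime_fixed_point (K := F.K a) (X := F.L a c) hp z' hz'o hnorm hXc htrC W'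
      hcop'
    refine ⟨c'.1, c'.2, fun k hk hkb => ?_⟩
    have h1 := hc' ⟨k, hk⟩ (Subgroup.mem_subgroupOf.2 hkb)
    exact congrArg Subtype.val h1
  · -- 2-transitive case
    rw [is_two_pretransitive_iff] at h2H
    have h2tr : ∀ d₁ ∈ F.L a b, ∀ d₂ ∈ F.L a b, ∀ d₃ ∈ F.L a b, ∀ d₄ ∈ F.L a b, d₁ ≠ d₂ → d₃ ≠ d₄ →
        ∃ k ∈ F.K a, k • d₁ = d₃ ∧ k • d₂ = d₄ := by
      intro d₁ h₁ d₂ h₂ d₃ h₃ d₄ h₄ h12 h34
      obtain ⟨⟨_, k, rfl⟩, hg1, hg2⟩ := h2H (a := ⟨d₁, h₁⟩) (b := ⟨d₂, h₂⟩) (c := ⟨d₃, h₃⟩)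
        (d := ⟨d₄, h₄⟩) (fun h => h12 (congrArg Subtype.val h)) (fun h => h34 (congrArg Subtype.val h))
      exact ⟨k.1, k.2, congrArg Subtype.val hg1, congrArg Subtype.val hg2⟩
    letI : CommGroup (Subgroup.zpowers z) := IsCyclic.commGroup
    letI : Fintype (Subgroup.zpowers z) := Fintype.ofFinite _
    letI : DecidableEq (Subgroup.zpowers z) := Classical.decEq _
    have hle : Subgroup.zpowers z ≤ P := Subgroup.zpowers_le.2 hzP
    have hleK : Subgroup.zpowers z ≤ F.K a := Subgroup.zpowers_le.2 hzK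
    exact diamond_core (Subgroup.zpowers z).subtype Subtype.val_injective F hp hodd hn h2 hcop hab hac
      hP (fun u => hle u.2) (fun u => hleK u.2)
      (by rw [← Nat.card_eq_fintype_card, Nat.card_zpowers, hzo])
      (fun e he d hd => by
        obtain ⟨i, hi⟩ := hz e he d hd
        exact ⟨⟨z ^ i, Subgroup.npow_mem_zpowers z i⟩, hi⟩)
      (fun y hy => ⟨⟨y ^ p, pow_mem_zpowers_of_reg hp hP hzP hzo hy⟩, rfl⟩)
      h2tr

end Cfsg.Agent.Lib.P2205
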