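import Mathlib

set_option autoImplicit false
set_option linter.unusedSectionVars false
set_option linter.style.haveILetI false

namespace Cfsg.Agent.Lib.P2205

open MonoidAlgebra

section
variable {A : Type*} [CommGroup A] [Fintype A] [DecidableEq A]

/-- The sum of all group elements. -/
noncomputable def dsZ (A : Type*) [CommGroup A] [Fintype A] : MonoidAlgebra ℤ A := ∑ a : A, of ℤ A a

theorem ds_of_coeff (a t : A) : (of ℤ A a).coeff t = if a = t then 1 else 0 := by
  rw [of_apply, coeff_single, Finsupp.single_apply]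

theorem ds_one_coeff (t : A) : (1 : MonoidAlgebra ℤ A).coeff t = if t = 1 then 1 else 0 := by
  rw [one_def, coeff_single, Finsupp.single_apply]
  simp only [eq_comm]

theorem ds_intCast_mul_coeff (a : ℤ) (x : MonoidAlgebra ℤ A) (t : A) :
    (((a : ℤ) : MonoidAlgebra ℤ A) * x).coeff t = a * x.coeff t := by
  rw [← zsmul_eq_mul, coeff_smul, Finsupp.smul_apply, smul_eq_mul]

theorem ds_intCast_coeff (a : ℤ) (t : A) :
    ((a : ℤ) : MonoidAlgebra ℤ A).coeff t = if t = 1 then a else 0 := by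
  have h := ds_intCast_mul_coeff a (1 : MonoidAlgebra ℤ A) t
  rw [mul_one, ds_one_coeff] at h
  rw [h]
  split_ifs <;> simp

theorem dsZ_coeff (t : A) : (dsZ A).coeff t = 1 := by
  rw [dsZ, coeff_sum, Finsupp.finsetSum_apply]
  simp only [ds_of_coeff]
  simp

theorem ds_of_mul_Z (a : A) : of ℤ A a * dsZ A = dsZ A := by
  rw [dsZ, Finset.mul_sum]
  simp only [← map_mul]
  exact Fintype.sum_equiv (Equiv.mulLeft a) _ _ (fun _ => rfl)

theorem ds_Z_mul_Z : dsZ A * dsZ A = ((Fintype.card A : ℤ) : MonoidAlgebra ℤ A) * dsZ A := by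
  nth_rw 1 [dsZ]
  rw [Finset.sum_mul]
  simp only [ds_of_mul_Z, Finset.sum_const, Finset.card_univ]
  rw [← zsmul_eq_mul, natCast_zsmul]

theorem ds_pow_form (N l : ℤ) (n : ℕ) : ∃ g : ℤ, (((N : ℤ) : MonoidAlgebra ℤ A) + ((l : ℤ) : MonoidAlgebra ℤ A) * dsZ A) ^ n =
    ((N ^ n : ℤ) : MonoidAlgebra ℤ A) + ((g : ℤ) : MonoidAlgebra ℤ A) * dsZ A := by
  induction n with
  | zero => exact ⟨0, by simp⟩
  | succ n ih =>
    obtain ⟨g, hg⟩ := ih
    refine ⟨N ^ n * l + g * N + g * l * (Fintype.card A : ℤ), ?_⟩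
    rw [pow_succ, hg]
    push_cast
    have h := ds_Z_mul_Z (A := A)
    push_cast at h
    calc _ = ((N : MonoidAlgebra ℤ A) ^ n * N) + ((N : MonoidAlgebra ℤ A) ^ n * l + g * N) * dsZ A + g * l * (dsZ A * dsZ A) := by ring
      _ = _ := by rw [h]; ring

theorem ds_frob {p : ℕ} (hp : p.Prime) (hA : Fintype.card A = p) (T : Finset A) :
    ∃ r : MonoidAlgebra ℤ A, (∑ d ∈ T, of ℤ A d) ^ p = ((T.card : ℤ) : MonoidAlgebra ℤ A) + ((p : ℤ) : MonoidAlgebra ℤ A) * r := by
  induction T using Finset.induction_on with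
  | empty =>
    refine ⟨0, ?_⟩
    simp [hp.ne_zero]
  | insert a T ha ih =>
    obtain ⟨r, hr⟩ := ih
    obtain ⟨r', hr'⟩ := exists_add_pow_prime_eq hp (of ℤ A a) (∑ d ∈ T, of ℤ A d)
    rw [Finset.sum_insert ha, hr', hr, Finset.card_insert_of_notMem ha, ← map_pow, ← hA, pow_card_eq_one, map_one]
    rw [hA]
    refine ⟨r + (of ℤ A a) * (∑ d ∈ T, of ℤ A d) * r', ?_⟩
    push_cast
    ring

theorem ds_frob_coeff {p : ℕ} (hp : p.Prime) (hA : Fintype.card A = p) (T : Finset A) (t : A) :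
    (p : ℤ) ∣ ((∑ d ∈ T, of ℤ A d) ^ p).coeff t - (if t = 1 then (T.card : ℤ) else 0) := by
  obtain ⟨r, hr⟩ := ds_frob hp hA T
  rw [hr, coeff_add, Finsupp.add_apply, ds_intCast_mul_coeff, ds_intCast_coeff]
  exact ⟨r.coeff t, by ring⟩

theorem ds_final {p k lam N b : ℤ} (hk1 : 1 ≤ k) (hkp : k + 1 ≤ p) (hN1 : 1 ≤ N) (hNk : N ≤ k)
    (hkk : k * k = N + lam * p) (hN : N = k - lam) (hbN : b ^ 2 = N) (hcong' : p ∣ b - k ∨ p ∣ b + k) :
    k = 1 ∨ k = p - 1 := by
  have hp0 : 0 < p := by omega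
  have hb1 : b ≤ b ^ 2 := by nlinarith [sq_nonneg (b - 1), sq_nonneg b]
  have hb2 : -b ≤ b ^ 2 := by nlinarith [sq_nonneg (b + 1), sq_nonneg b]
  have hb3 : b < p := by omega
  have hb4 : -p < b := by omega
  have hb0 : b ≠ 0 := by
    rintro rfl
    simp at hbN
    omega
  have key : b ^ 2 = k ^ 2 ∨ b ^ 2 = (p - k) ^ 2 := by
    rcases hcong' with ⟨c, hc⟩ | ⟨c, hc⟩
    · have hc1 : c = 0 ∨ c = -1 := by
        have h1 : p * c < p * 1 := by rw [← hc]; omega
        have h2 : p * (-2) < p * c := by rw [← hc]; omega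
        have h3 : c < 1 := lt_of_mul_lt_mul_left h1 hp0.le
        have h4 : -2 < c := lt_of_mul_lt_mul_left h2 hp0.le
        omega
      rcases hc1 with rfl | rfl
      · left
        have : b = k := by linarith
        rw [this]
      · right
        have : b = k - p := by linarith
        rw [this]
        ring
    · have hc1 : c = 0 ∨ c = 1 := by
        have h1 : p * (-1) < p * c := by rw [← hc]; omega
        have h2 : p * c < p * 2 := by rw [← hc]; omega
        have h3 : c < 2 := lt_of_mul_lt_mul_left h2 hp0.le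
        have h4 : -1 < c := lt_of_mul_lt_mul_left h1 hp0.le
        omega
      rcases hc1 with rfl | rfl
      · left
        have : b = -k := by linarith
        rw [this]
        ring
      · right
        have : b = p - k := by linarith
        rw [this]
  rcases key with h | h
  · left
    have h3 : k ^ 2 ≤ k := by
      rw [← h, hbN]
      exact hNk
    nlinarith
  · right
    obtain ⟨m, hm⟩ : ∃ m : ℤ, m = p - k := ⟨_, rfl⟩
    rw [← hm] at h
    have hm1 : 1 ≤ m := by omega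
    have hpm : p = k + m := by omega
    have e : N = m ^ 2 := by rw [← hbN, h]
    have hlamv : lam = k - m ^ 2 := by omega
    have h5 : m * (m + k) * (1 - m) = 0 := by
      rw [hpm, hlamv, e] at hkk
      linear_combination (-1) * hkk
    have h6 : (1 - m) = 0 := by
      have h7 : m * (m + k) ≠ 0 := by
        apply mul_ne_zero <;> omega
      exact (mul_eq_zero.1 h5).resolve_left h7
    omega

/-- The group ring computation: a difference set whose `p`-th power is almost constant is trivial. -/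
theorem diffset_card {p : ℕ} (hp : p.Prime) (hodd : p ≠ 2) (hA : Fintype.card A = p) (D : Finset A) (hD0 : D.Nonempty) (hD1 : D.card < p) (lam : ℤ) (h1 : ∀ s : A, s ≠ 1 → ((∑ d ∈ D, MonoidAlgebra.of ℤ A d) * (∑ d ∈ D, MonoidAlgebra.of ℤ A d⁻¹)).coeff s = lam) (q₀ : A) (β : ℤ) (h2 : ∀ t : A, t ≠ q₀ → ((∑ d ∈ D, MonoidAlgebra.of ℤ A d) ^ p).coeff t = β) : D.card = 1 ∨ D.card = p - 1 := by
  classical
  set S := ∑ d ∈ D, MonoidAlgebra.of ℤ A d with hS
  set S' := ∑ d ∈ D, MonoidAlgebra.of ℤ A d⁻¹ with hS'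
  set Z := dsZ A with hZ
  set k : ℤ := (D.card : ℤ) with hk
  have hp2 : 2 ≤ p := hp.two_le
  haveI : Fact p.Prime := ⟨hp⟩
  obtain ⟨t₁, ht₁⟩ : ∃ t : A, t ≠ 1 := by
    haveI : Nontrivial A := Fintype.one_lt_card_iff_nontrivial.1 (by omega)
    exact exists_ne 1
  -- the product
  have hSS : S * S' = ((k - lam : ℤ) : MonoidAlgebra ℤ A) + ((lam : ℤ) : MonoidAlgebra ℤ A) * Z := by
    ext t
    rw [coeff_add, Finsupp.add_apply, ds_intCast_mul_coeff, ds_intCast_coeff, hZ, dsZ_coeff, mul_one]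
    by_cases ht : t = 1
    · subst ht
      simp only [if_true, sub_add_cancel]
      rw [hS, hS', Finset.sum_mul_sum, coeff_sum, Finsupp.finsetSum_apply]
      simp only [coeff_sum, Finsupp.finsetSum_apply, ← map_mul, ds_of_coeff, mul_inv_eq_one]
      simp only [Finset.sum_ite_eq]
      have : ∀ i ∈ D, (if i ∈ D then (1 : ℤ) else 0) = 1 := fun i hi => by simp [hi]
      rw [Finset.sum_congr rfl this]
      simp [hk]
    · rw [if_neg ht, zero_add]
      exact h1 t ht
  -- the augmentation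
  let ε : MonoidAlgebra ℤ A →+* ℤ := (MonoidAlgebra.lift ℤ ℤ A (1 : A →* ℤ)).toRingHom
  have hε : ∀ a, ε (of ℤ A a) = 1 := by
    intro a
    show MonoidAlgebra.lift ℤ ℤ A (1 : A →* ℤ) (of ℤ A a) = 1
    rw [lift_of]
    rfl
  have hεS : ε S = k := by
    rw [hS, map_sum]
    simp only [hε]
    simp [hk]
  have hεS' : ε S' = k := by
    rw [hS', map_sum]
    simp only [hε]
    simp [hk]
  have hεZ : ε Z = p := by
    rw [hZ, dsZ, map_sum]
    simp only [hε]
    simp [hA]
  have hkk : k * k = (k - lam) + lam * p := by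
    have := congrArg ε hSS
    rw [map_mul, map_add, map_mul, hεS, hεS', hεZ, map_intCast, map_intCast] at this
    simpa using this
  have hk1 : 1 ≤ k := by
    have := Finset.card_pos.2 hD0
    rw [hk]
    omega
  have hkp : k + 1 ≤ p := by
    rw [hk]
    omega
  have hp0 : (2 : ℤ) ≤ p := by exact_mod_cast hp2
  have hlam0 : 0 ≤ lam := by
    by_contra hc
    push Not at hc
    nlinarith
  have hlamk : lam < k := by
    by_contra hc
    push Not at hc
    nlinarith
  set N : ℤ := k - lam with hN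
  have hN1 : 1 ≤ N := by omega
  have hNk : N ≤ k := by omega
  -- the power
  set α : ℤ := (S ^ p).coeff q₀ - β with hα
  have hSp : S ^ p = ((α : ℤ) : MonoidAlgebra ℤ A) * of ℤ A q₀ + ((β : ℤ) : MonoidAlgebra ℤ A) * Z := by
    ext t
    rw [coeff_add, Finsupp.add_apply, ds_intCast_mul_coeff, ds_intCast_mul_coeff, ds_of_coeff, hZ, dsZ_coeff, mul_one]
    by_cases ht : t = q₀
    · subst ht
      simp [hα]
    · rw [if_neg (Ne.symm ht), mul_zero, zero_add]
      exact h2 t ht
  let ι : MonoidAlgebra ℤ A →+* MonoidAlgebra ℤ A := MonoidAlgebra.mapDomainRingHom ℤ (invMonoidHom : A →* A)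
  have hι : ∀ a, ι (of ℤ A a) = of ℤ A a⁻¹ := by
    intro a
    show MonoidAlgebra.mapDomainRingHom ℤ (invMonoidHom : A →* A) (single a 1) = single a⁻¹ 1
    simp
  have hιS : ι S = S' := by
    rw [hS, hS', map_sum]
    simp only [hι]
  have hιZ : ι Z = Z := by
    rw [hZ, dsZ, map_sum]
    simp only [hι]
    exact Fintype.sum_equiv (Equiv.inv A) _ _ (fun _ => rfl)
  have hSp' : S' ^ p = ((α : ℤ) : MonoidAlgebra ℤ A) * of ℤ A q₀⁻¹ + ((β : ℤ) : MonoidAlgebra ℤ A) * Z := by
    have := congrArg ι hSp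
    rw [map_pow, hιS, map_add, map_mul, map_mul, map_intCast, map_intCast, hι, hιZ] at this
    exact this
  have hprod : (S * S') ^ p = ((α ^ 2 : ℤ) : MonoidAlgebra ℤ A) +
      ((2 * α * β + β ^ 2 * p : ℤ) : MonoidAlgebra ℤ A) * Z := by
    rw [mul_pow, hSp, hSp']
    have e1 : of ℤ A q₀ * of ℤ A q₀⁻¹ = 1 := by
      rw [← map_mul, mul_inv_cancel, map_one]
    have e2 : of ℤ A q₀ * Z = Z := ds_of_mul_Z q₀
    have e3 : of ℤ A q₀⁻¹ * Z = Z := ds_of_mul_Z q₀⁻¹
    have e4 : Z * Z = ((p : ℤ) : MonoidAlgebra ℤ A) * Z := by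
      rw [hZ, ds_Z_mul_Z, hA]
    push_cast
    push_cast at e4
    calc _ = (α : MonoidAlgebra ℤ A) ^ 2 * (of ℤ A q₀ * of ℤ A q₀⁻¹) + α * β * (of ℤ A q₀ * Z) + α * β * (of ℤ A q₀⁻¹ * Z) +
          β ^ 2 * (Z * Z) := by ring
      _ = _ := by rw [e1, e2, e3, e4]; ring
  obtain ⟨g, hg⟩ := ds_pow_form (A := A) N lam p
  have hcmp : ((α ^ 2 : ℤ) : MonoidAlgebra ℤ A) + ((2 * α * β + β ^ 2 * p : ℤ) : MonoidAlgebra ℤ A) * Z =
      ((N ^ p : ℤ) : MonoidAlgebra ℤ A) + ((g : ℤ) : MonoidAlgebra ℤ A) * Z := by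
    rw [← hprod, hSS, hg]
  have hc1 := congrArg (fun x => x.coeff t₁) hcmp
  have hc0 := congrArg (fun x => x.coeff (1 : A)) hcmp
  simp only [coeff_add, Finsupp.add_apply, ds_intCast_mul_coeff, ds_intCast_coeff, hZ, dsZ_coeff, mul_one, if_neg ht₁, zero_add, if_true] at hc1 hc0
  have hα2 : α ^ 2 = N ^ p := by linarith
  -- the square root
  obtain ⟨j, hj⟩ : ∃ j, p = 2 * j + 1 := by
    rcases hp.eq_two_or_odd' with h | h
    · exact absurd h hodd
    · exact h
  have hN0 : N ≠ 0 := by omega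
  have hdvd : (N ^ j) ^ 2 ∣ α ^ 2 := by
    rw [hα2, hj]
    exact ⟨N, by ring⟩
  rw [Int.pow_dvd_pow_iff (by decide)] at hdvd
  obtain ⟨b, hb⟩ := hdvd
  have hbN : b ^ 2 = N := by
    have h3 : (N ^ j) ^ 2 * b ^ 2 = (N ^ j) ^ 2 * N := by
      have : α ^ 2 = N ^ p := hα2
      rw [hb, hj] at this
      calc (N ^ j) ^ 2 * b ^ 2 = (N ^ j * b) ^ 2 := by ring
        _ = N ^ (2 * j + 1) := this
        _ = _ := by ring
    exact mul_left_cancel₀ (pow_ne_zero _ (pow_ne_zero _ hN0)) h3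
  have hαb : α = b ^ p := by
    rw [hb, hj, ← hbN]
    ring
  have hfer : (p : ℤ) ∣ b ^ p - b := by
    rw [← ZMod.intCast_zmod_eq_zero_iff_dvd]
    push_cast
    rw [ZMod.pow_card]
    ring
  -- the congruence
  have hcong : (p : ℤ) ∣ α - k ∨ (p : ℤ) ∣ α + k := by
    by_cases hq : q₀ = 1
    · subst hq
      left
      have c1 := ds_frob_coeff hp hA D t₁
      rw [if_neg ht₁, sub_zero, ← hS, h2 t₁ ht₁] at c1
      have c2 := ds_frob_coeff hp hA D (1 : A)
      rw [if_pos rfl, ← hS, ← hk] at c2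
      have e : α - k = ((S ^ p).coeff 1 - k) - β := by
        rw [hα]
        ring
      rw [e]
      exact dvd_sub c2 c1
    · right
      have c1 := ds_frob_coeff hp hA D (1 : A)
      rw [if_pos rfl, ← hS, h2 1 (Ne.symm hq), ← hk] at c1
      have c2 := ds_frob_coeff hp hA D q₀
      rw [if_neg hq, sub_zero, ← hS] at c2
      have e : α + k = (S ^ p).coeff q₀ - (β - k) := by
        rw [hα]
        ring
      rw [e]
      exact dvd_sub c2 c1
  have hcong' : (p : ℤ) ∣ b - k ∨ (p : ℤ) ∣ b + k := by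
    rcases hcong with h | h
    · left
      have e : b - k = (α - k) - (b ^ p - b) := by
        rw [hαb]
        ring
      rw [e]
      exact dvd_sub h hfer
    · right
      have e : b + k = (α + k) - (b ^ p - b) := by
        rw [hαb]
        ring
      rw [e]
      exact dvd_sub h hfer
  have := ds_final hk1 hkp hN1 hNk hkk hN hbN hcong'
  rcases this with h | h
  · left
    rw [hk] at h
    exact_mod_cast h
  · right
    have h8 : (D.card : ℤ) = (p : ℤ) - 1 := by
      rw [← hk]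
      exact h
    omega

end

end Cfsg.Agent.Lib.P2205
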