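import Mathlib

namespace Cfsg.Agent.Lib.P2205

open MulAction Subgroup

/-- Order of a two-transitive group. -/
theorem card_eq_two_point {G Ω : Type*} [Group G] [Finite G] [Fintype Ω] [MulAction G Ω]
    (h2 : MulAction.IsMultiplyPretransitive G Ω 2) (a b : Ω) (hab : a ≠ b) :
    Nat.card G = Fintype.card Ω * (Fintype.card Ω - 1) *
      Nat.card ↥(MulAction.stabilizer G a ⊓ MulAction.stabilizer G b) := by
  classical
  have hst : MulAction.stabilizer G (a, b) = MulAction.stabilizer G a ⊓ MulAction.stabilizer G b := by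
    ext g
    simp [MulAction.mem_stabilizer_iff, Subgroup.mem_inf, Prod.ext_iff]
  have horb : MulAction.orbit G (a, b) = ↑(Finset.univ : Finset Ω).offDiag := by
    ext ⟨c, d⟩
    simp only [MulAction.mem_orbit_iff, Prod.smul_mk, Prod.mk.injEq, Finset.coe_offDiag,
      Finset.coe_univ, Set.offDiag_univ, Set.mem_compl_iff, Set.mem_diagonal_iff]
    constructor
    · rintro ⟨g, rfl, rfl⟩ h
      exact hab (smul_left_cancel g h)
    · intro hcd
      exact MulAction.is_two_pretransitive_iff.1 h2 hab hcd
  have h := (MulAction.stabilizer G (a, b)).card_mul_index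
  rw [MulAction.index_stabilizer, horb, Set.ncard_coe_finset, Finset.offDiag_card, hst] at h
  rw [← h, Finset.card_univ, mul_comm, Nat.mul_sub, mul_one]

theorem two_dvd_two_point_stabilizer {G Ω : Type*} [Group G] [Finite G] [Fintype Ω] [MulAction G Ω] [FaithfulSMul G Ω] (h2 : MulAction.IsMultiplyPretransitive G Ω 2) (hn : Fintype.card Ω % 4 = 2) (hn3 : 3 ≤ Fintype.card Ω) (a b : Ω) (hab : a ≠ b) : 2 ∣ Nat.card ↥(MulAction.stabilizer G a ⊓ MulAction.stabilizer G b) := by
  classical
  by_contra hodd
  have hcard := card_eq_two_point h2 a b hab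
  set n := Fintype.card Ω with hndef
  set m := Nat.card ↥(MulAction.stabilizer G a ⊓ MulAction.stabilizer G b) with hmdef
  have hn6 : 6 ≤ n := by omega
  obtain ⟨k, hk⟩ : ∃ k, n = 4 * k + 2 := ⟨n / 4, by omega⟩
  have hm : m % 2 = 1 := by omega
  -- `|G| = 2 q`, `q` odd
  obtain ⟨q, hq, hqodd, hq6⟩ : ∃ q, Nat.card G = 2 * q ∧ q % 2 = 1 ∧ 3 ≤ q := by
    refine ⟨(2 * k + 1) * (n - 1) * m, ?_, ?_, ?_⟩
    · rw [hcard, hk]
      ring_nf
    · have h1 : (n - 1) % 2 = 1 := by omega
      have : (2 * k + 1) % 2 = 1 := by omega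
      rw [Nat.mul_mod, Nat.mul_mod (2 * k + 1), this, h1, hm]
    · have h1 : 1 ≤ m := by omega
      have h3 : 5 ≤ n - 1 := by omega
      have : 1 * 5 * 1 ≤ (2 * k + 1) * (n - 1) * m := by
        apply Nat.mul_le_mul (Nat.mul_le_mul (by omega) h3) h1
      omega
  haveI : Fact (Nat.Prime 2) := ⟨Nat.prime_two⟩
  obtain ⟨P⟩ : Nonempty (Sylow 2 G) := inferInstance
  have hPcard : Nat.card P = 2 := by
    obtain ⟨j, hj⟩ := IsPGroup.iff_card.1 P.isPGroup'
    have h1 := (P : Subgroup G).card_mul_index
    have h2i := P.not_dvd_index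
    rw [hj, hq] at h1
    rcases j with _ | _ | j
    · exfalso
      apply h2i
      rw [pow_zero, one_mul] at h1
      rw [h1]
      exact dvd_mul_right _ _
    · simp [hj]
    · exfalso
      have : 2 ^ (j + 1 + 1) = 2 * (2 * 2 ^ j) := by ring
      rw [this, mul_assoc] at h1
      have h3 := Nat.eq_of_mul_eq_mul_left (by norm_num) h1
      have : q % 2 = 0 := by
        rw [← h3, mul_assoc, Nat.mul_mod_right]
      omega
  have hP2 : ∀ u v : (P : Subgroup G), u ≠ 1 → v ≠ 1 → u = v := by
    obtain ⟨y, -, hy⟩ := (Nat.card_eq_two_iff' (1 : (P : Subgroup G))).1 hPcard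
    intro u v hu hv
    rw [hy u hu, hy v hv]
  have hPc : normalizer (P : Subgroup G) ≤ centralizer ((P : Subgroup G) : Set G) := by
    intro g hg
    rw [Subgroup.mem_centralizer_iff]
    intro h hh
    have h1 : g * h * g⁻¹ ∈ (P : Subgroup G) := (Subgroup.mem_normalizer_iff.1 hg h).1 hh
    by_cases hh1 : h = 1
    · simp [hh1]
    · have h3 : (⟨g * h * g⁻¹, h1⟩ : (P : Subgroup G)) = ⟨h, hh⟩ := by
        apply hP2
        · intro h4
          apply hh1
          have : g * h * g⁻¹ = 1 := congrArg Subtype.val h4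
          simpa using this
        · intro h4
          exact hh1 (congrArg Subtype.val h4)
      have h4 : g * h * g⁻¹ = h := congrArg Subtype.val h3
      calc h * g = (g * h * g⁻¹) * g := by rw [h4]
        _ = g * h := by group
  set E := (MonoidHom.transferSylow P hPc).ker with hE
  haveI hEn : E.Normal := MonoidHom.normal_ker _
  have hEc : Nat.card E * Nat.card P = Nat.card G :=
    (MonoidHom.ker_transferSylow_isComplement' P hPc).card_mul_card
  have hEq : Nat.card E = q := by
    rw [hPcard, hq] at hEc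
    omega
  haveI hpre : IsPreprimitive G Ω := MulAction.isPreprimitive_of_is_two_pretransitive h2
  by_cases hfix : MulAction.fixedPoints E Ω = Set.univ
  · -- `E` acts trivially, so `E = 1`
    have hE1 : E = ⊥ := by
      rw [eq_bot_iff]
      intro g hg
      rw [Subgroup.mem_bot]
      apply FaithfulSMul.eq_of_smul_eq_smul (α := Ω)
      intro x
      have : x ∈ MulAction.fixedPoints E Ω := by rw [hfix]; trivial
      have h5 := this ⟨g, hg⟩
      simpa using h5
    rw [hE1] at hEq
    simp at hEq
    omega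
  · haveI := IsQuasiPreprimitive.isPretransitive_of_normal (G := G) (N := E) hfix
    have h6 := MulAction.index_stabilizer E a
    have horb : MulAction.orbit E a = Set.univ := MulAction.orbit_eq_univ E a
    rw [horb, Set.ncard_univ, Nat.card_eq_fintype_card] at h6
    have h7 : n ∣ Nat.card E := by
      rw [hndef, ← h6]
      exact Subgroup.index_dvd_card _
    rw [hEq] at h7
    have : 2 ∣ q := dvd_trans ⟨2 * k + 1, by omega⟩ h7
    omega

end Cfsg.Agent.Lib.P2205
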