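import Mathlib

/-!
# Equivariant block families for a 2-transitive action of degree `p² + 1`
-/

set_option autoImplicit false

namespace Cfsg.Agent.Lib.P2205

open MulAction Pointwise

/-- A `G`-equivariant family of block systems: `L a b` is the block, in the system at `a`,
through the point `b ≠ a`. -/
structure Fam (G Ω : Type*) [Group G] [MulAction G Ω] (p : ℕ) where
  L : Ω → Ω → Set Ω
  smul : ∀ (g : G) (a b : Ω), a ≠ b → L (g • a) (g • b) = g • L a b
  self_mem : ∀ a b, a ≠ b → b ∈ L a b
  ne_of_mem : ∀ a b c, a ≠ b → c ∈ L a b → c ≠ a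
  eq_of_mem : ∀ a b c, a ≠ b → c ∈ L a b → L a c = L a b
  ncard : ∀ a b, a ≠ b → (L a b).ncard = p

variable {G Ω : Type*} [Group G] [MulAction G Ω] {p : ℕ}

namespace Fam

variable (F : Fam G Ω p)

/-- The kernel at `a` of the block system at `a`. -/
def K (a : Ω) : Subgroup G where
  carrier := {g | g • a = a ∧ ∀ c, c ≠ a → F.L a (g • c) = F.L a c}
  one_mem' := by simp
  mul_mem' := by
    rintro g h ⟨hg, hg'⟩ ⟨hh, hh'⟩
    refine ⟨by rw [mul_smul, hh, hg], fun c hc => ?_⟩
    have hc' : h • c ≠ a := fun e => hc (by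
      have := congrArg (fun x => h⁻¹ • x) e
      simpa [inv_smul_eq_iff.mpr hh.symm] using this)
    rw [mul_smul, hg' _ hc', hh' _ hc]
  inv_mem' := by
    rintro g ⟨hg, hg'⟩
    have hga : g⁻¹ • a = a := inv_smul_eq_iff.mpr hg.symm
    refine ⟨hga, fun c hc => ?_⟩
    have hc' : g⁻¹ • c ≠ a := fun e => hc (by
      have := congrArg (fun x => g • x) e
      simpa [hg] using this)
    have := hg' _ hc'
    rw [smul_inv_smul] at this
    exact this.symm

lemma mem_K {a : Ω} {g : G} : g ∈ F.K a ↔ g • a = a ∧ ∀ c, c ≠ a → F.L a (g • c) = F.L a c := Iff.rfl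

lemma smul_ne_of_fix {a c : Ω} {g : G} (hg : g • a = a) (hc : c ≠ a) : g • c ≠ a := fun e => hc (by
  have := congrArg (fun x => g⁻¹ • x) e
  simpa [inv_smul_eq_iff.mpr hg.symm] using this)

/-- An element fixing `a` and `b` stabilizes the block `L a b`. -/
lemma smul_L_of_fix {a b : Ω} {g : G} (hab : a ≠ b) (ha : g • a = a) (hb : g • b = b) :
    g • F.L a b = F.L a b := by
  have := F.smul g a b hab
  rw [ha, hb] at this
  exact this.symm

/-- If `g` fixes `a`, `g • L a b = L a (g • b)`. -/
lemma smul_L_of_fix' {a b : Ω} {g : G} (hab : a ≠ b) (ha : g • a = a) :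
    g • F.L a b = F.L a (g • b) := by
  have := F.smul g a b hab
  rw [ha] at this
  exact this.symm

lemma smul_mem_L {a b c : Ω} {g : G} (hab : a ≠ b) (ha : g • a = a) (hc : c ∈ F.L a b) :
    g • c ∈ F.L a (g • b) := by
  rw [← F.smul_L_of_fix' hab ha]
  exact Set.smul_mem_smul_set hc

lemma L_eq_of_mem_of_mem {a b c d : Ω} (hab : a ≠ b) (hcd : a ≠ c) (h1 : d ∈ F.L a b) (h2 : d ∈ F.L a c) :
    F.L a b = F.L a c := by
  rw [← F.eq_of_mem a b d hab h1, F.eq_of_mem a c d hcd h2]

/-- conjugates of kernel elements -/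
lemma conj_mem_K {a : Ω} {k : G} (hk : k ∈ F.K a) (g : G) : g * k * g⁻¹ ∈ F.K (g • a) := by
  obtain ⟨hk1, hk2⟩ := hk
  refine ⟨by simp [mul_smul, hk1], fun c hc => ?_⟩
  have hc' : g⁻¹ • c ≠ a := fun e => hc (by
    have := congrArg (fun x => g • x) e
    simpa using this)
  have h1 := F.smul g a (g⁻¹ • c) hc'.symm
  have h2 := F.smul g a (k • g⁻¹ • c) (smul_ne_of_fix hk1 hc').symm
  rw [smul_inv_smul] at h1
  have e : (g * k * g⁻¹) • c = g • k • g⁻¹ • c := by simp [mul_smul]
  rw [e, h2, hk2 _ hc', ← h1]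

end Fam

/-! ## The Steiner pigeonhole -/

section Steiner

variable [Fintype Ω] (F : Fam G Ω p)

/-- Symmetric lines: any two points of a line generate this line. -/
lemma Fam.line_eq (hsym : ∀ a b : Ω, a ≠ b → insert a (F.L a b) = insert b (F.L b a))
    {x y u v : Ω} (hxy : x ≠ y) (huv : u ≠ v) (hu : u ∈ insert x (F.L x y)) (hv : v ∈ insert x (F.L x y)) :
    insert u (F.L u v) = insert x (F.L x y) := by
  by_cases hux : u = x
  · subst hux
    have hv' : v ∈ F.L u y := by
      rcases hv with rfl | hv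
      · exact absurd rfl huv
      · exact hv
    rw [F.eq_of_mem u y v hxy hv']
  · have hu' : u ∈ F.L x y := by
      rcases hu with rfl | hu
      · exact absurd rfl hux
      · exact hu
    have h1 : F.L x u = F.L x y := F.eq_of_mem x y u hxy hu'
    have h2 : insert x (F.L x y) = insert u (F.L u x) := by
      rw [← h1]
      exact hsym x u (Ne.symm hux)
    rw [h2] at hv ⊢
    have hv' : v ∈ F.L u x := by
      rcases hv with rfl | hv
      · exact absurd rfl huv
      · exact hv
    rw [F.eq_of_mem u x v hux hv']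

/-- Disjoint blocks at `c`: a set `T` of points, pairwise in different blocks, has
`|T| * p ≤ |Ω| - 1`. -/
lemma Fam.card_mul_le (c : Ω) (T : Finset Ω) (hT : ∀ e ∈ T, e ≠ c)
    (hdisj : ∀ e ∈ T, ∀ e' ∈ T, e ≠ e' → e' ∉ F.L c e) :
    T.card * p + 1 ≤ Fintype.card Ω := by
  classical
  let f : Ω → Finset Ω := fun e => (F.L c e).toFinset
  have hpair : (T : Set Ω).PairwiseDisjoint f := by
    intro e he e' he' hne
    refine Finset.disjoint_left.mpr fun x hx hx' => ?_
    simp only [f, Set.mem_toFinset] at hx hx'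
    have hce : c ≠ e := (hT e he).symm
    have hce' : c ≠ e' := (hT e' he').symm
    have h1 := F.L_eq_of_mem_of_mem hce hce' hx hx'
    exact hdisj e he e' he' hne (by rw [h1]; exact F.self_mem c e' hce')
  have hcard : (T.biUnion f).card = T.card * p := by
    rw [Finset.card_biUnion hpair, Finset.sum_const_nat]
    intro e he
    simp only [f]
    rw [← Set.ncard_eq_toFinset_card', F.ncard c e (hT e he).symm]
  have hsub : T.biUnion f ⊆ Finset.univ.erase c := by
    intro x hx
    obtain ⟨e, he, hx⟩ := Finset.mem_biUnion.mp hx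
    simp only [f, Set.mem_toFinset] at hx
    exact Finset.mem_erase.mpr ⟨F.ne_of_mem c e x (hT e he).symm hx, Finset.mem_univ _⟩
  have := Finset.card_le_card hsub
  rw [hcard, Finset.card_erase_of_mem (Finset.mem_univ _), Finset.card_univ] at this
  have hpos : 0 < Fintype.card Ω := Fintype.card_pos_iff.mpr ⟨c⟩
  omega

theorem Fam.steiner_false (hp : 2 ≤ p) (hn : Fintype.card Ω = p ^ 2 + 1)
    (hsym : ∀ a b : Ω, a ≠ b → insert a (F.L a b) = insert b (F.L b a)) : False := by
  classical
  have hnt : 1 < Fintype.card Ω := by nlinarith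
  obtain ⟨a, b, hab⟩ := Fintype.exists_pair_of_one_lt_card hnt
  set ℓ : Set Ω := insert a (F.L a b) with hℓ
  have hanot : a ∉ F.L a b := fun h => F.ne_of_mem a b a hab h rfl
  have hℓc : ℓ.ncard = p + 1 := by
    rw [hℓ, Set.ncard_insert_of_notMem hanot (Set.toFinite _), F.ncard a b hab]
  obtain ⟨c, hc⟩ : ∃ c, c ∉ ℓ := by
    by_contra hall
    push Not at hall
    have : ℓ = Set.univ := Set.eq_univ_of_forall hall
    rw [this, Set.ncard_univ, Nat.card_eq_fintype_card, hn] at hℓc
    nlinarith
  have key := F.card_mul_le c ℓ.toFinset (fun e he => by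
      rintro rfl
      exact hc (by simpa using he)) (by
      intro e he e' he' hne hmem
      simp only [Set.mem_toFinset] at he he'
      have hce : c ≠ e := by rintro rfl; exact hc he
      have h1 := F.line_eq hsym hce hne (Set.mem_insert_of_mem _ (F.self_mem c e hce))
        (Set.mem_insert_of_mem _ hmem)
      have h2 := F.line_eq hsym hab hne he he'
      apply hc
      rw [hℓ, ← h2, h1]
      exact Set.mem_insert _ _)
  rw [← Set.ncard_eq_toFinset_card', hℓc, hn] at key
  nlinarith

end Steiner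

end Cfsg.Agent.Lib.P2205
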