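import Mathlib

namespace Cfsg.Agent.Lib.P2205

open MulAction

theorem card_le_of_unique_involution {G Ω : Type*} [Group G] [Finite G] [Fintype Ω] [MulAction G Ω] [FaithfulSMul G Ω] (h2 : MulAction.IsMultiplyPretransitive G Ω 2) (hn : 3 ≤ Fintype.card Ω) (hn2 : Even (Fintype.card Ω)) (hτ : ∀ c d : Ω, c ≠ d → ∃! x : G, orderOf x = 2 ∧ x • c = c ∧ x • d = d) (hfix : ∀ x : G, orderOf x = 2 → ∀ c d e : Ω, c ≠ d → x • c = c → x • d = d → x • e = e → e = c ∨ e = d) (a b : Ω) (hab : a ≠ b) : Fintype.card Ω - 2 ≤ 2 * Nat.card ↥(MulAction.stabilizer G a ⊓ MulAction.stabilizer G b) := by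
  classical
  haveI := Fintype.ofFinite G
  set n := Fintype.card Ω with hndef
  -- involutions with a fixed point
  set I : Finset G := Finset.univ.filter (fun x : G => orderOf x = 2 ∧ ∃ c : Ω, x • c = c) with hI
  -- fixed point sets
  let Fx : G → Finset Ω := fun x => Finset.univ.filter (fun c : Ω => x • c = c)
  have hpair : ∀ x : G, orderOf x = 2 → Even (Fx x).card := by
    intro x hx
    haveI : Fact (Nat.Prime 2) := ⟨Nat.prime_two⟩
    let f : Function.End Ω := fun c => x • c
    have hf : f ^ 2 ^ 1 = 1 := by
      funext c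
      have h1 : x ^ 2 = 1 := by rw [← hx]; exact pow_orderOf_eq_one x
      show f (f c) = c
      show x • x • c = c
      rw [← mul_smul, ← pow_two, h1, one_smul]
    have h3 := Equiv.Perm.card_fixedPoints_modEq (p := 2) (n := 1) hf
    have h4 : Fintype.card f.fixedPoints = (Fx x).card := by
      rw [Fintype.card_subtype]
      rfl
    rw [h4] at h3
    have h5 : (Fx x).card % 2 = n % 2 := h3.symm
    rw [Nat.even_iff, h5, ← Nat.even_iff]
    exact hn2
  have hFx2 : ∀ x ∈ I, (Fx x).card = 2 := by
    intro x hx
    obtain ⟨hxo, c, hc⟩ := (Finset.mem_filter.1 hx).2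
    have hev := hpair x hxo
    have hcm : c ∈ Fx x := by simp [Fx, hc]
    have hpos : 0 < (Fx x).card := Finset.card_pos.2 ⟨c, hcm⟩
    obtain ⟨d, hdm, hdc⟩ : ∃ d ∈ Fx x, d ≠ c := by
      by_contra hcon
      push_neg at hcon
      have : (Fx x).card = 1 := Finset.card_eq_one.2 ⟨c, Finset.eq_singleton_iff_unique_mem.2 ⟨hcm, hcon⟩⟩
      rw [this] at hev
      exact absurd hev (by decide)
    have hd : x • d = d := (Finset.mem_filter.1 hdm).2
    have : Fx x = {c, d} := by
      ext e
      simp only [Fx, Finset.mem_filter, Finset.mem_univ, true_and, Finset.mem_insert,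
        Finset.mem_singleton]
      constructor
      · exact hfix x hxo c d e hdc.symm hc hd
      · rintro (rfl | rfl) <;> assumption
    rw [this, Finset.card_pair hdc.symm]
  set P : Finset (Ω × Ω) := (Finset.univ : Finset Ω).offDiag with hP
  have hmemP : ∀ p : Ω × Ω, p ∈ P ↔ p.1 ≠ p.2 := by simp [hP, Finset.mem_offDiag]
  have hcount1 : I.card * 2 = P.card * 1 := by
    have h := Finset.sum_card_bipartiteAbove_eq_sum_card_bipartiteBelow (s := I) (t := P)
      (fun (x : G) (p : Ω × Ω) => x • p.1 = p.1 ∧ x • p.2 = p.2)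
    simp only [Finset.bipartiteAbove, Finset.bipartiteBelow] at h
    rw [Finset.sum_congr rfl (g := fun _ => 2), Finset.sum_congr rfl (g := fun _ => 1) (s₁ := P)] at h
    · simpa [mul_comm] using h
    · intro p hp
      obtain ⟨x, ⟨hxo, h1, h2⟩, huniq⟩ := hτ p.1 p.2 ((hmemP p).1 hp)
      rw [Finset.card_eq_one]
      refine ⟨x, ?_⟩
      ext y
      simp only [Finset.mem_filter, Finset.mem_singleton, hI, Finset.mem_univ, true_and]
      constructor
      · rintro ⟨⟨hyo, -⟩, hy1, hy2⟩
        exact huniq y ⟨hyo, hy1, hy2⟩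
      · rintro rfl
        exact ⟨⟨hxo, p.1, h1⟩, h1, h2⟩
    · intro x hx
      have : P.filter (fun p => x • p.1 = p.1 ∧ x • p.2 = p.2) = (Fx x).offDiag := by
        ext ⟨c, d⟩
        simp only [Finset.mem_filter, hmemP, Finset.mem_offDiag, Fx, Finset.mem_univ, true_and]
        tauto
      rw [this, Finset.offDiag_card, hFx2 x hx]
  set M : Finset G := I.filter (fun x => x • a = b) with hM
  have hconj : ∀ p ∈ P, (I.filter (fun x => x • p.1 = p.2)).card = M.card := by
    intro p hp
    obtain ⟨g, hg1, hg2⟩ := MulAction.is_two_pretransitive_iff.1 h2 hab ((hmemP p).1 hp)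
    have hI' : ∀ (g x : G), x ∈ I → g * x * g⁻¹ ∈ I := by
      intro g x hx
      obtain ⟨hxo, c, hc⟩ := (Finset.mem_filter.1 hx).2
      refine Finset.mem_filter.2 ⟨Finset.mem_univ _, ?_, g • c, ?_⟩
      · rw [← MulAut.conj_apply, MulEquiv.orderOf_eq]
        exact hxo
      · simp [mul_smul, hc]
    symm
    apply Finset.card_nbij' (fun x => g * x * g⁻¹) (fun x => g⁻¹ * x * g)
    · intro x hx
      simp only [Finset.coe_filter, Set.mem_setOf_eq, hM, Finset.mem_filter] at hx ⊢
      refine ⟨hI' g x hx.1, ?_⟩
      rw [← hg1, ← hg2]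
      simp [mul_smul, hx.2]
    · intro x hx
      simp only [Finset.coe_filter, Set.mem_setOf_eq, hM, Finset.mem_filter] at hx ⊢
      refine ⟨by simpa using hI' g⁻¹ x hx.1, ?_⟩
      rw [mul_smul, mul_smul, hg1, hx.2, ← hg2]
      simp
    · intro x _
      simp [mul_assoc]
    · intro x _
      simp [mul_assoc]
  have hcount2 : I.card * (n - 2) = P.card * M.card := by
    have h := Finset.sum_card_bipartiteAbove_eq_sum_card_bipartiteBelow (s := I) (t := P)
      (fun (x : G) (p : Ω × Ω) => x • p.1 = p.2)
    simp only [Finset.bipartiteAbove, Finset.bipartiteBelow] at h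
    rw [Finset.sum_congr rfl (g := fun _ => n - 2), Finset.sum_congr rfl (g := fun _ => M.card) (s₁ := P) hconj] at h
    · simpa [mul_comm] using h
    · intro x hx
      have hcompl : ((Fx x)ᶜ).card = n - 2 := by
        rw [Finset.card_compl, hFx2 x hx]
      rw [← hcompl]
      symm
      apply Finset.card_nbij' (fun e => (e, x • e)) (fun p => p.1)
      · intro e he
        simp only [Finset.coe_compl, Set.mem_compl_iff, Finset.mem_coe, Fx, Finset.mem_filter,
          Finset.mem_univ, true_and] at he
        simp only [Finset.coe_filter, Set.mem_setOf_eq, hmemP, and_true]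
        exact fun h' => he h'.symm
      · intro p hp
        simp only [Finset.coe_filter, Set.mem_setOf_eq, hmemP] at hp
        simp only [Finset.coe_compl, Set.mem_compl_iff, Finset.mem_coe, Fx, Finset.mem_filter,
          Finset.mem_univ, true_and]
        intro h'
        rw [h'] at hp
        exact hp.1 hp.2
      · intro e _
        rfl
      · intro p hp
        simp only [Finset.coe_filter, Set.mem_setOf_eq, hmemP] at hp
        ext
        · rfl
        · exact hp.2
  have hPpos : 0 < P.card := Finset.card_pos.2 ⟨(a, b), (hmemP _).2 hab⟩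
  have hIpos : 0 < I.card := by
    by_contra h0
    have : I.card = 0 := by omega
    rw [this] at hcount1
    omega
  have hmain : n - 2 = 2 * M.card := by
    have h1 : I.card * (n - 2) = I.card * (2 * M.card) := by
      rw [hcount2, show P.card = I.card * 2 by omega]
      ring
    exact Nat.eq_of_mul_eq_mul_left hIpos h1
  have hMle : M.card ≤ Nat.card ↥(MulAction.stabilizer G a ⊓ MulAction.stabilizer G b) := by
    rcases M.eq_empty_or_nonempty with hM0 | ⟨x₀, hx₀⟩
    · rw [hM0]
      simp
    · have hinv : ∀ x ∈ M, x • b = a := by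
        intro x hx
        simp only [hM, Finset.mem_filter, hI, Finset.mem_univ, true_and] at hx
        have h1 : x ^ 2 = 1 := by rw [← hx.1.1]; exact pow_orderOf_eq_one x
        rw [← hx.2, ← mul_smul, ← pow_two, h1, one_smul]
      have ha₀ : x₀ • a = b := (Finset.mem_filter.1 hx₀).2
      have hb₀ := hinv x₀ hx₀
      rw [Nat.card_eq_fintype_card]
      have hmem : ∀ x ∈ M, x₀⁻¹ * x ∈ MulAction.stabilizer G a ⊓ MulAction.stabilizer G b := by
        intro x hx
        have hxa : x • a = b := (Finset.mem_filter.1 hx).2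
        have hxb := hinv x hx
        rw [Subgroup.mem_inf, MulAction.mem_stabilizer_iff, MulAction.mem_stabilizer_iff,
          mul_smul, mul_smul, hxa, hxb, inv_smul_eq_iff, inv_smul_eq_iff]
        exact ⟨ha₀.symm, hb₀.symm⟩
      calc M.card ≤ (Finset.univ : Finset ↥(MulAction.stabilizer G a ⊓ MulAction.stabilizer G b)).card := by
            apply Finset.card_le_card_of_injOn (fun x => if h : x ∈ M then ⟨x₀⁻¹ * x, hmem x h⟩ else 1)
            · intro x _
              simp
            · intro x hx y hy hxy
              have hx' : x ∈ M := hx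
              have hy' : y ∈ M := hy
              simp only [hx', hy', dif_pos] at hxy
              exact mul_left_cancel (congrArg Subtype.val hxy)
        _ = _ := Finset.card_univ
  omega

end Cfsg.Agent.Lib.P2205
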