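import Cfsg.Agent.Lib.P2205.NoP

/-!
# Piece H of S2205: block families from a single block system at a point
-/

set_option autoImplicit false

namespace Cfsg.Agent.Lib.P2205

open MulAction Pointwise

variable {G Ω : Type*} [Group G] [MulAction G Ω] {p : ℕ}

lemma ncard_smul_set_aux (g : G) (B : Set Ω) : (g • B).ncard = B.ncard := by
  have : (g • B) = (fun x => g • x) '' B := rfl
  rw [this]
  exact Set.ncard_image_of_injective _ (MulAction.injective g)

theorem exists_fam_of_block (h2 : IsMultiplyPretransitive G Ω 2) (a b₀ : Ω) (hab : a ≠ b₀)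
    (B : Set Ω) (ha : a ∉ B) (hb₀ : b₀ ∈ B)
    (hblock : ∀ h : G, h • a = a → h • B = B ∨ Disjoint (h • B) B) (hcard : B.ncard = p) :
    ∃ F : Fam G Ω p, ∀ h : G, h • a = a → F.L a (h • b₀) = h • B := by
  classical
  have htr : ∀ {a b c d : Ω}, a ≠ b → c ≠ d → ∃ g : G, g • a = c ∧ g • b = d :=
    (is_two_pretransitive_iff).mp h2
  let L : Ω → Ω → Set Ω := fun x y => {c | ∃ g : G, g • a = x ∧ g⁻¹ • y ∈ B ∧ g⁻¹ • c ∈ B}
  have key : ∀ (x y : Ω) (g : G), g • a = x → g⁻¹ • y ∈ B → L x y = g • B := by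
    intro x y g hg hy
    ext c
    constructor
    · rintro ⟨g', hg', hy', hc'⟩
      have hfix : (g⁻¹ * g') • a = a := by
        rw [mul_smul, hg', inv_smul_eq_iff, hg]
      have hcase := hblock _ hfix
      have hmem : g⁻¹ • y ∈ (g⁻¹ * g') • B := by
        have : g⁻¹ • y = (g⁻¹ * g') • (g'⁻¹ • y) := by
          rw [mul_smul, smul_inv_smul]
        rw [this]
        exact Set.smul_mem_smul_set hy'
      have heq : (g⁻¹ * g') • B = B := by
        rcases hcase with h | h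
        · exact h
        · exact absurd hy (Set.disjoint_left.mp h hmem)
      have hc2 : g⁻¹ • c ∈ B := by
        have : g⁻¹ • c = (g⁻¹ * g') • (g'⁻¹ • c) := by
          rw [mul_smul, smul_inv_smul]
        have hm : (g⁻¹ * g') • (g'⁻¹ • c) ∈ (g⁻¹ * g') • B := Set.smul_mem_smul_set hc'
        rw [heq] at hm
        rw [this]
        exact hm
      exact Set.mem_smul_set_iff_inv_smul_mem.mpr hc2
    · intro hc
      exact ⟨g, hg, hy, Set.mem_smul_set_iff_inv_smul_mem.mp hc⟩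
  have hex : ∀ x y : Ω, x ≠ y → ∃ g : G, g • a = x ∧ g⁻¹ • y ∈ B := by
    intro x y hxy
    obtain ⟨g, hg, hg'⟩ := htr hab hxy
    refine ⟨g, hg, ?_⟩
    rw [← hg', inv_smul_smul]
    exact hb₀
  refine ⟨{ L := L, smul := ?_, self_mem := ?_, ne_of_mem := ?_, eq_of_mem := ?_, ncard := ?_ }, ?_⟩
  · intro g x y hxy
    obtain ⟨g₀, hg₀, hy₀⟩ := hex x y hxy
    rw [key x y g₀ hg₀ hy₀, key (g • x) (g • y) (g * g₀) (by rw [mul_smul, hg₀])
      (by rw [mul_inv_rev, mul_smul, inv_smul_smul]; exact hy₀), mul_smul]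
  · intro x y hxy
    obtain ⟨g₀, hg₀, hy₀⟩ := hex x y hxy
    exact ⟨g₀, hg₀, hy₀, hy₀⟩
  · rintro x y c - ⟨g, hg, -, hc⟩ rfl
    apply ha
    rw [← hg, inv_smul_smul] at hc
    exact hc
  · intro x y c hxy hc
    obtain ⟨g₀, hg₀, hy₀⟩ := hex x y hxy
    have hLy := key x y g₀ hg₀ hy₀
    rw [hLy] at hc
    have hc' := Set.mem_smul_set_iff_inv_smul_mem.mp hc
    rw [key x c g₀ hg₀ hc', hLy]
  · intro x y hxy
    obtain ⟨g₀, hg₀, hy₀⟩ := hex x y hxy
    rw [key x y g₀ hg₀ hy₀, ncard_smul_set_aux, hcard]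
  · intro h hh
    exact key a (h • b₀) h hh (by rw [inv_smul_smul]; exact hb₀)

theorem grid_of_base (h2 : IsMultiplyPretransitive G Ω 2) (F₁ F₂ : Fam G Ω p) (a : Ω)
    (hbase : ∀ c d : Ω, a ≠ c → a ≠ d → ∃! e, e ∈ F₁.L a c ∧ e ∈ F₂.L a d) : Grid F₁ F₂ := by
  intro x c d hc hd
  haveI hpre : IsPretransitive G Ω := isPretransitive_of_is_two_pretransitive (h2 := h2)
  obtain ⟨g, rfl⟩ := exists_smul_eq G a x
  have hc' : a ≠ g⁻¹ • c := fun e => hc (by rw [e, smul_inv_smul])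
  have hd' : a ≠ g⁻¹ • d := fun e => hd (by rw [e, smul_inv_smul])
  have e1 := F₁.smul g a (g⁻¹ • c) hc'
  have e2 := F₂.smul g a (g⁻¹ • d) hd'
  rw [smul_inv_smul] at e1 e2
  obtain ⟨e, ⟨he1, he2⟩, hu⟩ := hbase _ _ hc' hd'
  refine ⟨g • e, ⟨?_, ?_⟩, ?_⟩
  · rw [e1]; exact Set.smul_mem_smul_set he1
  · rw [e2]; exact Set.smul_mem_smul_set he2
  · rintro y ⟨hy1, hy2⟩
    rw [e1] at hy1
    rw [e2] at hy2
    have := hu (g⁻¹ • y) ⟨Set.mem_smul_set_iff_inv_smul_mem.mp hy1,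
      Set.mem_smul_set_iff_inv_smul_mem.mp hy2⟩
    rw [← this, smul_inv_smul]

theorem exists_fam_of_not_preprimitive [Finite G] [Fintype Ω] (hp : p.Prime)
    (hn : Fintype.card Ω = p ^ 2 + 1) (h2 : IsMultiplyPretransitive G Ω 2) (a : Ω)
    (hnp : ¬ IsPreprimitive ↥(stabilizer G a) ↥(SubMulAction.ofStabilizer G a)) :
    Nonempty (Fam G Ω p) := by
  classical
  haveI hpre : IsPretransitive G Ω := isPretransitive_of_is_two_pretransitive (h2 := h2)
  haveI hHΔ : IsPretransitive (stabilizer G a) (SubMulAction.ofStabilizer G a) := by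
    have h1 : IsMultiplyPretransitive (stabilizer G a) (SubMulAction.ofStabilizer G a) 1 :=
      (SubMulAction.ofStabilizer.isMultiplyPretransitive (G := G) (α := Ω) (n := 1) (a := a)).mp h2
    exact is_one_pretransitive_iff.mp h1
  have hΔ : Nat.card (SubMulAction.ofStabilizer G a) = p ^ 2 := by
    rw [SubMulAction.nat_card_ofStabilizer_eq, Nat.card_eq_fintype_card, hn]; simp
  have hblock : ∃ B : Set (SubMulAction.ofStabilizer G a), IsBlock (stabilizer G a) B ∧
      ¬ B.Subsingleton ∧ B ≠ Set.univ := by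
    by_contra hcon
    apply hnp
    refine ⟨fun {B} hB => ?_⟩
    by_contra hnt
    exact hcon ⟨B, hB, fun h => hnt (Or.inl h), fun h => hnt (Or.inr h)⟩
  obtain ⟨B, hB, hs, hu⟩ := hblock
  have hBne : B.Nonempty := by
    by_contra h
    rw [Set.not_nonempty_iff_eq_empty] at h
    exact hs (by rw [h]; exact Set.subsingleton_empty)
  have hBdvd : B.ncard ∣ p ^ 2 := by
    rw [← hΔ]; exact hB.ncard_dvd_card hBne
  have hB1 : 1 < B.ncard := by
    rw [Set.one_lt_ncard]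
    exact Set.not_subsingleton_iff.mp hs
  have hBnp : B.ncard ≠ p ^ 2 := by
    intro h
    apply hu
    rw [Set.eq_univ_iff_ncard, h, hΔ]
  have hBp : B.ncard = p := by
    obtain ⟨k, hk, hkc⟩ := (Nat.dvd_prime_pow hp).mp hBdvd
    interval_cases k
    · rw [hkc] at hB1; simp at hB1
    · rw [hkc, pow_one]
    · exact absurd hkc hBnp
  obtain ⟨b₀, hb₀⟩ := hBne
  let B' : Set Ω := Subtype.val '' B
  have hab : a ≠ (b₀ : Ω) := (SubMulAction.neq_of_mem_ofStabilizer G a).symm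
  have hB'a : a ∉ B' := by
    rintro ⟨x, -, hx⟩
    exact (SubMulAction.neq_of_mem_ofStabilizer G a) hx
  have hB'b : (b₀ : Ω) ∈ B' := ⟨b₀, hb₀, rfl⟩
  have hB'c : B'.ncard = p := by
    rw [Set.ncard_image_of_injective _ Subtype.val_injective, hBp]
  have hsmul : ∀ (h : stabilizer G a), ((h : G) • B') = Subtype.val '' (h • B) := by
    intro h
    ext c
    constructor
    · rintro ⟨_, ⟨x, hx, rfl⟩, rfl⟩
      exact ⟨h • x, Set.smul_mem_smul_set hx, rfl⟩
    · rintro ⟨_, ⟨x, hx, rfl⟩, rfl⟩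
      exact ⟨x, ⟨x, hx, rfl⟩, rfl⟩
  obtain ⟨F, -⟩ := exists_fam_of_block (p := p) h2 a b₀ hab B' hB'a hB'b (by
    intro h hh
    have hhs : h ∈ stabilizer G a := hh
    have hcase := (isBlock_iff_smul_eq_or_disjoint.mp hB) ⟨h, hhs⟩
    have e := hsmul ⟨h, hhs⟩
    simp only at e
    rcases hcase with hc | hc
    · left
      rw [e, hc]
    · right
      rw [e]
      exact (Set.disjoint_image_iff Subtype.val_injective).mpr hc) hB'c
  exact ⟨F⟩

end Cfsg.Agent.Lib.P2205
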