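import Cfsg.Agent.Lib.P2205.Reg
import Cfsg.Agent.Lib.P2205.OfBlock
import Cfsg.Agent.Lib.P2205.EvenStab
import Cfsg.Agent.Lib.P2205.InvCount

/-!
# The last step of the degree `p² + 1` theorem: a normal regular subgroup at each point is impossible
-/

set_option autoImplicit false

namespace Cfsg.Agent.Lib.P2205

open MulAction Pointwise

variable {G Ω : Type*} [Group G] [MulAction G Ω] {p : ℕ}
variable [Finite G] [Fintype Ω] [FaithfulSMul G Ω]

/-- A subgroup with commuting elements: a small identity. -/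
lemma comm_alg {P : Subgroup G} (hc : ∀ x ∈ P, ∀ y ∈ P, x * y = y * x) {a b c d : G} (ha : a ∈ P) (hb : b ∈ P)
    (hcP : c ∈ P) (_hd : d ∈ P) : (a * b)⁻¹ * (c * d) = (a⁻¹ * c) * (b⁻¹ * d) := by
  have h1 : b⁻¹ * a⁻¹ = a⁻¹ * b⁻¹ := hc _ (P.inv_mem hb) _ (P.inv_mem ha)
  have h2 : b⁻¹ * c = c * b⁻¹ := hc _ (P.inv_mem hb) _ hcP
  calc (a * b)⁻¹ * (c * d) = (b⁻¹ * a⁻¹) * (c * d) := by group
    _ = a⁻¹ * (b⁻¹ * c) * d := by rw [h1]; group
    _ = (a⁻¹ * c) * (b⁻¹ * d) := by rw [h2]; group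

/-- Conjugation by an element normalizing `P`, as an endomorphism of `P`. -/
def conjP (P : Subgroup G) (h : G) (hn : ∀ x ∈ P, h * x * h⁻¹ ∈ P) : ↥P →* ↥P where
  toFun x := ⟨h * x * h⁻¹, hn _ x.2⟩
  map_one' := by ext; simp
  map_mul' x y := by ext; simp [mul_assoc]

@[simp] lemma conjP_coe (P : Subgroup G) (h : G) (hn : ∀ x ∈ P, h * x * h⁻¹ ∈ P) (x : ↥P) :
    ((conjP P h hn x : ↥P) : G) = h * x * h⁻¹ := rfl

/-- The commutator endomorphism `x ↦ x⁻¹ (h x h⁻¹)` of an abelian subgroup normalized by `h`. -/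
def thetaH (P : Subgroup G) (hc : ∀ x ∈ P, ∀ y ∈ P, x * y = y * x) (h : G) (hn : ∀ x ∈ P, h * x * h⁻¹ ∈ P) : ↥P →* ↥P :=
  MonoidHom.mk' (fun x => ⟨(x : G)⁻¹ * (h * x * h⁻¹), P.mul_mem (P.inv_mem x.2) (hn _ x.2)⟩) (by
    intro x y
    ext
    have e : h * ((x : G) * y) * h⁻¹ = (h * x * h⁻¹) * (h * y * h⁻¹) := by group
    simp only [Subgroup.coe_mul]
    rw [e]
    exact comm_alg hc x.2 y.2 (hn _ x.2) (hn _ y.2))

@[simp] lemma thetaH_coe (P : Subgroup G) (hc : ∀ x ∈ P, ∀ y ∈ P, x * y = y * x) (h : G)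
    (hn : ∀ x ∈ P, h * x * h⁻¹ ∈ P) (x : ↥P) : ((thetaH P hc h hn x : ↥P) : G) = (x : G)⁻¹ * (h * x * h⁻¹) := rfl

/-- The situation at a point. -/
structure Ctx (F : Fam G Ω p) (a : Ω) (P : Subgroup G) (z : G) : Prop where
  hp : p.Prime
  hodd : p ≠ 2
  hst : P ≤ stabilizer G a
  hcard : Nat.card P = p ^ 2
  hnorm : ∀ h : G, h • a = a → ∀ x ∈ P, h * x * h⁻¹ ∈ P
  free : ∀ {x : G}, x ∈ P → ∀ {c : Ω}, a ≠ c → x • c = c → x = 1
  trans : ∀ {b c : Ω}, a ≠ b → a ≠ c → ∃ x ∈ P, x • b = c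
  comm : ∀ x ∈ P, ∀ y ∈ P, x * y = y * x
  hzP : z ∈ P
  hzK : z ∈ F.K a
  hzo : orderOf z = p
  hzL : ∀ c, a ≠ c → ∀ d ∈ F.L a c, ∃ i : ℕ, z ^ i • c = d
  hsemi : ∀ (F' : Fam G Ω p) (b : Ω), a ≠ b → ∀ k ∈ F'.K a, k • b = b → k = 1

namespace Ctx

variable {F : Fam G Ω p} {a b : Ω} {P : Subgroup G} {z : G} (C : Ctx F a P z)

include C

lemma fixa {x : G} (hx : x ∈ P) : x • a = a := C.hst hx

/-- The kernel at `a` is generated by `z`. -/
lemma K_eq_pow (hab : a ≠ b) {k : G} (hk : k ∈ F.K a) : ∃ i : ℕ, k = z ^ i := by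
  have hne : a ≠ k • b := fun e => Fam.smul_ne_of_fix hk.1 (Ne.symm hab) e.symm
  have hmem : k • b ∈ F.L a b := by
    rw [← hk.2 b (Ne.symm hab)]
    exact F.self_mem a _ hne
  obtain ⟨i, hi⟩ := C.hzL b hab _ hmem
  refine ⟨i, ?_⟩
  have h1 : (z ^ i)⁻¹ * k ∈ F.K a := Subgroup.mul_mem _ (Subgroup.inv_mem _ (Subgroup.pow_mem _ C.hzK i)) hk
  have h2 : ((z ^ i)⁻¹ * k) • b = b := by
    rw [mul_smul, ← hi, inv_smul_smul]
  have h3 := C.hsemi F b hab _ h1 h2
  exact (inv_mul_eq_one.1 h3).symm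

lemma K_le (hab : a ≠ b) : F.K a ≤ P := by
  intro k hk
  obtain ⟨i, rfl⟩ := C.K_eq_pow hab hk
  exact Subgroup.pow_mem _ C.hzP i

lemma card_K (hab : a ≠ b) : Nat.card (F.K a) = p := by
  have : F.K a = Subgroup.zpowers z := by
    apply le_antisymm
    · intro k hk
      obtain ⟨i, rfl⟩ := C.K_eq_pow hab hk
      exact Subgroup.npow_mem_zpowers z i
    · rw [Subgroup.zpowers_le]
      exact C.hzK
  rw [this, Nat.card_zpowers, C.hzo]

/-- A point of `P` moving `b` into its block is in the kernel. -/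
lemma mem_K_of_mem_L (hab : a ≠ b) {x : G} (hx : x ∈ P) (h : x • b ∈ F.L a b) : x ∈ F.K a := by
  obtain ⟨i, hi⟩ := C.hzL b hab _ h
  have h1 : (z ^ i)⁻¹ * x ∈ P := P.mul_mem (P.inv_mem (P.pow_mem C.hzP i)) hx
  have h2 : ((z ^ i)⁻¹ * x) • b = b := by
    rw [mul_smul, ← hi, inv_smul_smul]
  have h3 := C.free h1 hab h2
  rw [← inv_mul_eq_one.1 h3]
  exact Subgroup.pow_mem _ C.hzK i

lemma conj_K {h k : G} (ha : h • a = a) (hk : k ∈ F.K a) : h * k * h⁻¹ ∈ F.K a := by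
  have := F.conj_mem_K hk h
  rwa [ha] at this

lemma exists_not_K (hab : a ≠ b) : ∃ y ∈ P, y ∉ F.K a := by
  by_contra hcon
  push Not at hcon
  have h1 : Nat.card P ≤ Nat.card (F.K a) := Subgroup.card_le_of_le hcon
  rw [C.hcard, C.card_K hab] at h1
  have hp := C.hp
  have h3 := hp.two_le
  nlinarith

/-- All of `P` has commutators with `h` in the kernel, as soon as some `y` outside the kernel has. -/
lemma comm_all (hab : a ≠ b) {h y : G} (ha : h • a = a) (hyP : y ∈ P) (hyK : y ∉ F.K a)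
    (hk : y⁻¹ * (h * y * h⁻¹) ∈ F.K a) {x : G} (hx : x ∈ P) : x⁻¹ * (h * x * h⁻¹) ∈ F.K a := by
  classical
  let θ := thetaH P C.comm h (C.hnorm h ha)
  let K' : Subgroup ↥P := (F.K a).subgroupOf P
  let M : Subgroup ↥P := K'.comap θ
  have hKM : K' ≤ M := by
    intro k hk'
    have hk'' : (k : G) ∈ F.K a := hk'
    show θ k ∈ K'
    show ((θ k : ↥P) : G) ∈ F.K a
    exact Subgroup.mul_mem _ (Subgroup.inv_mem _ hk'') (C.conj_K ha hk'')
  have hyM : (⟨y, hyP⟩ : ↥P) ∈ M := hk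
  have hyK' : (⟨y, hyP⟩ : ↥P) ∉ K' := hyK
  have hcK' : Nat.card K' = p := by
    rw [← C.card_K hab]
    exact Nat.card_congr (Subgroup.subgroupOfEquivOfLe (C.K_le hab)).toEquiv
  have hM : M = ⊤ := by
    apply Subgroup.eq_top_of_card_eq
    have h1 : Nat.card M ∣ p ^ 2 := by
      rw [← C.hcard]
      exact Subgroup.card_subgroup_dvd_card M
    obtain ⟨j, hj, hj'⟩ := (Nat.dvd_prime_pow C.hp).1 h1
    have h2 : Nat.card K' ∣ Nat.card M := Subgroup.card_dvd_of_le hKM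
    rw [hcK', hj'] at h2
    have hj1 : 1 ≤ j := by
      by_contra h0
      have : j = 0 := by omega
      subst this
      simp at h2
      exact C.hp.one_lt.ne' h2
    have hne : K' ≠ M := fun e => hyK' (e ▸ hyM)
    have hj2 : j ≠ 1 := by
      rintro rfl
      apply hne
      apply Subgroup.eq_of_le_of_card_ge hKM
      rw [hcK', hj', pow_one]
    have hj3 : j = 2 := by omega
    rw [hj', hj3, C.hcard]
  have : (⟨x, hx⟩ : ↥P) ∈ M := by rw [hM]; trivial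
  exact this

/-- **Lemma X**. -/
lemma lemmaX (hab : a ≠ b) {h y : G} (ha : h • a = a) (hb : h • b = b) (hyP : y ∈ P) (hyK : y ∉ F.K a)
    (hk : y⁻¹ * (h * y * h⁻¹) ∈ F.K a) : h = 1 := by
  apply C.hsemi F b hab h ?_ hb
  refine ⟨ha, fun c hc => ?_⟩
  obtain ⟨x, hx, rfl⟩ := C.trans hab (Ne.symm hc)
  have hk' := C.comm_all hab ha hyP hyK hk hx
  set k := x⁻¹ * (h * x * h⁻¹) with hkdef
  have e : h • x • b = x • k • b := by
    have : h * x = x * k * h := by rw [hkdef]; group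
    rw [← mul_smul, this, mul_smul, hb, mul_smul]
  have hkb : a ≠ k • b := fun e' => Fam.smul_ne_of_fix hk'.1 (Ne.symm hab) e'.symm
  rw [e, ← F.smul_L_of_fix' hkb (C.fixa hx), hk'.2 b (Ne.symm hab), F.smul_L_of_fix' hab (C.fixa hx)]

end Ctx

namespace Ctx

variable {F : Fam G Ω p} {a b : Ω} {P : Subgroup G} {z : G} (C : Ctx F a P z)

include C

/-- The two-point stabilizer is abelian. -/
lemma abelian (hab : a ≠ b) {b₁ b₂ : G} (h1a : b₁ • a = a) (h1b : b₁ • b = b) (h2a : b₂ • a = a)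
    (h2b : b₂ • b = b) : b₁ * b₂ = b₂ * b₁ := by
  classical
  obtain ⟨y, hyP, hyK⟩ := C.exists_not_K hab
  haveI : Fact p.Prime := ⟨C.hp⟩
  let K' : Subgroup ↥P := (F.K a).subgroupOf P
  haveI hK'n : K'.Normal := ⟨fun k hk g => by
    have : g * k * g⁻¹ = k := by
      ext
      have e := C.comm _ g.2 _ k.2
      simp [e]
    rwa [this]⟩
  have hcK' : Nat.card K' = p := by
    rw [← C.card_K hab]
    exact Nat.card_congr (Subgroup.subgroupOfEquivOfLe (C.K_le hab)).toEquiv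
  have hQ : Nat.card (↥P ⧸ K') = p := by
    have h := Subgroup.card_eq_card_quotient_mul_card_subgroup K'
    rw [C.hcard, hcK', pow_two] at h
    exact (Nat.eq_of_mul_eq_mul_right C.hp.pos h).symm
  let π : ↥P →* ↥P ⧸ K' := QuotientGroup.mk' K'
  let y₀ : ↥P := ⟨y, hyP⟩
  have hy₀ : π y₀ ≠ 1 := by
    intro e
    have : y₀ ∈ K' := (QuotientGroup.eq_one_iff y₀).1 e
    exact hyK this
  have hgen : ∀ x : ↥P, ∃ n : ℤ, π x = π y₀ ^ n := by
    intro x
    have hz := zpowers_eq_top_of_prime_card (p := p) (G := ↥P ⧸ K') hQ hy₀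
    have : π x ∈ Subgroup.zpowers (π y₀) := by rw [hz]; trivial
    obtain ⟨n, hn⟩ := Subgroup.mem_zpowers_iff.1 this
    exact ⟨n, hn.symm⟩
  have hinv : ∀ (h : G) (hh : h • a = a) (u v : ↥P), π u = π v →
      π (conjP P h (C.hnorm h hh) u) = π (conjP P h (C.hnorm h hh) v) := by
    intro h hh u v huv
    have h1 : u⁻¹ * v ∈ K' := QuotientGroup.eq.1 huv
    apply QuotientGroup.eq.2
    rw [← map_inv, ← map_mul]
    exact C.conj_K hh h1
  have hpow : ∀ (h : G) (hh : h • a = a) (x : ↥P) (k : ℤ), π x = π y₀ ^ k →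
      π (conjP P h (C.hnorm h hh) x) = π (conjP P h (C.hnorm h hh) y₀) ^ k := by
    intro h hh x k hx
    rw [← map_zpow π, hinv h hh x (y₀ ^ k) (by rw [map_zpow, hx]), map_zpow, map_zpow]
  obtain ⟨m, hm⟩ := hgen (conjP P b₁ (C.hnorm b₁ h1a) y₀)
  obtain ⟨n, hn⟩ := hgen (conjP P b₂ (C.hnorm b₂ h2a) y₀)
  have e1 := hpow b₁ h1a _ n hn
  have e2 := hpow b₂ h2a _ m hm
  rw [hm, ← zpow_mul] at e1
  rw [hn, ← zpow_mul, mul_comm n m, ← e1] at e2
  have e3 := QuotientGroup.eq.1 e2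
  have e4 : ((b₂ * ((b₁ * y * b₁⁻¹)) * b₂⁻¹)⁻¹ * (b₁ * ((b₂ * y * b₂⁻¹)) * b₁⁻¹)) ∈ F.K a := e3
  set v := b₂ * b₁ with hv
  set u := b₁ * b₂ with hu
  have hva : v • a = a := by rw [hv, mul_smul, h1a, h2a]
  have hvb : v • b = b := by rw [hv, mul_smul, h1b, h2b]
  have hua : u • a = a := by rw [hu, mul_smul, h2a, h1a]
  have hub : u • b = b := by rw [hu, mul_smul, h2b, h1b]
  have hvia : v⁻¹ • a = a := inv_smul_eq_iff.2 hva.symm
  have hvib : v⁻¹ • b = b := inv_smul_eq_iff.2 hvb.symm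
  have e5 := C.conj_K hvia e4
  have e6 : v⁻¹ * ((b₂ * (b₁ * y * b₁⁻¹) * b₂⁻¹)⁻¹ * (b₁ * (b₂ * y * b₂⁻¹) * b₁⁻¹)) * v⁻¹⁻¹ =
      y⁻¹ * ((v⁻¹ * u) * y * (v⁻¹ * u)⁻¹) := by
    rw [hv, hu]
    group
  rw [e6] at e5
  have e7 := C.lemmaX hab (h := v⁻¹ * u) (by rw [mul_smul, hua, hvia]) (by rw [mul_smul, hub, hvib]) hyP hyK e5
  exact (inv_mul_eq_one.1 e7).symm

/-- Two different elements of the two-point stabilizer move `y • b` to different blocks. -/
lemma same_block (hab : a ≠ b) {y : G} (hyP : y ∈ P) (hyK : y ∉ F.K a) {h₁ h₂ : G}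
    (h1a : h₁ • a = a) (h1b : h₁ • b = b) (h2a : h₂ • a = a) (h2b : h₂ • b = b)
    (hmem : h₁ • y • b ∈ F.L a (h₂ • y • b)) : h₁ = h₂ := by
  have hyb : y • b ≠ a := Fam.smul_ne_of_fix (C.fixa hyP) (Ne.symm hab)
  have h2ia : h₂⁻¹ • a = a := inv_smul_eq_iff.2 h2a.symm
  have h2ib : h₂⁻¹ • b = b := inv_smul_eq_iff.2 h2b.symm
  set h := h₂⁻¹ * h₁ with hh
  have ha : h • a = a := by rw [hh, mul_smul, h1a, h2ia]
  have hb : h • b = b := by rw [hh, mul_smul, h1b, h2ib]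
  have hne : a ≠ h₂ • y • b := fun e => Fam.smul_ne_of_fix h2a hyb e.symm
  have h1 := F.smul_mem_L (g := h₂⁻¹) hne h2ia hmem
  rw [inv_smul_smul, ← mul_smul, ← hh] at h1
  rw [← F.smul_L_of_fix' hab (C.fixa hyP)] at h1
  obtain ⟨w, hw, e⟩ := h1
  have hib : h⁻¹ • b = b := inv_smul_eq_iff.2 hb.symm
  have hx : (y⁻¹ * (h * y * h⁻¹)) • b = w := by
    have e' : y • w = h • y • b := e
    calc (y⁻¹ * (h * y * h⁻¹)) • b = y⁻¹ • h • y • h⁻¹ • b := by simp only [mul_smul]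
      _ = y⁻¹ • y • w := by rw [hib, e']
      _ = w := inv_smul_smul _ _
  have hxP : y⁻¹ * (h * y * h⁻¹) ∈ P := P.mul_mem (P.inv_mem hyP) (C.hnorm h ha y hyP)
  have hK := C.mem_K_of_mem_L hab hxP (by rw [hx]; exact hw)
  have := C.lemmaX hab ha hb hyP hyK hK
  exact (inv_mul_eq_one.1 this).symm

lemma not_mem_L (hab : a ≠ b) {y : G} (hyP : y ∈ P) (hyK : y ∉ F.K a) {h : G}
    (ha : h • a = a) (hb : h • b = b) : h • y • b ∉ F.L a b := by
  intro hmem
  have hia : h⁻¹ • a = a := inv_smul_eq_iff.2 ha.symm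
  have hib : h⁻¹ • b = b := inv_smul_eq_iff.2 hb.symm
  have h1 := F.smul_mem_L (g := h⁻¹) hab hia hmem
  rw [inv_smul_smul, hib] at h1
  exact hyK (C.mem_K_of_mem_L hab hyP h1)

/-- The two-point stabilizer is small. -/
lemma card_B_le (hn : Fintype.card Ω = p ^ 2 + 1) (hab : a ≠ b) : Nat.card (G2 G a b) + 1 ≤ p := by
  classical
  obtain ⟨y, hyP, hyK⟩ := C.exists_not_K hab
  haveI := Fintype.ofFinite ↥(G2 G a b)
  let e : ↥(G2 G a b) → Ω := fun h => (h : G) • y • b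
  have hea : ∀ h : ↥(G2 G a b), (h : G) • a = a := fun h => h.2.1
  have heb : ∀ h : ↥(G2 G a b), (h : G) • b = b := fun h => h.2.2
  have hyb : y • b ≠ a := Fam.smul_ne_of_fix (C.fixa hyP) (Ne.symm hab)
  have hne : ∀ h, e h ≠ a := fun h => Fam.smul_ne_of_fix (hea h) hyb
  have hinj : Function.Injective e := by
    intro h₁ h₂ hh
    apply Subtype.ext
    apply C.same_block hab hyP hyK (hea h₁) (heb h₁) (hea h₂) (heb h₂)
    show e h₁ ∈ F.L a (e h₂)
    rw [hh]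
    exact F.self_mem a _ (hne h₂).symm
  have hbe : b ∉ Finset.univ.image e := by
    intro hb
    obtain ⟨h, -, hh⟩ := Finset.mem_image.1 hb
    apply C.not_mem_L hab hyP hyK (hea h) (heb h)
    show e h ∈ F.L a b
    rw [hh]
    exact F.self_mem a b hab
  set T : Finset Ω := insert b (Finset.univ.image e) with hT
  have hTc : T.card = Nat.card ↥(G2 G a b) + 1 := by
    rw [hT, Finset.card_insert_of_notMem hbe, Finset.card_image_of_injective _ hinj, Finset.card_univ,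
      Nat.card_eq_fintype_card]
  have hT1 : ∀ x ∈ T, x ≠ a := by
    intro x hx
    rcases Finset.mem_insert.1 hx with rfl | hx
    · exact Ne.symm hab
    · obtain ⟨h, -, rfl⟩ := Finset.mem_image.1 hx
      exact hne h
  have hT2 : ∀ x ∈ T, ∀ x' ∈ T, x ≠ x' → x' ∉ F.L a x := by
    intro x hx x' hx' hxx' hmem
    rcases Finset.mem_insert.1 hx with rfl | hx
    · rcases Finset.mem_insert.1 hx' with rfl | hx'
      · exact hxx' rfl
      · obtain ⟨h, -, rfl⟩ := Finset.mem_image.1 hx'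
        exact C.not_mem_L hab hyP hyK (hea h) (heb h) hmem
    · obtain ⟨h, -, rfl⟩ := Finset.mem_image.1 hx
      rcases Finset.mem_insert.1 hx' with rfl | hx'
      · have h1 := F.L_eq_of_mem_of_mem (hne h).symm hab hmem (F.self_mem a _ hab)
        apply C.not_mem_L hab hyP hyK (hea h) (heb h)
        show e h ∈ F.L a _
        rw [← h1]
        exact F.self_mem a _ (hne h).symm
      · obtain ⟨h', -, rfl⟩ := Finset.mem_image.1 hx'
        have := C.same_block hab hyP hyK (hea h') (heb h') (hea h) (heb h) hmem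
        exact hxx' (by
          have e' : h = h' := Subtype.ext this.symm
          rw [e'])
  have key := F.card_mul_le a T hT1 hT2
  rw [hTc, hn] at key
  have h1 : (Nat.card ↥(G2 G a b) + 1) * p ≤ p * p := by nlinarith
  exact Nat.le_of_mul_le_mul_right h1 C.hp.pos

end Ctx

/-- Orbits of a subgroup are equal or disjoint. -/
lemma orb_eq_or_disjoint (N : Subgroup G) (c d : Ω) : orb N c = orb N d ∨ Disjoint (orb N c) (orb N d) := by
  by_cases h : Disjoint (orb N c) (orb N d)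
  · exact Or.inr h
  · left
    obtain ⟨w, ⟨n₁, hn₁, rfl⟩, ⟨n₂, hn₂, e⟩⟩ := Set.not_disjoint_iff.1 h
    have hd : d = (n₂⁻¹ * n₁) • c := by
      rw [mul_smul, ← e, inv_smul_smul]
    subst hd
    ext x
    constructor
    · rintro ⟨m, hm, rfl⟩
      refine ⟨m * (n₂⁻¹ * n₁)⁻¹, N.mul_mem hm (N.inv_mem (N.mul_mem (N.inv_mem hn₂) hn₁)), ?_⟩
      rw [mul_smul, inv_smul_smul]
    · rintro ⟨m, hm, rfl⟩
      exact ⟨m * (n₂⁻¹ * n₁), N.mul_mem hm (N.mul_mem (N.inv_mem hn₂) hn₁), by rw [mul_smul]⟩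

lemma smul_orb_self {N : Subgroup G} {n : G} (hn : n ∈ N) (c : Ω) : n • orb N c = orb N c := by
  ext x
  rw [Set.mem_smul_set_iff_inv_smul_mem]
  constructor
  · rintro ⟨m, hm, e⟩
    refine ⟨n * m, N.mul_mem hn hm, ?_⟩
    rw [mul_smul, e, smul_inv_smul]
  · rintro ⟨m, hm, rfl⟩
    exact ⟨n⁻¹ * m, N.mul_mem (N.inv_mem hn) hm, by rw [mul_smul]⟩

lemma smul_orb_conj {N : Subgroup G} {h : G} (h1 : ∀ n ∈ N, h * n * h⁻¹ ∈ N) (h2' : ∀ n ∈ N, h⁻¹ * n * h ∈ N) (c : Ω) :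
    h • orb N c = orb N (h • c) := by
  ext x
  rw [Set.mem_smul_set_iff_inv_smul_mem]
  constructor
  · rintro ⟨m, hm, e⟩
    refine ⟨h * m * h⁻¹, h1 m hm, ?_⟩
    simp only [mul_smul, inv_smul_smul]
    rw [e, smul_inv_smul]
  · rintro ⟨m, hm, rfl⟩
    refine ⟨h⁻¹ * m * h, h2' m hm, ?_⟩
    simp only [mul_smul]

namespace Ctx

variable {F : Fam G Ω p} {a b : Ω} {P : Subgroup G} {z : G} (C : Ctx F a P z)

include C

/-- Conjugation by `G_a` on `P` commutes with conjugation by the two-point stabilizer. -/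
lemma conj_comm (hab : a ≠ b) {t h x : G} (ta : t • a = a) (tb : t • b = b) (ha : h • a = a) (hx : x ∈ P) :
    h * (t * x * t⁻¹) * h⁻¹ = t * (h * x * h⁻¹) * t⁻¹ := by
  have hne : a ≠ h • b := fun e => Fam.smul_ne_of_fix ha (Ne.symm hab) e.symm
  obtain ⟨x₀, hx₀, e⟩ := C.trans hab hne
  set h₀ := x₀⁻¹ * h with hh₀
  have hxia : x₀⁻¹ • a = a := inv_smul_eq_iff.2 (C.fixa hx₀).symm
  have h₀a : h₀ • a = a := by rw [hh₀, mul_smul, ha, hxia]
  have h₀b : h₀ • b = b := by rw [hh₀, mul_smul, ← e, inv_smul_smul]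
  have hcomm := C.abelian hab h₀a h₀b ta tb
  have hh : h = x₀ * h₀ := by rw [hh₀]; group
  set u := h₀ * x * h₀⁻¹ with hu
  have huP : u ∈ P := C.hnorm h₀ h₀a x hx
  have hvP : t * u * t⁻¹ ∈ P := C.hnorm t ta u huP
  have e1 : h₀ * (t * x * t⁻¹) * h₀⁻¹ = t * u * t⁻¹ := by
    calc h₀ * (t * x * t⁻¹) * h₀⁻¹ = (h₀ * t) * x * (h₀ * t)⁻¹ := by group
      _ = (t * h₀) * x * (t * h₀)⁻¹ := by rw [hcomm]
      _ = t * u * t⁻¹ := by rw [hu]; group
  have e2 : ∀ w ∈ P, x₀ * w * x₀⁻¹ = w := by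
    intro w hw
    rw [C.comm _ hx₀ _ hw]
    group
  have e3 : h * (t * x * t⁻¹) * h⁻¹ = x₀ * (h₀ * (t * x * t⁻¹) * h₀⁻¹) * x₀⁻¹ := by rw [hh]; group
  have e4 : h * x * h⁻¹ = x₀ * u * x₀⁻¹ := by rw [hh, hu]; group
  rw [e3, e1, e2 _ hvP, e4, e2 _ huP]

/-- An involution of the two-point stabilizer has no fixed points on `P`. -/
lemma centr_trivial (h2 : IsMultiplyPretransitive G Ω 2) (hab : a ≠ b) {t : G} (ta : t • a = a) (tb : t • b = b)
    (ht : orderOf t = 2) {x₀ : G} (hx₀ : x₀ ∈ P) (hfix : t * x₀ * t⁻¹ = x₀) : x₀ = 1 := by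
  classical
  by_contra hne
  have hpp := C.hp
  haveI : Fact p.Prime := ⟨hpp⟩
  let θ : ↥P →* ↥P := thetaH P C.comm t (C.hnorm t ta)
  have hθ : ∀ x : ↥P, ((θ x : ↥P) : G) = (x : G)⁻¹ * (t * x * t⁻¹) := fun x => rfl
  have hker1 : (⟨x₀, hx₀⟩ : ↥P) ∈ θ.ker := by
    rw [MonoidHom.mem_ker]
    ext
    rw [hθ]
    simp [hfix]
  have hkerne : θ.ker ≠ ⊤ := by
    intro htop
    have hcen : ∀ x ∈ P, t * x * t⁻¹ = x := by
      intro x hx
      have h1 : (⟨x, hx⟩ : ↥P) ∈ θ.ker := by rw [htop]; trivial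
      rw [MonoidHom.mem_ker] at h1
      have h3 : ((θ ⟨x, hx⟩ : ↥P) : G) = 1 := by rw [h1]; rfl
      rw [hθ] at h3
      exact (inv_mul_eq_one.1 h3).symm
    have h1 : t = 1 := by
      apply FaithfulSMul.eq_of_smul_eq_smul (α := Ω)
      intro c
      rw [one_smul]
      by_cases hc : c = a
      · rw [hc, ta]
      · obtain ⟨x, hx, rfl⟩ := C.trans hab (Ne.symm hc)
        have e : t * x = x * t := by
          have := hcen x hx
          calc t * x = t * x * t⁻¹ * t := by group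
            _ = x * t := by rw [this]
        rw [← mul_smul, e, mul_smul, tb]
    rw [h1, orderOf_one] at ht
    omega
  have hkerc : Nat.card θ.ker = p := by
    have h1 : Nat.card θ.ker ∣ p ^ 2 := by
      rw [← C.hcard]
      exact Subgroup.card_subgroup_dvd_card _
    obtain ⟨j, hj, hj'⟩ := (Nat.dvd_prime_pow hpp).1 h1
    have hj0 : j ≠ 0 := by
      rintro rfl
      rw [pow_zero] at hj'
      have := (Subgroup.eq_bot_of_card_eq _ hj')
      rw [this, Subgroup.mem_bot] at hker1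
      exact hne (congrArg Subtype.val hker1)
    have hj2 : j ≠ 2 := by
      rintro rfl
      apply hkerne
      apply Subgroup.eq_top_of_card_eq
      rw [hj', C.hcard]
    have : j = 1 := by omega
    rw [hj', this, pow_one]
  have hNc : Nat.card θ.range = p := by
    have h1 := Subgroup.card_mul_index θ.ker
    rw [Subgroup.index_ker, hkerc, C.hcard, pow_two] at h1
    exact Nat.eq_of_mul_eq_mul_left hpp.pos h1
  set N : Subgroup G := θ.range.map P.subtype with hN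
  have hNcard : Nat.card N = p := by
    rw [hN, Subgroup.card_map_of_injective P.subtype_injective, hNc]
  have hmemN : ∀ n : G, n ∈ N ↔ ∃ x ∈ P, x⁻¹ * (t * x * t⁻¹) = n := by
    intro n
    constructor
    · rintro ⟨w, ⟨x, rfl⟩, rfl⟩
      exact ⟨x, x.2, (hθ x).symm⟩
    · rintro ⟨x, hx, rfl⟩
      exact ⟨θ ⟨x, hx⟩, ⟨⟨x, hx⟩, rfl⟩, rfl⟩
  have hNP : N ≤ P := by
    rintro n ⟨w, -, rfl⟩
    exact w.2
  have hNn : ∀ h : G, h • a = a → ∀ n ∈ N, h * n * h⁻¹ ∈ N := by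
    intro h ha n hn
    obtain ⟨x, hx, rfl⟩ := (hmemN n).1 hn
    refine (hmemN _).2 ⟨h * x * h⁻¹, C.hnorm h ha x hx, ?_⟩
    rw [← C.conj_comm hab ta tb ha hx]
    group
  have hbn : ∀ n ∈ N, n • b = b → n = 1 := fun n hn e => C.free (hNP hn) hab e
  let B₀ : Set Ω := orb N b
  have hiv : ∀ h : G, h • a = a → h⁻¹ • a = a := fun h ha => inv_smul_eq_iff.2 ha.symm
  have hB₀ : ∀ h : G, h • a = a → h • B₀ = orb N (h • b) := by
    intro h ha
    apply smul_orb_conj (hNn h ha)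
    intro n hn
    have := hNn h⁻¹ (hiv h ha) n hn
    simpa using this
  have haB : a ∉ B₀ := by
    rintro ⟨n, hn, e⟩
    exact hab (by
      have : n • a = a := C.fixa (hNP hn)
      have h3 : n • b = n • a := by rw [e, this]
      exact (smul_left_cancel n h3).symm)
  have hcardB : B₀.ncard = p := by
    have h1 := card_eq_orb N b
    have h3 : N ⊓ stabilizer G b = ⊥ := by
      rw [eq_bot_iff]
      rintro n ⟨hn, hn'⟩
      exact hbn n hn hn'
    rw [h3, Subgroup.card_bot, mul_one, hNcard] at h1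
    exact h1.symm
  obtain ⟨F', hF'⟩ := exists_fam_of_block h2 a b hab B₀ haB (self_mem_orb N b) (by
    intro h ha
    rw [hB₀ h ha]
    exact orb_eq_or_disjoint N _ _) hcardB
  have htK : t ∈ F'.K a := by
    refine ⟨ta, fun c hc => ?_⟩
    obtain ⟨x, hx, rfl⟩ := C.trans hab (Ne.symm hc)
    set n := x⁻¹ * (t * x * t⁻¹) with hn
    have hnN : n ∈ N := (hmemN n).2 ⟨x, hx, rfl⟩
    have e : t • x • b = (x * n) • b := by
      have e1 : x * n = t * x * t⁻¹ := by rw [hn]; group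
      rw [e1]
      simp only [mul_smul]
      rw [inv_smul_eq_iff.2 tb.symm]
    rw [e, hF' (x * n) (by rw [mul_smul, C.fixa (hNP hnN), C.fixa hx]), hF' x (C.fixa hx), mul_smul]
    congr 1
    exact smul_orb_self hnN b
  have ht1 := C.hsemi F' b hab t htK tb
  rw [ht1, orderOf_one] at ht
  omega

lemma inverts (h2 : IsMultiplyPretransitive G Ω 2) (hab : a ≠ b) {t : G} (ta : t • a = a) (tb : t • b = b)
    (ht : orderOf t = 2) {x : G} (hx : x ∈ P) : t * x * t⁻¹ = x⁻¹ := by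
  have htt : t * t = 1 := by rw [← pow_two, ← ht]; exact pow_orderOf_eq_one t
  have htinv : t⁻¹ = t := inv_eq_of_mul_eq_one_left htt
  have hy : t * x * t⁻¹ ∈ P := C.hnorm t ta x hx
  have hw : x * (t * x * t⁻¹) ∈ P := P.mul_mem hx hy
  have hfix : t * (x * (t * x * t⁻¹)) * t⁻¹ = x * (t * x * t⁻¹) := by
    have e1 : t * (x * (t * x * t⁻¹)) * t⁻¹ = (t * x * t⁻¹) * x := by
      rw [htinv]
      calc t * (x * (t * x * t)) * t = t * x * t * x * (t * t) := by group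
        _ = t * x * t * x := by rw [htt, mul_one]
    rw [e1, C.comm _ hy _ hx]
  have := C.centr_trivial h2 hab ta tb ht hw hfix
  exact eq_inv_of_mul_eq_one_right this

lemma fix_two (h2 : IsMultiplyPretransitive G Ω 2) (hab : a ≠ b) {t : G} (ta : t • a = a) (tb : t • b = b)
    (ht : orderOf t = 2) {e : Ω} (he : t • e = e) : e = a ∨ e = b := by
  by_cases hea : e = a
  · exact Or.inl hea
  right
  obtain ⟨x, hx, rfl⟩ := C.trans hab (Ne.symm hea)
  have hinv := C.inverts h2 hab ta tb ht hx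
  have e1 : t • x • b = x⁻¹ • b := by
    rw [← hinv]
    simp only [mul_smul]
    rw [inv_smul_eq_iff.2 tb.symm]
  rw [e1] at he
  have e2 : (x * x) • b = b := by
    rw [mul_smul]
    have : x • b = x⁻¹ • b := he.symm
    rw [this, smul_inv_smul]
  have e3 := C.free (P.mul_mem hx hx) hab e2
  have hpp := C.hp
  have hord : orderOf x ∣ p ^ 2 := by
    rw [← C.hcard]
    have := Subgroup.orderOf_dvd_natCard P hx
    exact this
  have hord2 : orderOf x ∣ 2 := orderOf_dvd_of_pow_eq_one (by rw [pow_two]; exact e3)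
  have hcop : Nat.Coprime 2 (p ^ 2) := by
    apply Nat.Coprime.pow_right
    exact (Nat.coprime_primes Nat.prime_two hpp).2 (Ne.symm C.hodd)
  have h1 : orderOf x = 1 := Nat.eq_one_of_dvd_coprimes hcop hord2 hord
  rw [orderOf_eq_one_iff.1 h1, one_smul]

/-- Two involutions of the two-point stabilizer agree. -/
lemma invol_unique (h2 : IsMultiplyPretransitive G Ω 2) (hab : a ≠ b) {t t' : G} (ta : t • a = a) (tb : t • b = b)
    (ht : orderOf t = 2) (ta' : t' • a = a) (tb' : t' • b = b) (ht' : orderOf t' = 2) : t' = t := by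
  have hu : t * t' = 1 := by
    apply FaithfulSMul.eq_of_smul_eq_smul (α := Ω)
    intro c
    rw [one_smul]
    by_cases hc : c = a
    · rw [hc, mul_smul, ta', ta]
    · obtain ⟨x, hx, rfl⟩ := C.trans hab (Ne.symm hc)
      have e1 := C.inverts h2 hab ta' tb' ht' hx
      have e2 := C.inverts h2 hab ta tb ht (P.inv_mem hx)
      rw [inv_inv] at e2
      have e3 : t' • x • b = x⁻¹ • b := by
        rw [← e1]
        simp only [mul_smul]
        rw [inv_smul_eq_iff.2 tb'.symm]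
      have e4 : t • x⁻¹ • b = x • b := by
        have e5 : (t * x⁻¹ * t⁻¹) • b = x • b := by rw [e2]
        rw [← e5]
        simp only [mul_smul]
        rw [inv_smul_eq_iff.2 tb.symm]
      rw [mul_smul, e3, e4]
  have htt : t * t = 1 := by rw [← pow_two, ← ht]; exact pow_orderOf_eq_one t
  calc t' = t * t * t' := by rw [htt, one_mul]
    _ = t := by rw [mul_assoc, hu, mul_one]

end Ctx

/-- Final contradiction. -/
theorem final_false (F : Fam G Ω p) (hp : p.Prime) (hodd : p ≠ 2) (hn : Fintype.card Ω = p ^ 2 + 1) (h2 : IsMultiplyPretransitive G Ω 2) (hcop : ∀ a b : Ω, a ≠ b → ¬ p ∣ Nat.card (G2 G a b)) (hsemi : ∀ (F' : Fam G Ω p) (a b : Ω), a ≠ b → ∀ k ∈ F'.K a, k • b = b → k = 1) (hnorm : ∀ a : Ω, ∃ P : Subgroup G, IsReg p a P ∧ ∀ h : G, h • a = a → ∀ x ∈ P, h * x * h⁻¹ ∈ P) : False := by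
  classical
  have hctx : ∀ a : Ω, ∃ (P : Subgroup G) (z : G), Ctx F a P z := by
    intro a
    obtain ⟨P, hP, hPn⟩ := hnorm a
    obtain ⟨z, hzP, hzK, hzo, hzL⟩ := exists_z hp hn h2 hcop F hP
    exact ⟨P, z, ⟨hp, hodd, hP.1, hP.2, hPn, fun hx _ hc hxc => IsReg.free hp hn h2 hcop hP hx hc hxc,
      fun hb hc => IsReg.trans hp hn h2 hcop hP hb hc, fun x hx y hy => IsReg.comm hp hP hx hy, hzP, hzK, hzo, hzL,
      fun F' b hb k hk hkb => hsemi F' a b hb k hk hkb⟩⟩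
  have hp3 : 3 ≤ p := by
    have := hp.two_le
    omega
  obtain ⟨k, hk⟩ : ∃ k, p = 2 * k + 1 := by
    rcases hp.eq_two_or_odd with h | h
    · exact absurd h hodd
    · exact ⟨p / 2, by omega⟩
  have hn4 : Fintype.card Ω % 4 = 2 := by
    rw [hn, hk]
    have : (2 * k + 1) ^ 2 + 1 = 4 * (k ^ 2 + k) + 2 := by ring
    rw [this]
    omega
  have hn3 : 3 ≤ Fintype.card Ω := by
    rw [hn]
    nlinarith
  have hev : Even (Fintype.card Ω) := by
    rw [Nat.even_iff]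
    omega
  have hτ : ∀ c d : Ω, c ≠ d → ∃! x : G, orderOf x = 2 ∧ x • c = c ∧ x • d = d := by
    intro c d hcd
    have h1 := two_dvd_two_point_stabilizer h2 hn4 hn3 c d hcd
    haveI : Fact (Nat.Prime 2) := ⟨Nat.prime_two⟩
    obtain ⟨x, hx⟩ := exists_prime_orderOf_dvd_card' 2 h1
    have hxo : orderOf (x : G) = 2 := by rw [Subgroup.orderOf_coe, hx]
    obtain ⟨P, z, C⟩ := hctx c
    refine ⟨x, ⟨hxo, x.2.1, x.2.2⟩, ?_⟩
    rintro y ⟨hyo, hy1, hy2⟩
    exact C.invol_unique h2 hcd x.2.1 x.2.2 hxo hy1 hy2 hyo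
  have hfix : ∀ x : G, orderOf x = 2 → ∀ c d e : Ω, c ≠ d → x • c = c → x • d = d → x • e = e → e = c ∨ e = d := by
    intro x hx c d e hcd hc hd he
    obtain ⟨P, z, C⟩ := hctx c
    exact C.fix_two h2 hcd hc hd hx he
  have hnt : 1 < Fintype.card Ω := by omega
  obtain ⟨a, b, hab⟩ := Fintype.exists_pair_of_one_lt_card hnt
  obtain ⟨P, z, C⟩ := hctx a
  have h1 := C.card_B_le hn hab
  have h3 := card_le_of_unique_involution h2 hn3 hev hτ hfix a b hab
  rw [hn] at h3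
  have h4 : Nat.card ↥(stabilizer G a ⊓ stabilizer G b) + 1 ≤ p := h1
  have h5 : p ^ 2 + 1 - 2 ≤ 2 * (p - 1) := by omega
  have h6 : p ^ 2 + 1 - 2 = p ^ 2 - 1 := by omega
  obtain ⟨q, rfl⟩ : ∃ q, p = q + 3 := ⟨p - 3, by omega⟩
  have h7 : (q + 3) ^ 2 = q ^ 2 + 6 * q + 9 := by ring
  rw [h6, h7] at h5
  omega

end Cfsg.Agent.Lib.P2205
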