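import Cfsg.Agent.Lib.P2205.Fam

/-!
# Grid theorem: two transversal block families force semiregular kernels
-/

set_option autoImplicit false

namespace Cfsg.Agent.Lib.P2205

open MulAction Pointwise

variable {G Ω : Type*} [Group G] [MulAction G Ω] {p : ℕ}

/-- Two families are transversal at every point. -/
def Grid (F₁ F₂ : Fam G Ω p) : Prop :=
  ∀ a c d : Ω, a ≠ c → a ≠ d → ∃! e, e ∈ F₁.L a c ∧ e ∈ F₂.L a d

lemma Grid.symm {F₁ F₂ : Fam G Ω p} (h : Grid F₁ F₂) : Grid F₂ F₁ := by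
  intro a c d hc hd
  obtain ⟨e, ⟨h1, h2⟩, hu⟩ := h a d c hd hc
  exact ⟨e, ⟨h2, h1⟩, fun y hy => hu y ⟨hy.2, hy.1⟩⟩

/-- A rectangle of prime size containing `a` in a grid is a block through `a`. -/
lemma rect_eq [Finite Ω] (F₁ F₂ : Fam G Ω p) (hp : p.Prime) (hg : Grid F₁ F₂) {a b : Ω} (hab : b ≠ a)
    (A : Set Ω) (haA : a ∈ A) (hbA : b ∉ A) (hAc : A.ncard = p)
    (hrect : ∀ c ∈ A, ∀ d ∈ A, ∀ e, e ∈ F₁.L b c → e ∈ F₂.L b d → e ∈ A) :
    A = F₁.L b a ∨ A = F₂.L b a := by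
  classical
  have hne : ∀ c ∈ A, b ≠ c := fun c hc h => hbA (h ▸ hc)
  have hex : ∀ x y, b ≠ x → b ≠ y → ∃ e, e ∈ F₁.L b y ∧ e ∈ F₂.L b x := fun x y hx hy =>
    (hg b y x hy hx).exists
  choose! m hm using hex
  have huniq : ∀ x y e e', b ≠ x → b ≠ y → e ∈ F₁.L b y → e ∈ F₂.L b x → e' ∈ F₁.L b y →
      e' ∈ F₂.L b x → e = e' :=
    fun x y e e' hx hy h1 h2 h3 h4 => (hg b y x hy hx).unique ⟨h1, h2⟩ ⟨h3, h4⟩
  set A₁ := A ∩ F₁.L b a with hA₁
  set A₂ := A ∩ F₂.L b a with hA₂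
  have hx₀ : ∀ c ∈ A, m c a ∈ A₁ := fun c hc =>
    ⟨hrect a haA c hc _ (hm c a (hne c hc) hab).1 (hm c a (hne c hc) hab).2, (hm c a (hne c hc) hab).1⟩
  have hy₀ : ∀ c ∈ A, m a c ∈ A₂ := fun c hc =>
    ⟨hrect c hc a haA _ (hm a c hab (hne c hc)).1 (hm a c hab (hne c hc)).2, (hm a c hab (hne c hc)).2⟩
  have himg : (fun q : Ω × Ω => m q.1 q.2) '' (A₁ ×ˢ A₂) = A := by
    ext c
    constructor
    · rintro ⟨⟨x, y⟩, ⟨hx, hy⟩, rfl⟩
      have hx' := hne x hx.1
      have hy' := hne y hy.1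
      exact hrect y hy.1 x hx.1 _ (hm x y hx' hy').1 (hm x y hx' hy').2
    · intro hc
      have hbc := hne c hc
      have hX := hx₀ c hc
      have hY := hy₀ c hc
      refine ⟨(m c a, m a c), ⟨hX, hY⟩, ?_⟩
      have hbX := hne _ hX.1
      have hbY := hne _ hY.1
      have h1 : F₁.L b (m a c) = F₁.L b c := F₁.eq_of_mem b c _ hbc (hm a c hab hbc).1
      have h2 : F₂.L b (m c a) = F₂.L b c := F₂.eq_of_mem b c _ hbc (hm c a hbc hab).2
      have h3 := hm (m c a) (m a c) hbX hbY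
      refine huniq (m c a) (m a c) _ _ hbX hbY h3.1 h3.2 ?_ ?_
      · rw [h1]; exact F₁.self_mem b c hbc
      · rw [h2]; exact F₂.self_mem b c hbc
  have hinj : Set.InjOn (fun q : Ω × Ω => m q.1 q.2) (A₁ ×ˢ A₂) := by
    rintro ⟨x, y⟩ ⟨hx, hy⟩ ⟨x', y'⟩ ⟨hx', hy'⟩ he
    simp only at hx hy hx' hy' he
    have hbx := hne x hx.1
    have hby := hne y hy.1
    have hbx' := hne x' hx'.1
    have hby' := hne y' hy'.1
    have h1 := hm x y hbx hby
    have h2 := hm x' y' hbx' hby'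
    rw [← he] at h2
    have h3 : F₂.L b x = F₂.L b x' := F₂.L_eq_of_mem_of_mem hbx hbx' h1.2 h2.2
    have h4 : F₁.L b y = F₁.L b y' := F₁.L_eq_of_mem_of_mem hby hby' h1.1 h2.1
    have hxx : x = x' := huniq x a x x' hbx hab hx.2 (F₂.self_mem b x hbx) hx'.2
      (by rw [h3]; exact F₂.self_mem b x' hbx')
    have hyy : y = y' := huniq a y y y' hab hby (F₁.self_mem b y hby) hy.2
      (by rw [h4]; exact F₁.self_mem b y' hby') hy'.2
    rw [hxx, hyy]
  have hcard : A₁.ncard * A₂.ncard = p := by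
    rw [← Set.ncard_prod, ← Set.InjOn.ncard_image hinj, himg, hAc]
  have hcases : A₁.ncard = 1 ∨ A₂.ncard = 1 := by
    rcases hp.eq_one_or_self_of_dvd A₁.ncard ⟨_, hcard.symm⟩ with h | h
    · exact Or.inl h
    · right
      rw [h] at hcard
      exact Nat.eq_of_mul_eq_mul_left hp.pos (by rw [hcard, mul_one])
  have haA₁ : a ∈ A₁ := ⟨haA, F₁.self_mem b a hab⟩
  have haA₂ : a ∈ A₂ := ⟨haA, F₂.self_mem b a hab⟩
  rcases hcases with h | h
  · right
    obtain ⟨x, hx⟩ := Set.ncard_eq_one.mp h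
    have hax : a = x := by rw [hx] at haA₁; exact haA₁
    refine Set.eq_of_subset_of_ncard_le (fun c hc => ?_) (by rw [F₂.ncard b a hab, hAc]) (Set.toFinite _)
    have h1 := hx₀ c hc
    rw [hx, ← hax] at h1
    have hbc := hne c hc
    have h2 : a ∈ F₂.L b c := by
      have := (hm c a hbc hab).2
      rwa [show m c a = a from h1] at this
    rw [F₂.eq_of_mem b c a hbc h2]
    exact F₂.self_mem b c hbc
  · left
    obtain ⟨x, hx⟩ := Set.ncard_eq_one.mp h
    have hax : a = x := by rw [hx] at haA₂; exact haA₂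
    refine Set.eq_of_subset_of_ncard_le (fun c hc => ?_) (by rw [F₁.ncard b a hab, hAc]) (Set.toFinite _)
    have h1 := hy₀ c hc
    rw [hx, ← hax] at h1
    have hbc := hne c hc
    have h2 : a ∈ F₁.L b c := by
      have := (hm a c hab hbc).1
      rwa [show m a c = a from h1] at this
    rw [F₁.eq_of_mem b c a hbc h2]
    exact F₁.self_mem b c hbc

/-- Transport of a relation between lines along 2-transitivity. -/
lemma smul_insert_L (F : Fam G Ω p) (g : G) {a b : Ω} (hab : a ≠ b) :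
    g • insert a (F.L a b) = insert (g • a) (F.L (g • a) (g • b)) := by
  rw [Set.smul_set_insert, F.smul g a b hab]

section Main

variable [Fintype Ω] [FaithfulSMul G Ω]

/-- **Grid theorem.** -/
theorem grid_false (F₁ F₂ : Fam G Ω p) (hp : p.Prime) (hn : Fintype.card Ω = p ^ 2 + 1)
    (h2 : IsMultiplyPretransitive G Ω 2) (hg : Grid F₁ F₂)
    (hz : ∀ a c : Ω, a ≠ c → ∃ z ∈ F₁.K a, orderOf z = p ∧ ∀ d ∈ F₁.L a c, ∃ i : ℕ, z ^ i • c = d)
    {a b : Ω} (hab : a ≠ b) {k : G} (hk : k ∈ F₁.K a) (hkb : k • b = b) (hk1 : k ≠ 1) : False := by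
  classical
  have hp2 := hp.two_le
  rw [is_two_pretransitive_iff] at h2
  -- the subgroup `W`
  let W : Subgroup G := F₁.K a ⊓ stabilizer G b
  have hWa : ∀ w ∈ W, w • a = a := fun w hw => hw.1.1
  have hWb : ∀ w ∈ W, w • b = b := fun w hw => hw.2
  have hWK : ∀ w ∈ W, w ∈ F₁.K a := fun w hw => hw.1
  -- Step 1: `W` fixes the row through `b`
  have hrow : ∀ c ∈ F₂.L a b, ∀ w ∈ W, w • c = c := by
    intro c hc w hw
    have hac : a ≠ c := (F₂.ne_of_mem a b c hab hc).symm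
    have h1 : w • c ∈ F₂.L a b := by
      have := Set.smul_mem_smul_set (a := w) hc
      rwa [F₂.smul_L_of_fix hab (hWa w hw) (hWb w hw)] at this
    have h3 : w • c ∈ F₁.L a c := by
      rw [← (hWK w hw).2 c hac.symm]
      exact F₁.self_mem a _ (Fam.smul_ne_of_fix (hWa w hw) hac.symm).symm
    exact (hg a c b hac hab).unique ⟨h3, h1⟩ ⟨F₁.self_mem a c hac, hc⟩
  -- `W` stabilizes blocks through fixed points
  have hstab : ∀ (F : Fam G Ω p) (x c y : Ω) (w : G), x ≠ c → w • x = x → w • c = c → y ∈ F.L x c → w • y ∈ F.L x c := by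
    intro F x c y w hxc h1 h3 hy
    have := Set.smul_mem_smul_set (a := w) hy
    rwa [F.smul_L_of_fix hxc h1 h3] at this
  -- Step 2: nothing else is fixed by `W`
  have hfix : ∀ c, c ≠ a → (∀ w ∈ W, w • c = c) → c ∈ F₂.L a b := by
    intro c hca hc
    by_contra hcn
    have hac : a ≠ c := hca.symm
    obtain ⟨e, ⟨he1, he2⟩, -⟩ := hg a b c hab hac
    have hae : a ≠ e := (F₁.ne_of_mem a b e hab he1).symm
    have heb : e ≠ b := by
      rintro rfl
      apply hcn
      rw [F₂.eq_of_mem a c e hac he2]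
      exact F₂.self_mem a c hac
    -- `W` fixes `e`
    have hWe : ∀ w ∈ W, w • e = e := by
      intro w hw
      refine (hg a b c hab hac).unique ⟨?_, hstab F₂ a c e w hac (hWa w hw) (hc w hw) he2⟩ ⟨he1, he2⟩
      rw [← F₁.eq_of_mem a b e hab he1, ← (hWK w hw).2 e hae.symm]
      exact F₁.self_mem a _ (Fam.smul_ne_of_fix (hWa w hw) hae.symm).symm
    obtain ⟨z, hzK, hzo, hzt⟩ := hz a b hab
    obtain ⟨j, hj⟩ := hzt e he1
    -- conjugation by powers of `z ^ j` preserves `W`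
    set σ := z ^ j with hσ
    have hσK : σ ∈ F₁.K a := pow_mem hzK j
    have hconj1 : ∀ w ∈ W, σ⁻¹ * w * σ ∈ W := by
      intro w hw
      refine ⟨(F₁.K a).mul_mem ((F₁.K a).mul_mem ((F₁.K a).inv_mem hσK) (hWK w hw)) hσK, ?_⟩
      show (σ⁻¹ * w * σ) • b = b
      rw [mul_smul, mul_smul, hj, hWe w hw, ← hj, inv_smul_smul]
    have hconj : ∀ i : ℕ, ∀ w ∈ W, (σ ^ i)⁻¹ * w * σ ^ i ∈ W := by
      intro i
      induction i with
      | zero => intro w hw; simpa using hw
      | succ i ih =>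
        intro w hw
        have := hconj1 _ (ih w hw)
        have e1 : (σ ^ (i + 1))⁻¹ * w * σ ^ (i + 1) = σ⁻¹ * ((σ ^ i)⁻¹ * w * σ ^ i) * σ := by
          rw [pow_succ]; group
        rw [e1]; exact this
    have hWσ : ∀ i : ℕ, ∀ w ∈ W, w • (σ ^ i • b) = σ ^ i • b := by
      intro i w hw
      have h3 := hWb _ (hconj i w hw)
      have h4 : w • σ ^ i • b = σ ^ i • (((σ ^ i)⁻¹ * w * σ ^ i) • b) := by
        simp only [mul_smul, smul_inv_smul]
      rw [h4, h3]
    -- `p ∤ j`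
    have hpj : ¬ p ∣ j := by
      intro hd
      apply heb
      have : z ^ j = 1 := by
        obtain ⟨t, rfl⟩ := hd
        rw [pow_mul, ← hzo, pow_orderOf_eq_one, one_pow]
      rw [← hj, hσ, this, one_smul]
    have hcop : Nat.Coprime j p := ((Nat.Prime.coprime_iff_not_dvd hp).mpr hpj).symm
    obtain ⟨l, hl⟩ := Nat.exists_mul_mod_eq_one_of_coprime hcop hp.one_lt
    have hzl : σ ^ l = z := by
      rw [hσ, ← pow_mul, ← pow_mod_orderOf, hzo, hl.2, pow_one]
    have hWblock : ∀ d ∈ F₁.L a b, ∀ w ∈ W, w • d = d := by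
      intro d hd w hw
      obtain ⟨i, hi⟩ := hzt d hd
      rw [← hi, ← hzl, ← pow_mul]
      exact hWσ _ w hw
    -- hence `W` acts trivially
    have htriv : ∀ w ∈ W, ∀ x : Ω, w • x = x := by
      intro w hw x
      by_cases hxa : x = a
      · rw [hxa]; exact hWa w hw
      have hax : a ≠ x := Ne.symm hxa
      obtain ⟨e', ⟨h5, h6⟩, -⟩ := hg a b x hab hax
      have hae' : a ≠ e' := (F₁.ne_of_mem a b e' hab h5).symm
      have h7 : w • e' = e' := hWblock e' h5 w hw
      have hxe' : x ∈ F₂.L a e' := by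
        rw [F₂.eq_of_mem a x e' hax h6]; exact F₂.self_mem a x hax
      have h8 : w • x ∈ F₂.L a e' := hstab F₂ a e' x w hae' (hWa w hw) h7 hxe'
      rw [F₂.eq_of_mem a x e' hax h6] at h8
      refine (hg a x x hax hax).unique ⟨?_, h8⟩ ⟨F₁.self_mem a x hax, F₂.self_mem a x hax⟩
      rw [← (hWK w hw).2 x hxa]
      exact F₁.self_mem a _ (Fam.smul_ne_of_fix (hWa w hw) hxa).symm
    have hkW : k ∈ W := ⟨hk, hkb⟩
    exact hk1 (eq_of_smul_eq_smul (fun x => by rw [htriv k hkW x, one_smul]))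
  -- Step 3: the rectangle in the view of `b`
  have hba : b ≠ a := hab.symm
  have hbmem : b ∈ F₂.L a b := F₂.self_mem a b hab
  have hanot : a ∉ F₂.L a b := fun h => F₂.ne_of_mem a b a hab h rfl
  set A : Set Ω := (insert a (F₂.L a b)) \ {b} with hA
  have hAc : A.ncard = p := by
    have h3 : (insert a (F₂.L a b)).ncard = p + 1 := by
      rw [Set.ncard_insert_of_notMem hanot (Set.toFinite _), F₂.ncard a b hab]
    have h4 : b ∈ insert a (F₂.L a b) := Set.mem_insert_of_mem _ hbmem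
    have h5 := Set.ncard_sdiff_singleton_add_one h4 (Set.toFinite _)
    rw [h3] at h5
    rw [hA]; omega
  have haA : a ∈ A := ⟨Set.mem_insert _ _, fun h => hab h⟩
  have hbA : b ∉ A := fun h => h.2 rfl
  have hAfix : ∀ c ∈ A, ∀ w ∈ W, w • c = c := by
    rintro c ⟨hc | hc, -⟩ w hw
    · rw [hc]; exact hWa w hw
    · exact hrow c hc w hw
  have hrect : ∀ c ∈ A, ∀ d ∈ A, ∀ e, e ∈ F₁.L b c → e ∈ F₂.L b d → e ∈ A := by
    intro c hc d hd e he1 he2
    have hbc : b ≠ c := fun h => hbA (h ▸ hc)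
    have hbd : b ≠ d := fun h => hbA (h ▸ hd)
    have heb : e ≠ b := F₁.ne_of_mem b c e hbc he1
    have hWe : ∀ w ∈ W, w • e = e := by
      intro w hw
      exact (hg b c d hbc hbd).unique
        ⟨hstab F₁ b c e w hbc (hWb w hw) (hAfix c hc w hw) he1,
          hstab F₂ b d e w hbd (hWb w hw) (hAfix d hd w hw) he2⟩ ⟨he1, he2⟩
    refine ⟨?_, heb⟩
    by_cases hea : e = a
    · rw [hea]; exact Set.mem_insert _ _
    · exact Set.mem_insert_of_mem _ (hfix e hea hWe)
  have hinsA : insert b A = insert a (F₂.L a b) := by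
    rw [hA, Set.insert_sdiff_singleton]
    exact Set.insert_eq_of_mem (Set.mem_insert_of_mem _ hbmem)
  rcases rect_eq F₁ F₂ hp hg hba A haA hbA hAc hrect with hcase | hcase
  · -- `insert a (F₂.L a b) = insert b (F₁.L b a)` everywhere
    have hrel : ∀ x y : Ω, x ≠ y → insert x (F₂.L x y) = insert y (F₁.L y x) := by
      intro x y hxy
      obtain ⟨g, hga, hgb⟩ := h2 hab hxy
      have h3 := smul_insert_L F₂ g hab
      have h4 := smul_insert_L F₁ g hba
      rw [hga, hgb] at h3 h4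
      rw [← h3, ← h4, ← hinsA, hcase]
    have hone : 1 < (F₂.L a b).ncard := by rw [F₂.ncard a b hab]; omega
    obtain ⟨d, hd, hdb⟩ := Set.exists_ne_of_one_lt_ncard hone b
    have hda : a ≠ d := (F₂.ne_of_mem a b d hab hd).symm
    have e1 : insert a (F₂.L a b) = insert d (F₁.L d a) := by
      rw [← F₂.eq_of_mem a b d hab hd]; exact hrel a d hda
    have e2 := hrel a b hab
    have hdm : d ∈ F₁.L b a := by
      have h3 : d ∈ insert b (F₁.L b a) := by
        rw [← e2]; exact Set.mem_insert_of_mem _ hd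
      rcases h3 with h3 | h3
      · exact absurd h3 hdb
      · exact h3
    have e3 : insert d (F₂.L d b) = insert a (F₂.L a b) := by
      rw [hrel d b hdb, F₁.eq_of_mem b a d hba hdm, ← e2]
    have hab1 : a ∈ F₂.L d b := by
      have h3 : a ∈ insert d (F₂.L d b) := by rw [e3]; exact Set.mem_insert _ _
      rcases h3 with h3 | h3
      · exact absurd h3 hda
      · exact h3
    have hab2 : b ∈ F₁.L d a := by
      have h3 : b ∈ insert d (F₁.L d a) := by
        rw [← e1]; exact Set.mem_insert_of_mem _ hbmem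
      rcases h3 with h3 | h3
      · exact absurd h3 (Ne.symm hdb)
      · exact h3
    have hda' : d ≠ a := hda.symm
    have hdb' : d ≠ b := hdb
    have := (hg d a b hda' hdb').unique ⟨F₁.self_mem d a hda', hab1⟩ ⟨hab2, F₂.self_mem d b hdb'⟩
    exact hab this
  · -- symmetric lines for `F₂`
    refine F₂.steiner_false hp2 hn fun x y hxy => ?_
    obtain ⟨g, hga, hgb⟩ := h2 hab hxy
    have h3 := smul_insert_L F₂ g hab
    have h4 := smul_insert_L F₂ g hba
    rw [hga, hgb] at h3 h4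
    rw [← h3, ← h4, ← hinsA, hcase]

end Main

end Cfsg.Agent.Lib.P2205
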