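import Cfsg.Agent.Lib.P2205.Card

/-!
# Two-point stabilizers have order prime to `p`
-/

set_option autoImplicit false

namespace Cfsg.Agent.Lib.P2205

open MulAction Pointwise

variable {G Ω : Type*} [Group G] [MulAction G Ω] {p : ℕ} [Finite G] [Fintype Ω]

lemma fac_eq (hp : p.Prime) (h2 : IsMultiplyPretransitive G Ω 2) (hn : Fintype.card Ω = p ^ 2 + 1)
    {a b : Ω} (hab : a ≠ b) :
    (Nat.card (stabilizer G a)).factorization p = (Nat.card (G2 G a b)).factorization p + 2 := by
  rw [card_stab_eq h2 hn hab, Nat.factorization_mul (pow_ne_zero _ hp.ne_zero) Nat.card_pos.ne',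
    Nat.factorization_pow]
  simp [hp.factorization_self, add_comm]

lemma exists_sylow_stab (hp : p.Prime) (a : Ω) : ∃ P : Subgroup G, P ≤ stabilizer G a ∧
    Nat.card P = p ^ (Nat.card (stabilizer G a)).factorization p := by
  haveI : Fact p.Prime := ⟨hp⟩
  obtain ⟨S⟩ : Nonempty (Sylow p (stabilizer G a)) := inferInstance
  refine ⟨(S : Subgroup (stabilizer G a)).map (stabilizer G a).subtype, ?_, ?_⟩
  · rintro _ ⟨x, -, rfl⟩
    exact x.2
  · rw [Subgroup.card_map_of_injective (stabilizer G a).subtype_injective]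
    exact S.card_eq_multiplicity

/-- Order of a subgroup containing `p`-part: orbit and two-point part. -/
lemma syl_orb (hp : p.Prime) (h2 : IsMultiplyPretransitive G Ω 2) (hn : Fintype.card Ω = p ^ 2 + 1)
    {a b : Ω} (hab : a ≠ b) {P : Subgroup G} (hPa : P ≤ stabilizer G a) (f : ℕ)
    (hf : f = (Nat.card (G2 G a b)).factorization p) (hP : Nat.card P = p ^ (f + 2)) :
    orb P b = {a}ᶜ ∧ Nat.card ↥(P ⊓ stabilizer G b) = p ^ f := by
  classical
  have h1 := card_eq_orb P b
  set R := P ⊓ stabilizer G b with hR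
  have hRdvd : Nat.card R ∣ p ^ (f + 2) := by
    rw [hP] at h1; exact ⟨_, by rw [h1]; ring⟩
  obtain ⟨t, ht, htc⟩ := (Nat.dvd_prime_pow hp).mp hRdvd
  have hRle : R ≤ G2 G a b := fun x hx => ⟨hPa hx.1, hx.2⟩
  have hRd2 : p ^ t ∣ Nat.card (G2 G a b) := htc ▸ Subgroup.card_dvd_of_le hRle
  have htf : t ≤ f := by
    rw [hf]
    exact (hp.pow_dvd_iff_le_factorization Nat.card_pos.ne').mp hRd2
  have horb : (orb P b).ncard = p ^ (f + 2 - t) := by
    rw [hP, htc] at h1
    have h3 : p ^ (f + 2) = p ^ (f + 2 - t) * p ^ t := by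
      rw [← pow_add]; congr 1; omega
    rw [h3] at h1
    exact (Nat.eq_of_mul_eq_mul_right (pow_pos hp.pos t) h1).symm
  have hsub : orb P b ⊆ ({a}ᶜ : Set Ω) := by
    rintro _ ⟨x, hx, rfl⟩ hc
    have hx' : x • a = a := hPa hx
    exact hab (smul_left_cancel x (by rw [hx']; exact (show x • b = a from hc).symm))
  have hcomp : (({a}ᶜ : Set Ω)).ncard = p ^ 2 := by
    rw [Set.ncard_compl, Nat.card_eq_fintype_card, hn, Set.ncard_singleton]; simp
  have hle := Set.ncard_le_ncard hsub (Set.toFinite _)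
  rw [horb, hcomp] at hle
  have hle2 : f + 2 - t ≤ 2 := (Nat.pow_le_pow_iff_right hp.one_lt).mp hle
  have htf' : t = f := by omega
  refine ⟨Set.eq_of_subset_of_ncard_le hsub (by rw [hcomp, horb, htf']; simp) (Set.toFinite _), ?_⟩
  rw [htc, htf']

/-- If `g` conjugates a finite subgroup into itself, it normalizes it. -/
lemma mem_normalizer_of_conj_le {R : Subgroup G} {g : G} (h : ∀ r ∈ R, g * r * g⁻¹ ∈ R) :
    g ∈ Subgroup.normalizer (R : Set G) := by
  rw [Subgroup.mem_normalizer_iff]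
  intro x
  refine ⟨h x, fun hx => ?_⟩
  let f : R → R := fun r => ⟨g * r.1 * g⁻¹, h r.1 r.2⟩
  have hf : Function.Injective f := by
    intro r s hrs
    have := congrArg Subtype.val hrs
    simp only [f] at this
    exact Subtype.ext (by simpa using this)
  obtain ⟨r, hr⟩ := (Finite.injective_iff_surjective.mp hf) ⟨_, hx⟩
  have := congrArg Subtype.val hr
  simp only [f] at this
  have e : r.1 = x := by simpa using this
  exact e ▸ r.2

variable [FaithfulSMul G Ω]

theorem sym_of_dvd (F : Fam G Ω p) (hp : p.Prime) (hn : Fintype.card Ω = p ^ 2 + 1)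
    (h2 : IsMultiplyPretransitive G Ω 2) {a b : Ω} (hab : a ≠ b)
    (hdvd : p ∣ Nat.card (G2 G a b)) : insert a (F.L a b) = insert b (F.L b a) := by
  classical
  haveI : Fact p.Prime := ⟨hp⟩
  obtain ⟨P, hPa, hPc⟩ := exists_sylow_stab (G := G) hp a
  set f := (Nat.card (G2 G a b)).factorization p with hf
  have hf1 : 1 ≤ f := (hp.dvd_iff_one_le_factorization Nat.card_pos.ne').mp hdvd
  rw [fac_eq hp h2 hn hab, ← hf] at hPc
  obtain ⟨horb, hRc⟩ := syl_orb hp h2 hn hab hPa f hf hPc
  have htrans : ∀ c, c ≠ a → ∃ x ∈ P, x • b = c := fun c hc => by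
    have : c ∈ orb P b := by rw [horb]; exact hc
    exact this
  set R := P ⊓ stabilizer G b with hR
  have hPp : IsPGroup p P := IsPGroup.of_card hPc
  let P₀ : Subgroup G := P ⊓ stabilizer G (F.L a b)
  have hPa' : ∀ x ∈ P, x • a = a := fun x hx => hPa hx
  have hRP₀ : R ≤ P₀ := fun x hx =>
    ⟨hx.1, mem_stabilizer_iff.mpr (F.smul_L_of_fix hab (hPa' x hx.1) hx.2)⟩
  have horbP₀ : orb P₀ b = F.L a b := by
    ext c
    constructor
    · rintro ⟨x, hx, rfl⟩
      have h3 : x • F.L a b = F.L a b := mem_stabilizer_iff.mp hx.2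
      rw [← h3]
      exact Set.smul_mem_smul_set (F.self_mem a b hab)
    · intro hc
      obtain ⟨x, hx, rfl⟩ := htrans c (F.ne_of_mem a b c hab hc)
      refine ⟨x, ⟨hx, mem_stabilizer_iff.mpr ?_⟩, rfl⟩
      rw [F.smul_L_of_fix' hab (hPa' x hx)]
      exact F.eq_of_mem a b _ hab hc
  have hP₀R : P₀ ⊓ stabilizer G b = R :=
    le_antisymm (fun x hx => ⟨hx.1.1, hx.2⟩) (fun x hx => ⟨hRP₀ hx, hx.2⟩)
  have hP₀c : Nat.card P₀ = p * p ^ f := by
    rw [card_eq_orb P₀ b, horbP₀, F.ncard a b hab, hP₀R, hRc]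
  have hPP₀ : Nat.card P = p * Nat.card P₀ := by
    rw [hPc, hP₀c]; ring
  have hP₀R' : Nat.card P₀ = p * Nat.card R := by rw [hP₀c, hRc]
  have hP₀p : IsPGroup p P₀ := hPp.to_le inf_le_left
  have hnormR : ∀ x ∈ P₀, ∀ y ∈ R, x * y * x⁻¹ ∈ R := fun x hx y hy =>
    conj_mem_of_card hp hRP₀ hP₀p hP₀R' hx hy
  -- fixed points of `R`
  have hfix : (fixS R : Set Ω) = insert a (F.L a b) := by
    apply Set.Subset.antisymm
    · intro c hc
      by_cases hca : c = a
      · rw [hca]; exact Set.mem_insert _ _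
      by_contra hcn
      have hcL : c ∉ F.L a b := fun h => hcn (Set.mem_insert_of_mem _ h)
      obtain ⟨y, hy, rfl⟩ := htrans c hca
      let N : Subgroup G := P ⊓ Subgroup.normalizer (R : Set G)
      have hP₀N : P₀ ≤ N := fun x hx => ⟨hx.1, mem_normalizer_of_conj_le (hnormR x hx)⟩
      have hyN : y ∈ N := by
        have hyi : y⁻¹ ∈ N := by
          refine ⟨P.inv_mem hy, mem_normalizer_of_conj_le fun r hr => ⟨?_, ?_⟩⟩
          · exact P.mul_mem (P.mul_mem (P.inv_mem hy) hr.1) (by simpa using hy)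
          · show (y⁻¹ * r * y⁻¹⁻¹) • b = b
            simp only [inv_inv, mul_smul]
            rw [hc r hr, inv_smul_smul]
        simpa using N.inv_mem hyi
      have hyP₀ : y ∉ P₀ := by
        intro h
        apply hcL
        rw [← horbP₀]
        exact ⟨y, h, rfl⟩
      -- `N = P`
      obtain ⟨k, hk⟩ : Nat.card P₀ ∣ Nat.card N := Subgroup.card_dvd_of_le hP₀N
      obtain ⟨l, hl⟩ : Nat.card N ∣ Nat.card P := Subgroup.card_dvd_of_le inf_le_left
      have hkl : k * l = p := by
        have h3 : Nat.card P₀ * (k * l) = Nat.card P₀ * p := by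
          rw [← mul_assoc, ← hk, ← hl, hPP₀]; ring
        exact Nat.eq_of_mul_eq_mul_left Nat.card_pos h3
      have hNP : N = P := by
        rcases hp.eq_one_or_self_of_dvd k ⟨l, hkl.symm⟩ with h | h
        · exfalso
          rw [h, mul_one] at hk
          have := Subgroup.eq_of_le_of_card_ge hP₀N hk.le
          exact hyP₀ (this ▸ hyN)
        · have hl1 : l = 1 := by
            rw [h] at hkl
            exact Nat.eq_of_mul_eq_mul_left hp.pos (by rw [hkl, mul_one])
          rw [hl1, mul_one] at hl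
          exact Subgroup.eq_of_le_of_card_ge inf_le_left hl.le
      have hRP : ∀ x ∈ P, ∀ r ∈ R, x⁻¹ * r * x ∈ R := by
        intro x hx r hr
        have hxN : x⁻¹ ∈ N := by rw [hNP]; exact P.inv_mem hx
        have := (Subgroup.mem_normalizer_iff.mp hxN.2 r).mp hr
        simpa using this
      have htriv : ∀ r ∈ R, r = 1 := by
        intro r hr
        refine eq_of_smul_eq_smul (α := Ω) fun e => ?_
        rw [one_smul]
        by_cases hea : e = a
        · rw [hea]; exact hPa' r hr.1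
        obtain ⟨x, hx, rfl⟩ := htrans e hea
        have h3 : (x⁻¹ * r * x) • b = b := (hRP x hx r hr).2
        calc r • x • b = x • (x⁻¹ * r * x) • b := by simp [mul_smul]
          _ = x • b := by rw [h3]
      have hRbot : R = ⊥ := (Subgroup.eq_bot_iff_forall R).mpr htriv
      rw [hRbot, Nat.card_eq_one_iff_unique.mpr ⟨inferInstance, inferInstance⟩] at hRc
      have : p ^ f ≠ 1 := (Nat.one_lt_pow (by omega) hp.one_lt).ne'
      exact this hRc.symm
    · intro c hc r hr
      rcases hc with rfl | hc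
      · exact hPa' r hr.1
      rw [← horbP₀] at hc
      obtain ⟨x, hx, rfl⟩ := hc
      have h3 : (x⁻¹ * r * x⁻¹⁻¹) • b = b := (hnormR x⁻¹ (P₀.inv_mem hx) r hr).2
      calc r • x • b = x • (x⁻¹ * r * x⁻¹⁻¹) • b := by simp [mul_smul]
        _ = x • b := by rw [h3]
  obtain ⟨u, hua, hub⟩ := (is_two_pretransitive_iff).mp h2 hab hab.symm
  let R' : Subgroup G := R.map (MulAut.conj u).toMonoidHom
  have hua' : u⁻¹ • b = a := inv_smul_eq_iff.mpr hua.symm
  have hub' : u⁻¹ • a = b := inv_smul_eq_iff.mpr hub.symm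
  have hR'le : R' ≤ G2 G a b := by
    rintro _ ⟨r, hr, rfl⟩
    refine ⟨?_, ?_⟩
    · show (u * r * u⁻¹) • a = a
      rw [mul_smul, mul_smul, hub', show r • b = b from hr.2, hub]
    · show (u * r * u⁻¹) • b = b
      rw [mul_smul, mul_smul, hua', hPa' r hr.1, hua]
  have hRle : R ≤ G2 G a b := fun x hx => ⟨hPa hx.1, hx.2⟩
  have hR'c : Nat.card R' = p ^ f := by
    rw [Subgroup.card_map_of_injective (MulEquiv.injective _)]; exact hRc
  obtain ⟨k, hk, hkR⟩ := sylow_conj_in hp (G2 G a b) R R' hRle hR'le hRc hR'c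
  have e1 := fixS_map_conj (Ω := Ω) R u
  have e2 := fixS_map_conj (Ω := Ω) R k
  have e3 : (fixS R' : Set Ω) = fixS (R.map (MulAut.conj u).toMonoidHom) := rfl
  rw [hkR] at e3
  rw [e2, e1, hfix, smul_insert_L F k hab, smul_insert_L F u hab,
    show k • a = a from hk.1, show k • b = b from hk.2, hua, hub] at e3
  exact e3

/-- **Two-point stabilizers have order prime to `p`.** -/
theorem not_dvd_G2 (F : Fam G Ω p) (hp : p.Prime) (hn : Fintype.card Ω = p ^ 2 + 1)
    (h2 : IsMultiplyPretransitive G Ω 2) {a b : Ω} (hab : a ≠ b) : ¬ p ∣ Nat.card (G2 G a b) := by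
  intro hdvd
  refine F.steiner_false hp.two_le hn fun x y hxy => ?_
  refine sym_of_dvd F hp hn h2 hxy ?_
  rwa [← card_G2_eq h2 hab hxy]

end Cfsg.Agent.Lib.P2205
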