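import Mathlib

set_option autoImplicit false

namespace Cfsg.Agent.Lib.P2205

open scoped IsMulCommutative in
/-- Burnside transfer: a central element in the commutator subgroup and in an abelian Sylow subgroup is trivial. -/
theorem eq_one_of_center_commutator_abelian_sylow {C : Type*} [Group C] [Finite C] {p : ℕ} [Fact p.Prime] (P : Sylow p C) (hab : IsMulCommutative ↥(P : Subgroup C)) (z : C) (hz : z ∈ Subgroup.center C) (hz2 : z ∈ commutator C) (hz3 : z ∈ (P : Subgroup C)) : z = 1 := by
  classical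
  have hfi : (P : Subgroup C).FiniteIndex := inferInstance
  let V : C →* ↥(P : Subgroup C) := MonoidHom.transfer (MonoidHom.id ↥(P : Subgroup C))
  have h1 : V z = 1 := Abelianization.commutator_subset_ker V hz2
  have hcen : ∀ (k : ℕ) (g₀ : C), g₀⁻¹ * z ^ k * g₀ ∈ (P : Subgroup C) → g₀⁻¹ * z ^ k * g₀ = z ^ k := by
    intro k g₀ _
    have : z ^ k ∈ Subgroup.center C := Subgroup.pow_mem _ hz k
    rw [Subgroup.mem_center_iff.1 this g₀⁻¹, mul_assoc, inv_mul_cancel, mul_one]
  have h2 : V z = ⟨z ^ (P : Subgroup C).index, MonoidHom.transfer_eq_pow_aux z hcen⟩ :=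
    MonoidHom.transfer_eq_pow (MonoidHom.id ↥(P : Subgroup C)) z hcen
  have h3 : z ^ (P : Subgroup C).index = 1 := by
    rw [h1] at h2
    exact (congrArg Subtype.val h2).symm
  have hcop : Nat.Coprime (Nat.card ↥(P : Subgroup C)) (P : Subgroup C).index := P.card_coprime_index
  have h4 : z ^ (Nat.card ↥(P : Subgroup C)) = 1 := by
    have := pow_card_eq_one' (x := (⟨z, hz3⟩ : ↥(P : Subgroup C)))
    exact congrArg Subtype.val this
  have h5 := orderOf_dvd_of_pow_eq_one h3
  have h6 := orderOf_dvd_of_pow_eq_one h4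
  have h7 : orderOf z = 1 := Nat.eq_one_of_dvd_coprimes hcop h6 h5
  exact orderOf_eq_one_iff.1 h7

end Cfsg.Agent.Lib.P2205
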