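import Cfsg.Agent.Lib.P2205.Reg
import Cfsg.Agent.Lib.P2205.OfBlock
import Cfsg.Agent.Lib.P2205.TransferZ
/-!
# The stabilizer normalizes a subgroup of order `p²`
-/

set_option autoImplicit false

namespace Cfsg.Agent.Lib.P2205
open MulAction Pointwise
open scoped commutatorElement
variable {G Ω : Type*} [Group G] [MulAction G Ω] {p : ℕ}

variable [Finite G] [Fintype Ω] [FaithfulSMul G Ω]

/-! ## Orbits of subgroups normalized by `h` -/

omit [Finite G] [Fintype Ω] [FaithfulSMul G Ω] in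
lemma orbN_smul_of_norm {D : Subgroup G} {h : G} (hD : ∀ x ∈ D, h * x * h⁻¹ ∈ D)
    (hD' : ∀ x ∈ D, h⁻¹ * x * h ∈ D) (b : Ω) : h • orb D b = orb D (h • b) := by
  ext c
  rw [Set.mem_smul_set_iff_inv_smul_mem]
  constructor
  · rintro ⟨x, hx, hxb⟩
    refine ⟨h * x * h⁻¹, hD x hx, ?_⟩
    simp only [mul_smul, inv_smul_smul]
    rw [hxb, smul_inv_smul]
  · rintro ⟨y, hy, rfl⟩
    refine ⟨h⁻¹ * y * h, hD' y hy, ?_⟩
    simp only [mul_smul]

omit [Finite G] [Fintype Ω] [FaithfulSMul G Ω] in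
lemma orbN_eq_of_mem {D : Subgroup G} {b c : Ω} (h : c ∈ orb D b) : orb D c = orb D b := by
  obtain ⟨x, hx, rfl⟩ := h
  ext d
  constructor
  · rintro ⟨y, hy, rfl⟩
    exact ⟨y * x, D.mul_mem hy hx, mul_smul _ _ _⟩
  · rintro ⟨y, hy, rfl⟩
    refine ⟨y * x⁻¹, D.mul_mem hy (D.inv_mem hx), ?_⟩
    simp [mul_smul]

omit [Finite G] [Fintype Ω] [FaithfulSMul G Ω] in
lemma orbN_eq_or_disjoint (D : Subgroup G) (b c : Ω) : orb D b = orb D c ∨ Disjoint (orb D b) (orb D c) := by
  by_cases h : ∃ d, d ∈ orb D b ∧ d ∈ orb D c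
  · obtain ⟨d, h1, h2⟩ := h
    exact Or.inl ((orbN_eq_of_mem h1).symm.trans (orbN_eq_of_mem h2))
  · refine Or.inr (Set.disjoint_left.mpr fun d h1 h2 => h ⟨d, h1, h2⟩)

theorem exists_normal_reg (F : Fam G Ω p) (hp : p.Prime) (_hodd : p ≠ 2) (hn : Fintype.card Ω = p ^ 2 + 1) (h2 : IsMultiplyPretransitive G Ω 2)
    (hcop : ∀ a b : Ω, a ≠ b → ¬ p ∣ Nat.card (G2 G a b))
    (hsemi : ∀ (F' : Fam G Ω p) (a b : Ω), a ≠ b → ∀ k ∈ F'.K a, k • b = b → k = 1) (a : Ω) :
    ∃ P : Subgroup G, IsReg p a P ∧ ∀ h : G, h • a = a → ∀ x ∈ P, h * x * h⁻¹ ∈ P := by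
  classical
  haveI : Fact p.Prime := ⟨hp⟩
  -- a second point
  obtain ⟨b, hab⟩ : ∃ b : Ω, a ≠ b := by
    have h1 : 1 < Fintype.card Ω := by rw [hn]; have := hp.pos; nlinarith
    haveI : Nontrivial Ω := Fintype.one_lt_card_iff_nontrivial.mp h1
    obtain ⟨b, hb⟩ := exists_ne a
    exact ⟨b, hb.symm⟩
  obtain ⟨P₀, hP₀, -⟩ := exists_isReg_ge hp hn h2 hcop a ⊥ bot_le IsPGroup.of_bot
  obtain ⟨z, hzP, hzK, hzo, hzL⟩ := exists_z hp hn h2 hcop F hP₀
  have hzne : z ≠ 1 := by
    rintro rfl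
    rw [orderOf_one] at hzo
    exact hp.one_lt.ne hzo
  -- the kernel is `⟨z⟩`
  have hKZ : ∀ k ∈ F.K a, k ∈ Subgroup.zpowers z := by
    intro k hk
    have hbne : b ≠ a := hab.symm
    have h1 : F.L a (k • b) = F.L a b := hk.2 b hbne
    have h3 : k • b ∈ F.L a b := by
      rw [← h1]
      exact F.self_mem a (k • b) (Fam.smul_ne_of_fix hk.1 hbne).symm
    obtain ⟨i, hi⟩ := hzL b hab (k • b) h3
    have h4 : (z ^ i)⁻¹ * k = 1 := by
      refine hsemi F a b hab _ ((F.K a).mul_mem ((F.K a).inv_mem ((F.K a).pow_mem hzK i)) hk) ?_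
      rw [mul_smul, inv_smul_eq_iff, hi]
    have h5 : k = z ^ i := by
      have := eq_of_inv_mul_eq_one h4
      exact this.symm
    rw [h5]
    exact Subgroup.pow_mem _ (Subgroup.mem_zpowers z) i
  have hZnorm : ∀ h : G, h • a = a → h * z * h⁻¹ ∈ Subgroup.zpowers z := by
    intro h hh
    have := F.conj_mem_K hzK h
    rw [hh] at this
    exact hKZ _ this
  -- every regular subgroup contains `z`
  have hzReg : ∀ P₁ : Subgroup G, IsReg p a P₁ → z ∈ P₁ := by
    intro P₁ hP₁
    obtain ⟨z₁, hz₁P, hz₁K, hz₁o, -⟩ := exists_z hp hn h2 hcop F hP₁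
    have h1 : Subgroup.zpowers z₁ ≤ Subgroup.zpowers z := by
      rw [Subgroup.zpowers_le]
      exact hKZ _ hz₁K
    have h3 : Subgroup.zpowers z₁ = Subgroup.zpowers z :=
      Subgroup.eq_of_le_of_card_ge h1 (by rw [Nat.card_zpowers, Nat.card_zpowers, hzo, hz₁o])
    have h4 : z ∈ Subgroup.zpowers z₁ := by rw [h3]; exact Subgroup.mem_zpowers z
    exact (Subgroup.zpowers_le.mpr hz₁P) h4
  -- the centralizer
  let C : Subgroup G := stabilizer G a ⊓ Subgroup.centralizer {z}
  have hmemC : ∀ x : G, x ∈ C ↔ x • a = a ∧ z * x = x * z := by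
    intro x
    show x ∈ stabilizer G a ∧ x ∈ Subgroup.centralizer {z} ↔ _
    rw [Subgroup.mem_centralizer_singleton_iff]
    exact ⟨fun h => ⟨h.1, h.2.symm⟩, fun h => ⟨h.1, h.2.symm⟩⟩
  have hleC : ∀ P₁ : Subgroup G, IsReg p a P₁ → P₁ ≤ C := by
    intro P₁ hP₁ x hx
    rw [hmemC]
    exact ⟨hP₁.1 hx, IsReg.comm hp hP₁ (hzReg P₁ hP₁) hx⟩
  -- `C` is normalized by the stabilizer
  have hCnorm : ∀ h : G, h • a = a → ∀ x ∈ C, h * x * h⁻¹ ∈ C := by
    intro h hh x hx
    obtain ⟨hxa, hxz⟩ := (hmemC x).mp hx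
    rw [hmemC]
    have hha : h⁻¹ • a = a := inv_smul_eq_iff.mpr hh.symm
    refine ⟨by simp only [mul_smul]; rw [hha, hxa, hh], ?_⟩
    obtain ⟨j, hj⟩ := Subgroup.mem_zpowers_iff.mp (hZnorm h⁻¹ hha)
    rw [inv_inv] at hj
    have hxz' : x * (h⁻¹ * z * h) = (h⁻¹ * z * h) * x := by
      rw [← hj]
      exact ((Commute.symm hxz).zpow_right j)
    calc z * (h * x * h⁻¹) = h * ((h⁻¹ * z * h) * x) * h⁻¹ := by group
      _ = h * (x * (h⁻¹ * z * h)) * h⁻¹ := by rw [hxz']
      _ = h * x * h⁻¹ * z := by group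
  -- its commutator subgroup
  let D : Subgroup G := ⁅C, C⁆
  have hDnorm : ∀ h : G, h • a = a → ∀ x ∈ D, h * x * h⁻¹ ∈ D := by
    intro h hh x hx
    have h1 : C.map (MulAut.conj h).toMonoidHom ≤ C := by
      rintro _ ⟨y, hy, rfl⟩
      exact hCnorm h hh y hy
    have h3 : D.map (MulAut.conj h).toMonoidHom ≤ D := by
      show (⁅C, C⁆ : Subgroup G).map _ ≤ ⁅C, C⁆
      rw [Subgroup.map_commutator]
      exact Subgroup.commutator_mono h1 h1
    exact h3 ⟨x, hx, rfl⟩
  have hDC : D ≤ C := Subgroup.commutator_le.mpr fun x hx y hy => by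
    rw [commutatorElement_def]
    exact C.mul_mem (C.mul_mem (C.mul_mem hx hy) (C.inv_mem hx)) (C.inv_mem hy)
  have hDa : D ≤ stabilizer G a := fun x hx => ((hmemC x).mp (hDC hx)).1
  -- `p`-part of `C`
  have hP₀C : P₀ ≤ C := hleC P₀ hP₀
  have hfacC : (Nat.card C).factorization p = 2 := by
    have h1 : (Nat.card (stabilizer G a)).factorization p = 2 := by
      rw [fac_eq hp h2 hn hab, Nat.factorization_eq_zero_of_not_dvd (hcop a b hab)]
    have h3 : Nat.card C ∣ Nat.card (stabilizer G a) :=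
      Subgroup.card_dvd_of_le (fun x hx => ((hmemC x).mp hx).1)
    have h4 : p ^ 2 ∣ Nat.card C := hP₀.2 ▸ Subgroup.card_dvd_of_le hP₀C
    have h5 := (Nat.factorization_le_iff_dvd Nat.card_pos.ne' Nat.card_pos.ne').mpr h3 p
    have h6 := (hp.pow_dvd_iff_le_factorization Nat.card_pos.ne').mp h4
    omega
  -- `z` is not in the commutator subgroup (transfer)
  have hzD : z ∉ D := by
    intro hzD
    have e1 : Nat.card (P₀.subgroupOf C) = Nat.card P₀ :=
      Nat.card_congr (Subgroup.subgroupOfEquivOfLe hP₀C).toEquiv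
    let S : Sylow p C := Sylow.ofCard (P₀.subgroupOf C) (by rw [e1, hP₀.2, hfacC])
    have hzC : z ∈ C := hDC hzD
    have hcomm : IsMulCommutative ↥(S : Subgroup C) := by
      refine ⟨⟨fun x y => ?_⟩⟩
      have hx : (x.1.1 : G) ∈ P₀ := by
        have := x.2
        simpa [S, Sylow.coe_ofCard, Subgroup.mem_subgroupOf] using this
      have hy : (y.1.1 : G) ∈ P₀ := by
        have := y.2
        simpa [S, Sylow.coe_ofCard, Subgroup.mem_subgroupOf] using this
      ext
      exact IsReg.comm hp hP₀ hx hy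
    have hcen : (⟨z, hzC⟩ : C) ∈ Subgroup.center C := by
      rw [Subgroup.mem_center_iff]
      intro g
      ext
      exact ((hmemC g.1).mp g.2).2.symm
    have hcomz : (⟨z, hzC⟩ : C) ∈ commutator C := by
      have h1 : z ∈ (commutator C).map C.subtype := by
        rw [Subgroup.map_subtype_commutator]
        exact hzD
      obtain ⟨y, hy, hyz⟩ := h1
      have : y = ⟨z, hzC⟩ := Subtype.ext hyz
      rwa [← this]
    have hzS : (⟨z, hzC⟩ : C) ∈ (S : Subgroup C) := by
      simpa [S, Sylow.coe_ofCard, Subgroup.mem_subgroupOf] using hzP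
    have := eq_one_of_center_commutator_abelian_sylow S hcomm _ hcen hcomz hzS
    exact hzne (congrArg Subtype.val this)
  by_cases hDbot : D = ⊥
  · -- `C` is abelian
    refine ⟨P₀, hP₀, fun h hh x hx => ?_⟩
    let R : Subgroup G := P₀.map (MulAut.conj h).toMonoidHom
    have hRcard : Nat.card R = p ^ 2 := by
      rw [Subgroup.card_map_of_injective (MulAut.conj h).injective, hP₀.2]
    have hRa : R ≤ stabilizer G a := by
      rintro _ ⟨y, hy, rfl⟩
      have hha : h⁻¹ • a = a := inv_smul_eq_iff.mpr hh.symm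
      show (h * y * h⁻¹) • a = a
      simp only [mul_smul]
      rw [hha, show y • a = a from hP₀.1 hy, hh]
    have hRC : R ≤ C := hleC R ⟨hRa, hRcard⟩
    obtain ⟨k, hk, hkR⟩ := sylow_conj_in hp C P₀ R hP₀C hRC (by rw [hP₀.2, hfacC]) (by rw [hRcard, hfacC])
    have h1 : h * x * h⁻¹ ∈ R := ⟨x, hx, rfl⟩
    rw [hkR] at h1
    obtain ⟨y, hy, hyx⟩ := h1
    have hky : k * y * k⁻¹ = y := by
      have h3 : ⁅k, y⁆ ∈ D := Subgroup.commutator_mem_commutator hk (hP₀C hy)
      rw [hDbot, Subgroup.mem_bot, commutatorElement_def] at h3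
      exact mul_inv_eq_one.mp h3
    have : h * x * h⁻¹ = y := by
      rw [← hyx]
      simpa using hky
    rw [this]
    exact hy
  · -- orbit of `D`
    have hDnorm' : ∀ h : G, h • a = a → ∀ x ∈ D, h⁻¹ * x * h⁻¹⁻¹ ∈ D := fun h hh x hx =>
      hDnorm h⁻¹ (inv_smul_eq_iff.mpr hh.symm) x hx
    have hsm : ∀ h : G, h • a = a → ∀ c : Ω, h • orb D c = orb D (h • c) := by
      intro h hh c
      refine orbN_smul_of_norm (hDnorm h hh) (fun x hx => ?_) c
      simpa using hDnorm' h hh x hx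
    set B : Set Ω := orb D b with hB
    -- stabilizer of the block inside `P₀`
    let Q : Subgroup G := P₀ ⊓ stabilizer G B
    have hQB : orb Q b = B := by
      ext c
      constructor
      · rintro ⟨x, hx, rfl⟩
        have h1 : x • b ∈ x • B := Set.smul_mem_smul_set (self_mem_orb D b)
        rwa [show x • B = B from hx.2] at h1
      · intro hc
        have hac : a ≠ c := by
          obtain ⟨y, hy, rfl⟩ := hc
          intro e
          have hya : y • a = a := hDa hy
          exact hab (smul_left_cancel y (by rw [hya]; exact e))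
        obtain ⟨x, hx, rfl⟩ := IsReg.trans hp hn h2 hcop hP₀ hab hac
        refine ⟨x, ⟨hx, ?_⟩, rfl⟩
        show x • B = B
        rw [hB, hsm x (hP₀.1 hx) b]
        exact orbN_eq_of_mem hc
    have hQfree : Nat.card ↥(Q ⊓ stabilizer G b) = 1 := by
      have : Q ⊓ stabilizer G b = ⊥ := by
        rw [eq_bot_iff]
        intro x hx
        exact IsReg.free hp hn h2 hcop hP₀ hx.1.1 hab hx.2
      rw [this]
      simp
    have hQcard : Nat.card Q = B.ncard := by
      rw [card_eq_orb Q b, hQB, hQfree, mul_one]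
    have hdvd : B.ncard ∣ p ^ 2 := by
      rw [← hQcard, ← hP₀.2]
      exact Subgroup.card_dvd_of_le inf_le_left
    obtain ⟨k, hk, hkB⟩ := (Nat.dvd_prime_pow hp).mp hdvd
    have hk2 : k = 0 ∨ k = 1 ∨ k = 2 := by omega
    have hcorb : ∀ c, a ≠ c → ∃ h : G, h • a = a ∧ h • b = c := fun c hc => by
      obtain ⟨x, hx, hxb⟩ := IsReg.trans hp hn h2 hcop hP₀ hab hc
      exact ⟨x, hP₀.1 hx, hxb⟩
    rcases hk2 with rfl | rfl | rfl
    · -- `D` is trivial
      exfalso
      apply hDbot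
      rw [eq_bot_iff]
      intro x hx
      rw [pow_zero] at hkB
      have hfix : ∀ c : Ω, x • c = c := by
        intro c
        by_cases hac : a = c
        · subst hac; exact hDa hx
        · obtain ⟨h, hh, rfl⟩ := hcorb c hac
          have hy : h⁻¹ * x * h ∈ D := by simpa using hDnorm' h hh x hx
          have hyb : (h⁻¹ * x * h) • b = b := by
            have h1 : (h⁻¹ * x * h) • b ∈ B := ⟨_, hy, rfl⟩
            have h3 : b ∈ B := self_mem_orb D b
            rw [Set.ncard_eq_one] at hkB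
            obtain ⟨e, he⟩ := hkB
            rw [he, Set.mem_singleton_iff] at h1 h3
            rw [h1, h3]
          have : x • h • b = h • (h⁻¹ * x * h) • b := by simp [mul_smul]
          rw [this, hyb]
      exact Subgroup.mem_bot.mpr (FaithfulSMul.eq_of_smul_eq_smul (α := Ω) (by simpa using hfix))
    · -- the orbits of `D` form a block family
      rw [pow_one] at hkB
      have ha' : a ∉ B := by
        rintro ⟨y, hy, hyb⟩
        have hya : y • a = a := hDa hy
        exact hab (smul_left_cancel y (by rw [hya]; exact hyb.symm))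
      obtain ⟨F', hF'⟩ := exists_fam_of_block h2 a b hab B ha' (self_mem_orb D b) (fun h hh => by
          rw [hB, hsm h hh b]
          exact orbN_eq_or_disjoint D _ _) hkB
      have hFL : ∀ c, a ≠ c → F'.L a c = orb D c := by
        intro c hc
        obtain ⟨h, hh, rfl⟩ := hcorb c hc
        rw [hF' h hh, hB, hsm h hh b]
      have hDK : D ≤ F'.K a := by
        intro x hx
        refine ⟨hDa hx, fun c hc => ?_⟩
        have hc1 : a ≠ c := hc.symm
        have hc2 : a ≠ x • c := (Fam.smul_ne_of_fix (hDa hx) hc).symm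
        rw [hFL c hc1, hFL _ hc2]
        exact orbN_eq_of_mem ⟨x, hx, rfl⟩
      have hsemiD : ∀ x ∈ D, x • b = b → x = 1 := fun x hx hxb => hsemi F' a b hab x (hDK hx) hxb
      have hDcard : Nat.card D = p := by
        have : D ⊓ stabilizer G b = ⊥ := by
          rw [eq_bot_iff]
          intro x hx
          exact hsemiD x hx.1 hx.2
        rw [card_eq_orb D b, this, ← hB, hkB]
        simp
      have hDp : IsPGroup p D := IsPGroup.of_card (n := 1) (by rw [hDcard, pow_one])
      obtain ⟨P₂, hP₂, hDP₂⟩ := exists_isReg_ge hp hn h2 hcop a D hDa hDp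
      have hzP₂ := hzReg P₂ hP₂
      let P₁ : Subgroup G := Subgroup.zpowers z ⊔ D
      have hP₁P₂ : P₁ ≤ P₂ := sup_le (Subgroup.zpowers_le.mpr hzP₂) hDP₂
      have hP₁card : Nat.card P₁ = p ^ 2 := by
        obtain ⟨t, ht, htc⟩ := (Nat.dvd_prime_pow hp).mp (hP₂.2 ▸ Subgroup.card_dvd_of_le hP₁P₂)
        have hDle : D ≤ P₁ := le_sup_right
        have h1 : p ∣ Nat.card P₁ := hDcard ▸ Subgroup.card_dvd_of_le hDle
        have ht0 : t ≠ 0 := by
          rintro rfl
          rw [htc, pow_zero] at h1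
          exact hp.one_lt.ne' (Nat.dvd_one.mp h1)
        have ht1 : t ≠ 1 := by
          rintro rfl
          have := Subgroup.eq_of_le_of_card_ge hDle (by rw [htc, hDcard, pow_one])
          exact hzD (this ▸ (le_sup_left : Subgroup.zpowers z ≤ P₁) (Subgroup.mem_zpowers z))
        have ht2 : t = 2 := by omega
        rw [htc, ht2]
      refine ⟨P₁, ⟨hP₁P₂.trans hP₂.1, hP₁card⟩, fun h hh x hx => ?_⟩
      have hle : P₁ ≤ P₁.comap (MulAut.conj h).toMonoidHom := by
        refine sup_le (Subgroup.zpowers_le.mpr ?_) fun y hy => ?_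
        · exact (le_sup_left : Subgroup.zpowers z ≤ P₁) (hZnorm h hh)
        · exact (le_sup_right : D ≤ P₁) (hDnorm h hh y hy)
      exact hle hx
    · -- `D` contains a regular subgroup, hence `z`
      exfalso
      apply hzD
      have h1 : p ^ 2 ∣ Nat.card D := by
        rw [card_eq_orb D b, ← hB, hkB]
        exact dvd_mul_right _ _
      obtain ⟨R, hR⟩ := Sylow.exists_subgroup_card_pow_prime p h1
      have hRreg : IsReg p a (R.map D.subtype) := by
        refine ⟨?_, by rw [Subgroup.card_map_of_injective D.subtype_injective, hR]⟩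
        rintro _ ⟨y, -, rfl⟩
        exact hDa y.2
      obtain ⟨y, -, hyz⟩ := hzReg _ hRreg
      rw [← hyz]
      exact y.2

end Cfsg.Agent.Lib.P2205
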