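import Cfsg.Agent.Lib.P2205.NoP

/-!
# Piece I of S2205: regular `p²`-subgroups of a point stabilizer
-/

set_option autoImplicit false

namespace Cfsg.Agent.Lib.P2205

open MulAction Pointwise

variable {G Ω : Type*} [Group G] [MulAction G Ω] {p : ℕ}

/-- A subgroup of order `p²` in the stabilizer of `a`. -/
def IsReg (p : ℕ) (a : Ω) (P : Subgroup G) : Prop := P ≤ stabilizer G a ∧ Nat.card P = p ^ 2

/-- Subgroups of `IsReg` are commutative. -/
theorem IsReg.comm (hp : p.Prime) {a : Ω} {P : Subgroup G} (hP : IsReg p a P) {x y : G}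
    (hx : x ∈ P) (hy : y ∈ P) : x * y = y * x := by
  haveI : Fact p.Prime := ⟨hp⟩
  have hc : IsMulCommutative P := IsPGroup.isMulCommutative_of_card_eq_prime_sq hP.2
  have := hc.is_comm.comm ⟨x, hx⟩ ⟨y, hy⟩
  exact congrArg Subtype.val this

variable [Finite G] [Fintype Ω] [FaithfulSMul G Ω]

/-- A subgroup of `G_a ∩ G_c` of `p`-power order is trivial. -/
lemma eq_bot_of_pGroup_le_G2 (hp : p.Prime) {a c : Ω}
    (hcop : ¬ p ∣ Nat.card (G2 G a c)) {R : Subgroup G} (hR : R ≤ G2 G a c) (hRp : IsPGroup p R) :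
    R = ⊥ := by
  haveI : Fact p.Prime := ⟨hp⟩
  obtain ⟨k, hk⟩ := IsPGroup.iff_card.mp hRp
  have hd : Nat.card R ∣ Nat.card (G2 G a c) := Subgroup.card_dvd_of_le hR
  rw [hk] at hd
  have hk0 : k = 0 := by
    by_contra h0
    exact hcop ((dvd_pow_self p h0).trans hd)
  rw [hk0, pow_zero] at hk
  exact Subgroup.eq_bot_of_card_eq R hk

theorem IsReg.free (hp : p.Prime) (_hn : Fintype.card Ω = p ^ 2 + 1)
    (_h2 : IsMultiplyPretransitive G Ω 2) (hcop : ∀ a b : Ω, a ≠ b → ¬ p ∣ Nat.card (G2 G a b))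
    {a : Ω} {P : Subgroup G} (hP : IsReg p a P) {x : G} (hx : x ∈ P) {c : Ω} (hc : a ≠ c)
    (hxc : x • c = c) : x = 1 := by
  have hPp : IsPGroup p P := IsPGroup.of_card hP.2
  have hR : P ⊓ stabilizer G c ≤ G2 G a c := fun y hy => ⟨hP.1 hy.1, hy.2⟩
  have hbot := eq_bot_of_pGroup_le_G2 hp (hcop a c hc) hR (hPp.to_le inf_le_left)
  have hmem : x ∈ P ⊓ stabilizer G c := ⟨hx, hxc⟩
  rw [hbot] at hmem
  exact Subgroup.mem_bot.mp hmem

theorem IsReg.trans (hp : p.Prime) (hn : Fintype.card Ω = p ^ 2 + 1)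
    (h2 : IsMultiplyPretransitive G Ω 2) (hcop : ∀ a b : Ω, a ≠ b → ¬ p ∣ Nat.card (G2 G a b))
    {a : Ω} {P : Subgroup G} (hP : IsReg p a P) {b c : Ω} (hb : a ≠ b) (hc : a ≠ c) :
    ∃ x ∈ P, x • b = c := by
  classical
  have hPp : IsPGroup p P := IsPGroup.of_card hP.2
  have hR : P ⊓ stabilizer G b ≤ G2 G a b := fun y hy => ⟨hP.1 hy.1, hy.2⟩
  have hbot := eq_bot_of_pGroup_le_G2 hp (hcop a b hb) hR (hPp.to_le inf_le_left)
  have h1 := card_eq_orb (X := P) (Ω := Ω) b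
  rw [hbot, Subgroup.card_bot, mul_one, hP.2] at h1
  have hsub : orb P b ⊆ ({a}ᶜ : Set Ω) := by
    rintro _ ⟨x, hx, rfl⟩ hc'
    have hx' : x • a = a := hP.1 hx
    exact hb (smul_left_cancel x (by rw [hx']; exact (show x • b = a from hc').symm))
  have hcomp : (({a}ᶜ : Set Ω)).ncard = p ^ 2 := by
    rw [Set.ncard_compl, Nat.card_eq_fintype_card, hn, Set.ncard_singleton]; simp
  have heq : orb P b = ({a}ᶜ : Set Ω) :=
    Set.eq_of_subset_of_ncard_le hsub (by rw [hcomp, ← h1]) (Set.toFinite _)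
  have : c ∈ orb P b := by
    rw [heq]
    exact fun h => hc (Set.mem_singleton_iff.mp h).symm
  exact this

theorem exists_isReg_ge (hp : p.Prime) (hn : Fintype.card Ω = p ^ 2 + 1)
    (h2 : IsMultiplyPretransitive G Ω 2) (hcop : ∀ a b : Ω, a ≠ b → ¬ p ∣ Nat.card (G2 G a b))
    (a : Ω) (X : Subgroup G) (hX : X ≤ stabilizer G a) (hXp : IsPGroup p X) :
    ∃ P : Subgroup G, IsReg p a P ∧ X ≤ P := by
  classical
  haveI : Fact p.Prime := ⟨hp⟩
  have hnt : 1 < Fintype.card Ω := by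
    rw [hn]
    have := hp.pos
    have : 0 < p ^ 2 := by positivity
    omega
  obtain ⟨b, hba⟩ := Fintype.exists_ne_of_one_lt_card hnt a
  have hab : a ≠ b := hba.symm
  have hfac : (Nat.card (stabilizer G a)).factorization p = 2 := by
    rw [fac_eq hp h2 hn hab, Nat.factorization_eq_zero_of_not_dvd (hcop a b hab)]
  have hX' : IsPGroup p (X.subgroupOf (stabilizer G a)) :=
    hXp.of_injective ((Subgroup.subgroupOfEquivOfLe hX).toMonoidHom) (MulEquiv.injective _)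
  obtain ⟨S, hS⟩ := hX'.exists_le_sylow
  refine ⟨(S : Subgroup (stabilizer G a)).map (stabilizer G a).subtype, ⟨?_, ?_⟩, ?_⟩
  · rintro _ ⟨x, -, rfl⟩
    exact x.2
  · rw [Subgroup.card_map_of_injective (stabilizer G a).subtype_injective, S.card_eq_multiplicity,
      hfac]
  · intro x hx
    exact ⟨⟨x, hX hx⟩, hS (by simpa [Subgroup.mem_subgroupOf] using hx), rfl⟩

theorem pelem_free (hp : p.Prime) (_hn : Fintype.card Ω = p ^ 2 + 1)
    (_h2 : IsMultiplyPretransitive G Ω 2) (hcop : ∀ a b : Ω, a ≠ b → ¬ p ∣ Nat.card (G2 G a b))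
    {a c : Ω} (hc : a ≠ c) {w : G} (hwa : w • a = a) (hwp : IsPGroup p (Subgroup.zpowers w))
    (hwc : w • c = c) : w = 1 := by
  have hle : Subgroup.zpowers w ≤ G2 G a c := by
    rw [Subgroup.zpowers_le]
    exact ⟨hwa, hwc⟩
  have hbot := eq_bot_of_pGroup_le_G2 hp (hcop a c hc) hle hwp
  exact Subgroup.zpowers_eq_bot.mp hbot

theorem exists_z (hp : p.Prime) (hn : Fintype.card Ω = p ^ 2 + 1)
    (h2 : IsMultiplyPretransitive G Ω 2) (hcop : ∀ a b : Ω, a ≠ b → ¬ p ∣ Nat.card (G2 G a b))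
    (F : Fam G Ω p) {a : Ω} {P : Subgroup G} (hP : IsReg p a P) :
    ∃ z ∈ P, z ∈ F.K a ∧ orderOf z = p ∧ ∀ c, a ≠ c → ∀ d ∈ F.L a c, ∃ i : ℕ, z ^ i • c = d := by
  classical
  haveI : Fact p.Prime := ⟨hp⟩
  have hnt : 1 < Fintype.card Ω := by
    rw [hn]
    have : 0 < p ^ 2 := pow_pos hp.pos 2
    have := hp.two_le
    nlinarith
  obtain ⟨b, hba⟩ := Fintype.exists_ne_of_one_lt_card hnt a
  have hab : a ≠ b := hba.symm
  have hPa : ∀ x ∈ P, x • a = a := fun x hx => hP.1 hx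
  have htr : ∀ c, a ≠ c → ∃ x ∈ P, x • b = c := fun c hc =>
    IsReg.trans hp hn h2 hcop hP hab hc
  have hcm : ∀ x ∈ P, ∀ y ∈ P, x * y = y * x := fun x hx y hy => IsReg.comm hp hP hx hy
  -- the block stabilizer
  let Q : Subgroup G := P ⊓ stabilizer G (F.L a b)
  have horbQ : orb Q b = F.L a b := by
    ext c
    constructor
    · rintro ⟨x, hx, rfl⟩
      have h3 : x • F.L a b = F.L a b := mem_stabilizer_iff.mp hx.2
      rw [← h3]
      exact Set.smul_mem_smul_set (F.self_mem a b hab)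
    · intro hc
      obtain ⟨x, hx, rfl⟩ := htr c (F.ne_of_mem a b c hab hc).symm
      refine ⟨x, ⟨hx, mem_stabilizer_iff.mpr ?_⟩, rfl⟩
      rw [F.smul_L_of_fix' hab (hPa x hx)]
      exact F.eq_of_mem a b _ hab hc
  have hQbot : Q ⊓ stabilizer G b = ⊥ := by
    rw [eq_bot_iff]
    intro x hx
    rw [Subgroup.mem_bot]
    exact IsReg.free hp hn h2 hcop hP hx.1.1 hab hx.2
  have hQcard : Nat.card Q = p := by
    rw [card_eq_orb Q b, horbQ, F.ncard a b hab, hQbot, Subgroup.card_bot, mul_one]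
  obtain ⟨z', hz'⟩ := exists_prime_orderOf_dvd_card' (G := Q) p (by rw [hQcard])
  have hz'o : orderOf (z' : G) = p := by rw [Subgroup.orderOf_coe]; exact hz'
  have hQz : Subgroup.zpowers (z' : G) = Q := by
    apply Subgroup.eq_of_le_of_card_ge
    · rw [Subgroup.zpowers_le]; exact z'.2
    · rw [Nat.card_zpowers, hz'o, hQcard]
  have hQP : ∀ x ∈ Q, x ∈ P := fun x hx => hx.1
  have hQL : ∀ x ∈ Q, ∀ c, c ≠ a → F.L a (x • c) = F.L a c := by
    intro x hx c hca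
    obtain ⟨y, hy, rfl⟩ := htr c hca.symm
    have hxb : F.L a (x • b) = F.L a b := by
      rw [← F.smul_L_of_fix' hab (hPa x hx.1)]
      exact mem_stabilizer_iff.mp hx.2
    have hxy : x • y • b = y • x • b := by
      rw [← mul_smul, ← mul_smul, hcm x hx.1 y hy]
    have hxba : a ≠ x • b := (Fam.smul_ne_of_fix (hPa x hx.1) hab.symm).symm
    rw [hxy, ← F.smul_L_of_fix' hxba (hPa y hy), hxb, F.smul_L_of_fix' hab (hPa y hy)]
  refine ⟨z', hQP _ z'.2, ⟨hPa _ (hQP _ z'.2), hQL _ z'.2⟩, hz'o, ?_⟩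
  intro c hc d hd
  obtain ⟨y, hy, rfl⟩ := htr c hc
  have hd' : y⁻¹ • d ∈ F.L a b := by
    rw [← F.smul_L_of_fix' hab (hPa y hy)] at hd
    exact Set.mem_smul_set_iff_inv_smul_mem.mp hd
  rw [← horbQ] at hd'
  obtain ⟨x, hx, hxd⟩ := hd'
  rw [← hQz] at hx
  have hfin : IsOfFinOrder (z' : G) := isOfFinOrder_of_finite _
  obtain ⟨i, rfl⟩ := (mem_powers_iff_mem_zpowers.mpr hx : x ∈ Submonoid.powers (z' : G))
  refine ⟨i, ?_⟩
  have hcomm : (z' : G) ^ i * y = y * (z' : G) ^ i := by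
    have hmem : (z' : G) ^ i ∈ P := P.pow_mem (hQP _ z'.2) i
    exact hcm _ hmem y hy
  calc ((z' : G) ^ i) • y • b = ((z' : G) ^ i * y) • b := by rw [mul_smul]
    _ = (y * (z' : G) ^ i) • b := by rw [hcomm]
    _ = y • ((z' : G) ^ i) • b := by rw [mul_smul]
    _ = d := by rw [hxd, smul_inv_smul]

theorem exists_z' (hp : p.Prime) (hn : Fintype.card Ω = p ^ 2 + 1)
    (h2 : IsMultiplyPretransitive G Ω 2) (hcop : ∀ a b : Ω, a ≠ b → ¬ p ∣ Nat.card (G2 G a b))
    (F : Fam G Ω p) (a c : Ω) (hc : a ≠ c) :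
    ∃ z ∈ F.K a, orderOf z = p ∧ ∀ d ∈ F.L a c, ∃ i : ℕ, z ^ i • c = d := by
  obtain ⟨P, hP, -⟩ := exists_isReg_ge hp hn h2 hcop a ⊥ bot_le IsPGroup.of_bot
  obtain ⟨z, -, hzK, hzo, hz⟩ := exists_z hp hn h2 hcop F hP
  exact ⟨z, hzK, hzo, hz c hc⟩

theorem kernel_faithful (hp : p.Prime) (hn : Fintype.card Ω = p ^ 2 + 1)
    (h2 : IsMultiplyPretransitive G Ω 2) (hcop : ∀ a b : Ω, a ≠ b → ¬ p ∣ Nat.card (G2 G a b))
    (F : Fam G Ω p) {a c : Ω} (hc : a ≠ c) {k : G} (hk : k ∈ F.K a)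
    (hfix : ∀ d ∈ F.L a c, k • d = d) : k = 1 := by
  classical
  haveI : Fact p.Prime := ⟨hp⟩
  -- the kernel on the block `L a c`, inside `K a`
  let K : Subgroup G := F.K a
  let K₀ : Subgroup K :=
    { carrier := {x | ∀ d ∈ F.L a c, (x : G) • d = d}
      one_mem' := fun d _ => one_smul _ d
      mul_mem' := fun {x y} hx hy d hd => by
        show ((x : G) * (y : G)) • d = d
        rw [mul_smul, hy d hd, hx d hd]
      inv_mem' := fun {x} hx d hd => by
        show ((x : G))⁻¹ • d = d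
        rw [inv_smul_eq_iff, hx d hd] }
  have hKstab : ∀ x : K, ∀ e, a ≠ e → ∀ d ∈ F.L a e, (x : G) • d ∈ F.L a e := by
    intro x e he d hd
    have hxK := x.2
    have h1 := F.smul_mem_L (g := (x : G)) he hxK.1 hd
    rwa [hxK.2 e he.symm] at h1
  have hK₀n : K₀.Normal := by
    refine ⟨fun x hx g d hd => ?_⟩
    show ((g : G) * (x : G) * (g : G)⁻¹) • d = d
    rw [mul_smul, mul_smul]
    have hd' : (g : G)⁻¹ • d ∈ F.L a c := by
      have := hKstab g⁻¹ c hc d hd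
      simpa using this
    rw [hx _ hd', smul_inv_smul]
  -- no `p`-elements in `K₀`
  have hK₀p : ¬ p ∣ Nat.card K₀ := by
    intro hdvd
    obtain ⟨w, hw⟩ := exists_prime_orderOf_dvd_card' (G := K₀) p hdvd
    have hwo : orderOf (((w : K) : G)) = p := by
      rw [Subgroup.orderOf_coe, Subgroup.orderOf_coe]; exact hw
    have hwK := (w : K).2
    have hw1 : ((w : K) : G) = 1 := by
      refine pelem_free hp hn h2 hcop hc hwK.1 ?_ (w.2 c (F.self_mem a c hc))
      apply IsPGroup.of_card (n := 1)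
      rw [Nat.card_zpowers, hwo, pow_one]
    rw [hw1, orderOf_one] at hwo
    exact hp.one_lt.ne hwo
  obtain ⟨P, hP, -⟩ := exists_isReg_ge hp hn h2 hcop a ⊥ bot_le IsPGroup.of_bot
  obtain ⟨z, -, hzK, hzo, hz⟩ := exists_z hp hn h2 hcop F hP
  -- `K₀` fixes every block pointwise
  have hall : ∀ x : K₀, ∀ e, a ≠ e → ((x : K) : G) • e = e := by
    intro x e he
    let Δ : SubMulAction K Ω :=
      { carrier := F.L a e
        smul_mem' := fun g d hd => hKstab g e he d hd }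
    have hΔcard : Nat.card Δ = p := by
      have : Nat.card Δ = (F.L a e).ncard := Nat.card_coe_set_eq _
      rw [this, F.ncard a e he]
    haveI hΔtr : IsPretransitive K Δ := by
      refine ⟨fun d₁ d₂ => ?_⟩
      obtain ⟨i, hi⟩ := hz e he d₁.1 d₁.2
      obtain ⟨j, hj⟩ := hz e he d₂.1 d₂.2
      refine ⟨⟨z, hzK⟩ ^ j * (⟨z, hzK⟩ ^ i)⁻¹, Subtype.ext ?_⟩
      show ((z ^ j * (z ^ i)⁻¹ : G)) • (d₁ : Ω) = d₂
      rw [← hi, ← hj, mul_smul, inv_smul_smul]
    haveI hprim : IsPreprimitive K Δ :=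
      IsPreprimitive.of_prime_card (by rw [hΔcard]; exact hp)
    by_contra hne
    have hmove : fixedPoints K₀ Δ ≠ Set.univ := by
      intro hu
      have he' : (⟨e, F.self_mem a e he⟩ : Δ) ∈ fixedPoints K₀ Δ := by rw [hu]; trivial
      have := he' x
      exact hne (congrArg Subtype.val this)
    haveI hK₀tr : IsPretransitive K₀ Δ :=
      IsQuasiPreprimitive.isPretransitive_of_normal (G := K) (N := K₀) hmove
    apply hK₀p
    have hcardd : Nat.card Δ ∣ Nat.card K₀ := by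
      rw [← index_stabilizer_of_transitive K₀ (⟨e, F.self_mem a e he⟩ : Δ)]
      exact Subgroup.index_dvd_card _
    rwa [hΔcard] at hcardd
  apply FaithfulSMul.eq_of_smul_eq_smul (α := Ω)
  intro e
  rw [one_smul]
  by_cases hea : e = a
  · rw [hea]; exact hk.1
  · exact hall ⟨⟨k, hk⟩, hfix⟩ e (Ne.symm hea)

end Cfsg.Agent.Lib.P2205
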