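import Cfsg.Agent.Lib.P2205.Reg
import Cfsg.Agent.Lib.P2205.OfBlock

/-!
# The kernel of a block family acts semiregularly
-/

set_option autoImplicit false

namespace Cfsg.Agent.Lib.P2205

open MulAction Pointwise

variable {G Ω : Type*} [Group G] [MulAction G Ω] {p : ℕ}

section Main

variable [Finite G] [Fintype Ω] [FaithfulSMul G Ω]

/-- `K a` acts transitively on each of its blocks. -/
private lemma orb_K_eq (hp : p.Prime) (hn : Fintype.card Ω = p ^ 2 + 1)
    (h2 : IsMultiplyPretransitive G Ω 2) (hcop : ∀ a b : Ω, a ≠ b → ¬ p ∣ Nat.card (G2 G a b))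
    (F : Fam G Ω p) {a c : Ω} (hc : a ≠ c) : orb (F.K a) c = F.L a c := by
  ext d
  constructor
  · rintro ⟨x, hx, rfl⟩
    have h1 := hx.2 c hc.symm
    rw [← h1]
    exact F.self_mem a _ (Fam.smul_ne_of_fix hx.1 hc.symm).symm
  · intro hd
    obtain ⟨z, hzK, -, hz⟩ := exists_z' hp hn h2 hcop F a c hc
    obtain ⟨i, hi⟩ := hz d hd
    exact ⟨z ^ i, Subgroup.pow_mem _ hzK i, hi⟩

private lemma card_K_eq (hp : p.Prime) (hn : Fintype.card Ω = p ^ 2 + 1)
    (h2 : IsMultiplyPretransitive G Ω 2) (hcop : ∀ a b : Ω, a ≠ b → ¬ p ∣ Nat.card (G2 G a b))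
    (F : Fam G Ω p) {a c : Ω} (hc : a ≠ c) :
    Nat.card (F.K a) = p * Nat.card ↥(F.K a ⊓ stabilizer G c) := by
  rw [card_eq_orb (F.K a) c, orb_K_eq hp hn h2 hcop F hc, F.ncard a c hc]

/-- `kernel_semiregular`, with the diamond property as a hypothesis. -/
theorem kernel_semiregular_of_diamond (F : Fam G Ω p) (hp : p.Prime)
    (hn : Fintype.card Ω = p ^ 2 + 1) (h2 : IsMultiplyPretransitive G Ω 2)
    (hcop : ∀ a b : Ω, a ≠ b → ¬ p ∣ Nat.card (G2 G a b))
    (hdiamond : ∀ {a b c : Ω}, a ≠ b → a ≠ c → ∃ c' ∈ F.L a c, ∀ k ∈ F.K a, k • b = b → k • c' = c')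
    {a b : Ω} (hab : a ≠ b) {k : G}
    (hk : k ∈ F.K a) (hkb : k • b = b) : k = 1 := by
  classical
  by_contra hk1
  -- the transversal
  let B' : Set Ω := {c | a ≠ c ∧ ∀ x ∈ F.K a, (x • c = c ↔ x • b = b)}
  have hbB : b ∈ B' := ⟨hab, fun _ _ => Iff.rfl⟩
  have haB : a ∉ B' := fun h => h.1 rfl
  -- every block meets `B'`
  have hmeet : ∀ c, a ≠ c → ∃ c' ∈ F.L a c, c' ∈ B' := by
    intro c hc
    obtain ⟨c', hc', hfix⟩ := hdiamond hab hc
    have hac' : a ≠ c' := (F.ne_of_mem a c c' hc hc').symm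
    refine ⟨c', hc', hac', ?_⟩
    have hle : F.K a ⊓ stabilizer G b ≤ F.K a ⊓ stabilizer G c' :=
      fun x hx => ⟨hx.1, hfix x hx.1 hx.2⟩
    have hcard : Nat.card ↥(F.K a ⊓ stabilizer G c') ≤ Nat.card ↥(F.K a ⊓ stabilizer G b) := by
      have e1 := card_K_eq hp hn h2 hcop F hac'
      have e2 := card_K_eq hp hn h2 hcop F hab
      have : Nat.card ↥(F.K a ⊓ stabilizer G c') = Nat.card ↥(F.K a ⊓ stabilizer G b) :=
        Nat.eq_of_mul_eq_mul_left hp.pos (e1.symm.trans e2)
      exact this.le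
    have heq := Subgroup.eq_of_le_of_card_ge hle hcard
    intro x hx
    constructor
    · intro h
      have : x ∈ F.K a ⊓ stabilizer G c' := ⟨hx, h⟩
      rw [← heq] at this
      exact this.2
    · intro h
      exact hfix x hx h
  -- at most one point of `B'` in a block
  have huniq : ∀ c c', c ∈ B' → c' ∈ B' → c' ∈ F.L a c → c = c' := by
    intro c c' hc hc' hmem
    by_contra hne
    have hac : a ≠ c := hc.1
    obtain ⟨z, hzK, hzo, hz⟩ := exists_z' hp hn h2 hcop F a c hac
    obtain ⟨i, hi⟩ := hz c' hmem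
    -- `z ^ i` normalizes the stabilizer
    have hzi : z ^ i ≠ 1 := by
      intro h
      rw [h, one_smul] at hi
      exact hne hi
    have hWnorm : ∀ w ∈ F.K a, w • b = b → ∀ j : ℕ, ((z ^ i) ^ j)⁻¹ * w * (z ^ i) ^ j ∈ F.K a ∧
        (((z ^ i) ^ j)⁻¹ * w * (z ^ i) ^ j) • b = b := by
      intro w hw hwb j
      induction j with
      | zero => simpa using ⟨hw, hwb⟩
      | succ j ih =>
        obtain ⟨ih1, ih2⟩ := ih
        set w' := ((z ^ i) ^ j)⁻¹ * w * (z ^ i) ^ j with hw'
        have h3 : ((z ^ i) ^ (j + 1))⁻¹ * w * (z ^ i) ^ (j + 1) = (z ^ i)⁻¹ * w' * z ^ i := by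
          rw [hw', pow_succ]; group
        rw [h3]
        have hziK : z ^ i ∈ F.K a := Subgroup.pow_mem _ hzK i
        have hmemK : (z ^ i)⁻¹ * w' * z ^ i ∈ F.K a :=
          Subgroup.mul_mem _ (Subgroup.mul_mem _ (Subgroup.inv_mem _ hziK) ih1) hziK
        refine ⟨hmemK, ?_⟩
        -- use `c`, `c'`
        have h4 : w' • c' = c' := (hc'.2 w' ih1).mpr ih2
        have h5 : ((z ^ i)⁻¹ * w' * z ^ i) • c = c := by
          simp only [mul_smul]
          rw [hi, h4, ← hi, inv_smul_smul]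
        exact (hc.2 _ hmemK).mp h5
    -- so `k` fixes the block pointwise
    have hcop' : Nat.Coprime i p := by
      by_contra hnc
      have hpi : p ∣ i := (Nat.Prime.dvd_iff_not_coprime hp).mpr (fun h => hnc h.symm)
      exact hzi (orderOf_dvd_iff_pow_eq_one.mp (hzo ▸ hpi))
    have hzpow : ∃ j : ℕ, (z ^ i) ^ j = z := by
      obtain ⟨j, -, hj⟩ := Nat.exists_mul_mod_eq_one_of_coprime hcop' hp.one_lt
      refine ⟨j, ?_⟩
      rw [← pow_mul]
      have h5 := pow_mod_orderOf z (i * j)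
      rw [hzo, hj, pow_one] at h5
      exact h5.symm
    obtain ⟨j₀, hj₀⟩ := hzpow
    have hfixblock : ∀ d ∈ F.L a c, k • d = d := by
      intro d hd
      obtain ⟨m, hm⟩ := hz d hd
      have h1 : z ^ m = (z ^ i) ^ (j₀ * m) := by rw [pow_mul, hj₀]
      have h3 := hWnorm k hk hkb (j₀ * m)
      have h4 : (((z ^ i) ^ (j₀ * m))⁻¹ * k * (z ^ i) ^ (j₀ * m)) • c = c :=
        (hc.2 _ h3.1).mpr h3.2
      rw [← h1] at h4
      rw [← hm]
      simp only [mul_smul] at h4
      have := congrArg (fun x => z ^ m • x) h4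
      simpa using this
    exact hk1 (kernel_faithful hp hn h2 hcop F hac hk hfixblock)
  -- the size of `B'`
  have hcardle : B'.ncard * p + 1 ≤ Fintype.card Ω := by
    have := F.card_mul_le a B'.toFinset (fun e he => by
        have : e ∈ B' := by simpa using he
        exact this.1.symm) (by
        intro e he e' he' hne hmem
        have h1 : e ∈ B' := by simpa using he
        have h3 : e' ∈ B' := by simpa using he'
        exact hne (huniq e e' h1 h3 hmem))
    rwa [← Set.ncard_eq_toFinset_card'] at this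
  have hcardge : Fintype.card Ω ≤ B'.ncard * p + 1 := by
    have hsub : (Finset.univ.erase a : Finset Ω) ⊆
        B'.toFinset.biUnion (fun e => (F.L a e).toFinset) := by
      intro x hx
      have hax : a ≠ x := (Finset.mem_erase.mp hx).1.symm
      obtain ⟨c', hc', hc'B⟩ := hmeet x hax
      refine Finset.mem_biUnion.mpr ⟨c', by simpa using hc'B, ?_⟩
      have h1 := F.eq_of_mem a x c' hax hc'
      simp only [Set.mem_toFinset]
      rw [h1]
      exact F.self_mem a x hax
    have hle := Finset.card_le_card hsub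
    rw [Finset.card_erase_of_mem (Finset.mem_univ _), Finset.card_univ] at hle
    have hbi : (B'.toFinset.biUnion (fun e => (F.L a e).toFinset)).card ≤ B'.toFinset.card * p := by
      apply Finset.card_biUnion_le_card_mul
      intro e he
      have h1 : e ∈ B' := by simpa using he
      rw [← Set.ncard_eq_toFinset_card', F.ncard a e h1.1]
    rw [← Set.ncard_eq_toFinset_card'] at hbi
    omega
  have hcardB : B'.ncard = p := by
    have h1 : B'.ncard * p = p * p := by rw [hn] at hcardle hcardge; nlinarith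
    exact Nat.eq_of_mul_eq_mul_right hp.pos h1
  -- conjugates of kernel elements
  have hconj : ∀ h : G, h • a = a → ∀ x ∈ F.K a, h * x * h⁻¹ ∈ F.K a := by
    intro h hh x hx
    have := Fam.conj_mem_K F hx h
    rwa [hh] at this
  -- block property
  have hsubset : ∀ h : G, h • a = a → ∀ e, e ∈ B' → h⁻¹ • e ∈ B' → ∀ y ∈ B', h • y ∈ B' := by
    intro h hh e he he' y hy
    refine ⟨fun hay => hy.1 ?_, fun x hx => ?_⟩
    · have := congrArg (fun u => h⁻¹ • u) hay
      simpa [inv_smul_eq_iff.mpr hh.symm] using this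
    · have hhi : h⁻¹ • a = a := inv_smul_eq_iff.mpr hh.symm
      have hx' : h⁻¹ * x * h⁻¹⁻¹ ∈ F.K a := hconj h⁻¹ hhi x hx
      have e1 : x • h • y = h • y ↔ (h⁻¹ * x * h⁻¹⁻¹) • y = y := by
        simp only [mul_smul, inv_inv]
        rw [inv_smul_eq_iff]
      have e2 : (h⁻¹ * x * h⁻¹⁻¹) • h⁻¹ • e = h⁻¹ • e ↔ x • e = e := by
        simp only [mul_smul, inv_inv, smul_inv_smul]
        rw [inv_smul_eq_iff, smul_inv_smul]
      rw [e1, hy.2 _ hx', ← he'.2 _ hx', e2, he.2 x hx]
  have hblock : ∀ h : G, h • a = a → h • B' = B' ∨ Disjoint (h • B') B' := by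
    intro h hh
    by_cases hdis : Disjoint (h • B') B'
    · exact Or.inr hdis
    · left
      obtain ⟨e, he1, he2⟩ := Set.not_disjoint_iff.mp hdis
      have he' : h⁻¹ • e ∈ B' := by
        rcases he1 with ⟨y, hy, rfl⟩
        simpa using hy
      have hsub : h • B' ⊆ B' := by
        rintro _ ⟨y, hy, rfl⟩
        exact hsubset h hh e he2 he' y hy
      exact Set.eq_of_subset_of_ncard_le hsub (by
        rw [Set.ncard_smul_set]) (Set.toFinite _)
  obtain ⟨F', hF'⟩ := exists_fam_of_block h2 a b hab B' haB hbB hblock hcardB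
  -- the grid
  rw [is_two_pretransitive_iff] at h2
  have hbase : ∀ c d : Ω, a ≠ c → a ≠ d → ∃! e, e ∈ F.L a c ∧ e ∈ F'.L a d := by
    intro c d hc hd
    obtain ⟨h, hha, hhb⟩ := h2 hab hd
    have hhi : h⁻¹ • a = a := inv_smul_eq_iff.mpr hha.symm
    have hLd : F'.L a d = h • B' := by rw [← hhb]; exact hF' h hha
    have hc₀ : a ≠ h⁻¹ • c := by
      intro e
      apply hc
      have := congrArg (fun u => h • u) e
      simpa [hha] using this
    obtain ⟨e₀, he₀, he₀B⟩ := hmeet _ hc₀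
    have hLc : h • F.L a (h⁻¹ • c) = F.L a c := by
      rw [F.smul_L_of_fix' hc₀ hha, smul_inv_smul]
    refine ⟨h • e₀, ⟨?_, ?_⟩, ?_⟩
    · rw [← hLc]; exact Set.smul_mem_smul_set he₀
    · rw [hLd]; exact Set.smul_mem_smul_set he₀B
    · rintro e ⟨he1, he2⟩
      rw [hLd] at he2
      obtain ⟨y, hy, rfl⟩ := he2
      rw [← hLc] at he1
      obtain ⟨y', hy', hyy⟩ := he1
      have hyy' : y' = y := smul_left_cancel h hyy
      subst hyy'
      have h1 := F.L_eq_of_mem_of_mem hc₀ hc₀ he₀ he₀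
      have hy'eq : e₀ = y' := by
        apply huniq e₀ y' he₀B hy
        have hae₀ : a ≠ e₀ := he₀B.1
        rw [F.eq_of_mem a _ e₀ hc₀ he₀]
        exact hy'
      rw [hy'eq]
  have h2' : IsMultiplyPretransitive G Ω 2 := by
    rw [is_two_pretransitive_iff]
    exact h2
  have hgrid : Grid F F' := grid_of_base h2' F F' a hbase
  exact grid_false F F' hp hn h2' hgrid
    (fun a c hc => exists_z' hp hn h2' hcop F a c hc) hab hk hkb hk1

end Main

end Cfsg.Agent.Lib.P2205
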